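import Cfsg.Agent.Lib.Chevalley.G2InvolutionMain
import Cfsg.Agent.Lib.SL2.Sylow

/-!
The element orders of the centraliser of an involution in `G₂(q)`, `q` odd.
-/

set_option autoImplicit false
set_option linter.unusedSectionVars false

open Matrix Cfsg.Lie
open scoped MatrixGroups

namespace CfsgLib.Chevalley.G2SLThree

variable {F : Type*} [Field F] [Finite F]

/-- `x^n = 1` for one of the three exponents of the centraliser. -/
def CenExp (p q : ℕ) {G : Type*} [Monoid G] (x : G) : Prop :=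
  x ^ (q ^ 2 - 1) = 1 ∨ x ^ (p * (q + 1)) = 1 ∨ x ^ (p * (q - 1)) = 1

theorem sl_pow_cases {p : ℕ} [Fact p.Prime] [CharP F p] (g : SL(2, F)) :
    g ^ (Nat.card F - 1) = 1 ∨ g ^ (Nat.card F + 1) = 1 ∨ g ^ (2 * p) = 1 := by
  by_cases ht : SL2.tr g ^ 2 = 4
  · exact Or.inr (Or.inr (SL2.orderOf_dvd_of_tr_sq_eq ht))
  have hg : (⟨g, Subgroup.mem_centralizer_singleton_iff.2 rfl⟩ :
      Subgroup.centralizer ({g} : Set (SL(2, F)))) ^
        Nat.card (Subgroup.centralizer ({g} : Set (SL(2, F)))) = 1 := pow_card_eq_one'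
  have e := congrArg Subtype.val hg
  rcases SL2.card_centralizer_or ht with h | h <;> rw [h] at e
  · exact Or.inl e
  · exact Or.inr (Or.inl e)

theorem pow_of_dvd {G : Type*} [Monoid G] {x : G} {a b : ℕ} (h : x ^ a = 1) (hab : a ∣ b) :
    x ^ b = 1 := by
  obtain ⟨t, rfl⟩ := hab
  rw [pow_mul, h, one_pow]

theorem toGL_conjD (d : Fˣ) (g : SL(2, F)) :
    slToGL (conjD d g) = glDiag d⁻¹ 1 * slToGL g * glDiag d 1 := by
  apply Units.ext
  show (conjD d g).1 = (glDiag d⁻¹ 1).1 * g.1 * (glDiag d 1).1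
  ext i j
  fin_cases i <;> fin_cases j <;>
    simp [conjD, glDiag, Matrix.mul_apply, Matrix.vecMul, dotProduct, Fin.sum_univ_two] <;> try field_simp

theorem scal_coe (z : Fˣ) : ((scal z : GL (Fin 2) F) : Matrix (Fin 2) (Fin 2) F) = (z : F) • 1 := by
  ext i j
  fin_cases i <;> fin_cases j <;> simp [scal, glDiag]

theorem dt_scal (z : Fˣ) : dt (scal z) = z * z := by
  apply Units.ext
  simp [dt, scal_coe]
  ring

theorem scal_pow (z : Fˣ) (n : ℕ) : scal z ^ n = scal (z ^ n) := by
  induction n with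
  | zero => rw [pow_zero, pow_zero, scal, glScal_one]
  | succ n ih => rw [pow_succ, pow_succ, ih, scal_mul]

/-- A matrix with non-square determinant has order dividing `q² - 1`. -/
theorem pow_of_det_not_square {p : ℕ} [Fact p.Prime] [CharP F p] (hodd : ringChar F ≠ 2)
    {A : GL (Fin 2) F} (hA : ¬ IsSquare (dt A)) : A ^ (Nat.card F ^ 2 - 1) = 1 := by
  set q := Nat.card F with hq
  haveI := Fintype.ofFinite F
  have hqo : Odd q := by
    rw [hq, Nat.card_eq_fintype_card]
    exact Nat.odd_iff.2 (FiniteField.odd_card_of_char_ne_two hodd)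
  have hq1 : 1 < q := Finite.one_lt_card
  have hd1 : dt A ^ (q - 1) = 1 := by
    have := pow_card_eq_one' (x := dt A)
    rwa [Nat.card_units] at this
  have hsq : q ^ 2 - 1 = (q + 1) * (q - 1) := by rw [← Nat.sq_sub_sq, one_pow]
  obtain ⟨k, hk⟩ := hqo
  set d : Fˣ := dt A with hd
  set t : F := (A : Matrix (Fin 2) (Fin 2) F) 0 0 + (A : Matrix (Fin 2) (Fin 2) F) 1 1 with ht
  have hdet : (d : F) = (A : Matrix (Fin 2) (Fin 2) F).det := rfl
  have hsqA : ((A ^ 2 : GL (Fin 2) F) : Matrix (Fin 2) (Fin 2) F) =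
      t • (A : Matrix (Fin 2) (Fin 2) F) - (d : F) • 1 := by
    rw [Units.val_pow_eq_pow_val, sq, hdet, ht, Matrix.det_fin_two]
    ext i j
    fin_cases i <;> fin_cases j <;> simp [Matrix.mul_apply, Fin.sum_univ_two] <;> ring
  let N : SL(2, F) := ⟨((scal d⁻¹ * A ^ 2 : GL (Fin 2) F) : Matrix (Fin 2) (Fin 2) F), by
    have e : dt (scal d⁻¹ * A ^ 2) = 1 := by
      simp only [dt, map_mul, map_pow]
      rw [show Matrix.GeneralLinearGroup.det (scal d⁻¹) = d⁻¹ * d⁻¹ from dt_scal _,
        show Matrix.GeneralLinearGroup.det A = d from rfl]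
      group
    exact congrArg Units.val e⟩
  have hN : slToGL N = scal d⁻¹ * A ^ 2 := Units.ext rfl
  have key : ∀ n, N ^ n = 1 → A ^ (2 * n) = scal (d ^ n) := by
    intro n hn
    have e := congrArg slToGL hn
    rw [show slToGL (N ^ n) = slToGL N ^ n from map_pow Matrix.SpecialLinearGroup.toGL _ _, hN,
      show slToGL (1 : SL(2, F)) = 1 from map_one Matrix.SpecialLinearGroup.toGL,
      (show Commute (scal d⁻¹) (A ^ 2) from scal_comm _ _).mul_pow, ← pow_mul, scal_pow,
      ← eq_inv_mul_iff_mul_eq, mul_one] at e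
    rw [e, inv_pow]
    refine inv_eq_of_mul_eq_one_right ?_
    rw [scal_mul, inv_mul_cancel, scal, glScal_one]
  by_cases h4 : SL2.tr N ^ 2 = 4
  · -- then the trace vanishes and `A²` is scalar
    have htr : SL2.tr N = (d : F)⁻¹ * (t * t - 2 * d) := by
      simp only [SL2.tr, N, Units.val_mul, scal_coe, hsqA, Matrix.smul_mul, Matrix.one_mul,
        Matrix.smul_apply, Matrix.sub_apply, Matrix.one_apply_eq, smul_eq_mul,
        Units.val_inv_eq_inv_val, ht]
      ring
    rw [htr] at h4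
    have h0 : t * t * (t * t - 4 * d) = 0 := by
      have hd0 := d.ne_zero
      field_simp at h4
      linear_combination h4
    rcases mul_eq_zero.1 h0 with h | h
    · have ht0 : t = 0 := mul_self_eq_zero.1 h
      have e2 : A ^ 2 = scal (-d) := by
        apply Units.ext
        rw [hsqA, ht0, scal_coe]
        simp
      rw [show q ^ 2 - 1 = 2 * ((q - 1) * (k + 1)) by rw [hsq, hk]; ring, pow_mul, e2, scal_pow,
        show (-d) ^ ((q - 1) * (k + 1)) = 1 by
          rw [pow_mul, show (-d) ^ (q - 1) = 1 by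
            have := pow_card_eq_one' (x := -d); rwa [Nat.card_units] at this, one_pow],
        scal, glScal_one]
    · refine absurd ?_ hA
      have h2 := Ring.two_ne_zero hodd
      have hne : t / 2 ≠ 0 := by
        intro h0'
        rw [div_eq_zero_iff, or_iff_left h2] at h0'
        apply d.ne_zero
        have : (4 : F) * d = 0 := by rw [h0'] at h; linear_combination -h
        rcases mul_eq_zero.1 this with h4' | h4'
        · exact absurd (show (2 : F) * 2 = 0 by linear_combination h4') (mul_ne_zero h2 h2)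
        · exact h4'
      refine ⟨Units.mk0 _ hne, Units.ext ?_⟩
      rw [Units.val_mul, Units.val_mk0]
      field_simp
      linear_combination -h
  · have hN' : N ^ (q - 1) = 1 ∨ N ^ (q + 1) = 1 := by
      have hg : (⟨N, Subgroup.mem_centralizer_singleton_iff.2 rfl⟩ :
          Subgroup.centralizer ({N} : Set (SL(2, F)))) ^
            Nat.card (Subgroup.centralizer ({N} : Set (SL(2, F)))) = 1 := pow_card_eq_one'
      have e := congrArg Subtype.val hg
      rcases SL2.card_centralizer_or h4 with h | h <;> rw [h] at e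
      exacts [Or.inl e, Or.inr e]
    rcases hN' with h | h
    · have e := key _ h
      rw [show q ^ 2 - 1 = 2 * (q - 1) * (k + 1) by rw [hsq, hk]; ring, pow_mul, e, hd1,
        scal, glScal_one, one_pow]
    · have e := key _ h
      rw [show q ^ 2 - 1 = 2 * (q + 1) * k by
          rw [hsq, hk, show 2 * k + 1 - 1 = 2 * k by omega]; ring,
        pow_mul, e, scal_pow, ← pow_mul]
      have : d ^ ((q + 1) * k) = 1 := by
        have hq' : (q + 1) * k = (q - 1) * (k + 1) := by
          rw [hk, show 2 * k + 1 - 1 = 2 * k by omega]; ring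
        rw [hq', pow_mul, hd1, one_pow]
      rw [this, scal, glScal_one]

theorem pow_kHom_jHom (A : GL (Fin 2) F) (l : SL(2, F)) :
    ∀ n : ℕ, ∃ m : SL(2, F), (kHom F A * jHom F l) ^ n = kHom F (A ^ n) * jHom F m ∧
      (glDiag (dt A)⁻¹ 1 * slToGL l) ^ n = glDiag (dt (A ^ n))⁻¹ 1 * slToGL m := by
  intro n
  induction n with
  | zero =>
    refine ⟨1, by simp, ?_⟩
    rw [pow_zero, pow_zero, show slToGL (1 : SL(2, F)) = 1 from map_one Matrix.SpecialLinearGroup.toGL,
      show dt (1 : GL (Fin 2) F) = 1 from map_one _, inv_one, glScal_one, one_mul]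
  | succ n ih =>
    obtain ⟨m, e1, e2⟩ := ih
    refine ⟨conjD (dt A)⁻¹ m * l, ?_, ?_⟩
    · have e : kHom F A * jHom F (conjD (dt A)⁻¹ m) = jHom F m * kHom F A := by
        rw [kHom_mul_jHom, conjD_conjD, mul_inv_cancel, conjD_one]
      rw [pow_succ, e1, pow_succ, map_mul, map_mul, mul_assoc (kHom F (A ^ n)) (jHom F m),
        ← mul_assoc (jHom F m), ← e]
      simp only [mul_assoc]
    · rw [pow_succ, e2, pow_succ A n, show slToGL (conjD (dt A)⁻¹ m * l) =
          slToGL (conjD (dt A)⁻¹ m) * slToGL l from map_mul Matrix.SpecialLinearGroup.toGL _ _,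
        toGL_conjD, inv_inv, show dt (A ^ n * A) = dt (A ^ n) * dt A from map_mul _ _ _,
        _root_.mul_inv_rev, mul_comm (dt A)⁻¹ (dt (A ^ n))⁻¹]
      rw [show glDiag ((dt (A ^ n))⁻¹ * (dt A)⁻¹) 1 = glDiag (dt (A ^ n))⁻¹ 1 * glDiag (dt A)⁻¹ 1 by
        rw [glDiag_mul, one_mul]]
      have h1 : glDiag (dt A)⁻¹ 1 * glDiag (dt A) 1 = (1 : GL (Fin 2) F) := by
        rw [glDiag_mul, inv_mul_cancel, one_mul, glScal_one]
      simp only [mul_assoc]
      rw [← mul_assoc (glDiag (dt A)⁻¹ 1) (glDiag (dt A) 1), h1, one_mul]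

/-- The element orders of the centraliser of the basic involution. -/
theorem cenExp_of_mem {p : ℕ} [Fact p.Prime] [CharP F p] (hodd : ringChar F ≠ 2)
    {x : GL (ChevalleyDatum.Idx chevG2) F} (hx : x ∈ cenGroup F) :
    CenExp p (Nat.card F) x := by
  obtain ⟨A, l, rfl⟩ := hx
  set q := Nat.card F with hq
  haveI := Fintype.ofFinite F
  have hqo : Odd q := by
    rw [hq, Nat.card_eq_fintype_card]
    exact Nat.odd_iff.2 (FiniteField.odd_card_of_char_ne_two hodd)
  have hq1 : 1 < q := Finite.one_lt_card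
  have hsq : q ^ 2 - 1 = (q + 1) * (q - 1) := by rw [← Nat.sq_sub_sq, one_pow]
  obtain ⟨k, hk⟩ := hqo
  by_cases hA : IsSquare (dt A)
  · obtain ⟨z, hz⟩ := hA
    obtain ⟨P, hP⟩ : ∃ P : SL(2, F), A = scal z * slToGL P := by
      refine ⟨⟨((scal z⁻¹ * A : GL (Fin 2) F)).1, ?_⟩, ?_⟩
      · have e : dt (scal z⁻¹ * A) = 1 := by
          rw [show dt (scal z⁻¹ * A) = dt (scal z⁻¹) * dt A from map_mul _ _ _, dt_scal, hz]
          group
        exact congrArg Units.val e
      · apply Units.ext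
        show _ = (scal z).1 * (scal z⁻¹ * A : GL (Fin 2) F).1
        rw [← Units.val_mul, ← mul_assoc, scal_mul, mul_inv_cancel, scal, glScal_one, one_mul]
    have e : kHom F (scal z) = jHom F (diagTwo z⁻¹) :=
      (kHom_eq_jHom_iff _ _).2 ⟨z, rfl, rfl⟩
    have ex : kHom F A * jHom F l = kHom F (slToGL P) * jHom F (diagTwo z⁻¹ * l) := by
      rw [hP, scal_comm, map_mul, map_mul, e, mul_assoc]
    rw [ex]
    set l' := diagTwo z⁻¹ * l
    have hcomb : ∀ n, P ^ n = 1 → l' ^ n = 1 → (kHom F (slToGL P) * jHom F l') ^ n = 1 := by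
      intro n h1 h2
      rw [(commute_kHom_jHom_of_det_one P l').mul_pow, ← map_pow, ← map_pow, h2, map_one,
        show slToGL P ^ n = slToGL (P ^ n) from (map_pow Matrix.SpecialLinearGroup.toGL _ _).symm,
        h1, show slToGL (1 : SL(2, F)) = 1 from map_one Matrix.SpecialLinearGroup.toGL, map_one,
        one_mul]
    have h2m : 2 ∣ q - 1 := ⟨k, by omega⟩
    have h2p : 2 ∣ q + 1 := ⟨k + 1, by omega⟩
    have hA2 : q - 1 ∣ q ^ 2 - 1 := hsq ▸ dvd_mul_left _ _
    have hB2 : q + 1 ∣ q ^ 2 - 1 := hsq ▸ dvd_mul_right _ _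
    have p2m : 2 * p ∣ p * (q - 1) := by rw [mul_comm]; exact mul_dvd_mul_left _ h2m
    have p2p : 2 * p ∣ p * (q + 1) := by rw [mul_comm]; exact mul_dvd_mul_left _ h2p
    have dm : q - 1 ∣ p * (q - 1) := dvd_mul_left _ _
    have dp : q + 1 ∣ p * (q + 1) := dvd_mul_left _ _
    rcases sl_pow_cases (p := p) P with h | h | h <;>
      rcases sl_pow_cases (p := p) l' with h' | h' | h'
    · exact Or.inl (hcomb _ (pow_of_dvd h hA2) (pow_of_dvd h' hA2))
    · exact Or.inl (hcomb _ (pow_of_dvd h hA2) (pow_of_dvd h' hB2))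
    · exact Or.inr (Or.inr (hcomb _ (pow_of_dvd h dm) (pow_of_dvd h' p2m)))
    · exact Or.inl (hcomb _ (pow_of_dvd h hB2) (pow_of_dvd h' hA2))
    · exact Or.inl (hcomb _ (pow_of_dvd h hB2) (pow_of_dvd h' hB2))
    · exact Or.inr (Or.inl (hcomb _ (pow_of_dvd h dp) (pow_of_dvd h' p2p)))
    · exact Or.inr (Or.inr (hcomb _ (pow_of_dvd h p2m) (pow_of_dvd h' dm)))
    · exact Or.inr (Or.inl (hcomb _ (pow_of_dvd h p2p) (pow_of_dvd h' dp)))
    · exact Or.inr (Or.inl (hcomb _ (pow_of_dvd h p2p) (pow_of_dvd h' p2p)))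
  · left
    set n := q ^ 2 - 1
    obtain ⟨m, e1, e2⟩ := pow_kHom_jHom A l n
    have hAn : A ^ n = 1 := pow_of_det_not_square (p := p) hodd hA
    have hB : ¬ IsSquare (dt (glDiag (dt A)⁻¹ 1 * slToGL l)) := by
      have e : dt (glDiag (dt A)⁻¹ 1 * slToGL l) = (dt A)⁻¹ := by
        rw [show dt (glDiag (dt A)⁻¹ 1 * slToGL l) = dt (glDiag (dt A)⁻¹ 1) * dt (slToGL l) from
          map_mul _ _ _]
        apply Units.ext
        have hl : (slToGL l : Matrix (Fin 2) (Fin 2) F).det = 1 := l.2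
        simp [dt, glDiag, Matrix.det_fin_two_of, hl]
      rw [e]
      rintro ⟨r, hr⟩
      exact hA ⟨r⁻¹, by rw [← mul_inv, ← hr, inv_inv]⟩
    rw [e1, hAn, map_one, one_mul]
    rw [pow_of_det_not_square (p := p) hodd hB, hAn, show dt (1 : GL (Fin 2) F) = 1 from map_one _,
      inv_one, glScal_one, one_mul] at e2
    have hm : m = 1 := Matrix.SpecialLinearGroup.toGL_injective
      (e2.symm.trans (map_one Matrix.SpecialLinearGroup.toGL).symm)
    rw [hm, map_one]

/-- The orders of the elements of `G₂(q)` centralising an involution. -/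
theorem cenExp_of_commute {p : ℕ} [Fact p.Prime] [CharP F p] (hodd : ringChar F ≠ 2)
    {t x : G F} (ht : orderOf t = 2) (hc : Commute x t) : CenExp p (Nat.card F) x := by
  obtain ⟨c, hc'⟩ := exists_conj_tG hodd ht
  have h : c * x * c⁻¹ ∈ Subgroup.centralizer ({tG F} : Set (G F)) := by
    rw [Subgroup.mem_centralizer_singleton_iff, ← hc']
    exact (hc.map (MulAut.conj c).toMonoidHom).eq
  rw [centralizer_tG hodd, Subgroup.mem_comap] at h
  have key : ∀ n, ((c * x * c⁻¹ : G F) : GL (ChevalleyDatum.Idx chevG2) F) ^ n = 1 → x ^ n = 1 := by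
    intro n hn
    have e : (c * x * c⁻¹) ^ n = 1 := Subtype.ext hn
    rwa [conj_pow, conj_eq_one_iff] at e
  rcases cenExp_of_mem (p := p) hodd h with h | h | h
  exacts [Or.inl (key _ h), Or.inr (Or.inl (key _ h)), Or.inr (Or.inr (key _ h))]

end CfsgLib.Chevalley.G2SLThree
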