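import Cfsg.Agent.Lib.Chevalley.G2SLThree
import Cfsg.Agent.Lib.Chevalley.RegularTorus
import Cfsg.Agent.Lib.ClassicalLinear.SingerThree

/-!
The torus of order `q² + q + 1` of `G₂(q)`: the image of a Singer cycle of the long-root `SL₃`
is its own centraliser.
-/

set_option autoImplicit false
set_option maxRecDepth 10000

open Matrix Cfsg.Lie
open scoped MatrixGroups

namespace CfsgLib.Chevalley.G2SLThree

/-- The two exponents of a root at a Singer cycle. -/
def expPair (s : Fin chevG2.nroots) : ℤ × ℤ :=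
  (weight (Sum.inr s) 0 - weight (Sum.inr s) 2, weight (Sum.inr s) 1 - weight (Sum.inr s) 2)

theorem expPair_bound : ∀ s : Fin 12,
    ((expPair s).1 ≠ 0 ∨ (expPair s).2 ≠ 0) ∧ |(expPair s).1| ≤ 4 ∧ |(expPair s).2| ≤ 4 := by decide +kernel

theorem expPair_injective : ∀ s s' : Fin 12, (expPair s).1 ≠ (expPair s').1 ∨
    (expPair s).2 ≠ (expPair s').2 ∨ s = s' := by decide +kernel

theorem expPair_diff_bound : ∀ s s' : Fin 12,
    |(expPair s).1 - (expPair s').1| ≤ 4 ∧ |(expPair s).2 - (expPair s').2| ≤ 4 := by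
  decide +kernel

theorem expPair_small : ∀ q : Fin 5, 3 ≤ (q : ℕ) → ∀ s : Fin 12,
    ¬ ((q : ℤ) ^ 2 + q + 1) ∣ (expPair s).1 + (expPair s).2 * q ∧
      ∀ s' : Fin 12, s ≠ s' → ¬ ((q : ℤ) ^ 2 + q + 1) ∣
        ((expPair s).1 - (expPair s').1) + ((expPair s).2 - (expPair s').2) * q := by
  decide +kernel

theorem not_dvd_of_small {q : ℤ} (hq : 5 ≤ q) {A B : ℤ} (hA : |A| ≤ 4) (hB : |B| ≤ 4)
    (hne : A ≠ 0 ∨ B ≠ 0) : ¬ q ^ 2 + q + 1 ∣ A + B * q := by
  intro h
  rw [abs_le] at hA hB
  have h0 : A + B * q = 0 := by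
    refine Int.eq_zero_of_abs_lt_dvd h ?_
    rw [abs_lt]
    constructor <;> nlinarith
  have hB0 : B = 0 := by
    rcases lt_trichotomy B 0 with hlt | h | hlt
    · nlinarith
    · exact h
    · nlinarith
  subst hB0
  omega

theorem not_dvd_exp {q : ℕ} (hq : 3 ≤ q) (s : Fin 12) :
    ¬ ((q : ℤ) ^ 2 + q + 1) ∣ (expPair s).1 + (expPair s).2 * q ∧
      ∀ s' : Fin 12, s ≠ s' → ¬ ((q : ℤ) ^ 2 + q + 1) ∣
        ((expPair s).1 - (expPair s').1) + ((expPair s).2 - (expPair s').2) * q := by
  by_cases h5 : q < 5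
  · exact expPair_small ⟨q, h5⟩ hq s
  · obtain ⟨h0, h1, h2⟩ := expPair_bound s
    refine ⟨not_dvd_of_small (by omega) h1 h2 h0, fun s' hs => ?_⟩
    · exact not_dvd_of_small (by omega) (expPair_diff_bound s s').1 (expPair_diff_bound s s').2
        (by
          by_contra hc
          push Not at hc
          rcases expPair_injective s s' with h | h | h
          · exact h (sub_eq_zero.1 hc.1)
          · exact h (sub_eq_zero.1 hc.2)
          · exact hs h)

section Fields

variable {F K : Type*} [Field F] [Field K]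

theorem map_mem_group (f : F →+* K) {x : GL chevG2.Idx F} (hx : x ∈ chevG2.group F) :
    Matrix.GeneralLinearGroup.map f x ∈ chevG2.group K := by
  induction hx using Subgroup.closure_induction with
  | mem y hy =>
    obtain ⟨r, t, hy⟩ := hy
    refine Subgroup.subset_closure ⟨r, f t, ?_⟩
    show ((y : Matrix chevG2.Idx chevG2.Idx F).map f) = _
    rw [hy, xMat_eq_xR, xMat_eq_xR, xR_map f cert_G2.wf]
  | one => rw [map_one]; exact one_mem _
  | mul a b _ _ ha hb => rw [map_mul]; exact mul_mem ha hb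
  | inv a _ ha => rw [map_inv]; exact inv_mem ha

theorem map_slHom (f : F →+* K) (g : SL(3, F)) :
    Matrix.GeneralLinearGroup.map f (slHom F g) =
      slHom K (Matrix.SpecialLinearGroup.map f g) := by
  apply Units.ext
  show (img (g : Matrix (Fin 3) (Fin 3) F) _).map f = _
  rw [map_img, coe_slHom, ← map_inv]
  rfl

/-- An element of `SL₃` with diagonal matrix maps to a torus element. -/
theorem slHom_eq_torusHom {D : SL(3, K)} (c : Fin chevG2.rank → Kˣ)
    (hD : (D : Matrix (Fin 3) (Fin 3) K) =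
      Matrix.diagonal fun i => ((chi chevG2 (natRoot i) c : Kˣ) : K)) :
    slHom K D = torusHom chevG2 K c := by
  apply Units.ext
  rw [coe_slHom, ← img_diagonal c]
  have hinv : ((D⁻¹ : SL(3, K)) : Matrix (Fin 3) (Fin 3) K) =
      Matrix.diagonal fun i => (((chi chevG2 (natRoot i) c)⁻¹ : Kˣ) : K) := by
    refine left_inv_eq_right_inv (val_inv_mul D) ?_
    rw [hD, Matrix.diagonal_mul_diagonal]
    simp
  rw [hinv, hD]

theorem gl_map_injective {ι : Type*} [Fintype ι] [DecidableEq ι] (f : F →+* K) :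
    Function.Injective (Matrix.GeneralLinearGroup.map (n := ι) f) := fun a b h => by
  apply Units.ext
  ext i j
  exact f.injective (congrArg (fun y : GL ι K => (y : Matrix ι ι K) i j) h)

/-- Elements of `G₂(F)` commuting with the image of a regular element of `SL₃(F)`. -/
theorem exists_preimage_of_commute (f : F →+* K) {g : SL(3, F)} {P : SL(3, K)}
    (c : Fin chevG2.rank → Kˣ) (h1 : ∀ s : Fin chevG2.nroots, chi chevG2 s c ≠ 1)
    (h2 : Function.Injective fun s : Fin chevG2.nroots => chi chevG2 s c)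
    (hP : (P : Matrix (Fin 3) (Fin 3) K) * (g : Matrix (Fin 3) (Fin 3) F).map f =
      Matrix.diagonal (fun i => ((chi chevG2 (natRoot i) c : Kˣ) : K)) *
        (P : Matrix (Fin 3) (Fin 3) K))
    {x : GL chevG2.Idx F} (hx : x ∈ chevG2.group F) (hc : Commute x (slHom F g)) :
    ∃ m : SL(3, F), slHom F m = x ∧ Commute m g := by
  set g' : SL(3, K) := Matrix.SpecialLinearGroup.map f g with hg'
  have hD : ((P * g' * P⁻¹ : SL(3, K)) : Matrix (Fin 3) (Fin 3) K) =
      Matrix.diagonal fun i => ((chi chevG2 (natRoot i) c : Kˣ) : K) := by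
    show (P : Matrix (Fin 3) (Fin 3) K) * (g : Matrix (Fin 3) (Fin 3) F).map f *
      ((P⁻¹ : SL(3, K)) : Matrix (Fin 3) (Fin 3) K) = _
    rw [hP, Matrix.mul_assoc, val_mul_inv, Matrix.mul_one]
  set X := Matrix.GeneralLinearGroup.map f x with hX
  set Y := slHom K P * X * (slHom K P)⁻¹ with hY
  have hYmem : Y ∈ chevG2.group K :=
    mul_mem (mul_mem (slHom_mem_group P) (map_mem_group f hx)) (inv_mem (slHom_mem_group P))
  have hXg : Commute X (slHom K g') := by
    rw [hg', ← map_slHom]
    exact hc.map (Matrix.GeneralLinearGroup.map f)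
  have hYc : Commute (torusHom chevG2 K c) Y := by
    rw [← slHom_eq_torusHom c hD, map_mul, map_mul, map_inv]
    exact (hXg.symm.map (MulAut.conj (slHom K P)).toMonoidHom)
  have hfull : Full chevG2 auxG2 := ⟨⟨cert_G2, posG2, by simp⟩, extraG2⟩
  have hdiag := mem_diagonal_of_commute_regular hfull h1 h2 hYmem hYc
  rw [diagonalSubgroup_eq_range hfull] at hdiag
  obtain ⟨c', hc'⟩ := hdiag
  let T : SL(3, K) :=
    ⟨Matrix.diagonal fun i => ((chi chevG2 (natRoot i) c' : Kˣ) : K), by
      rw [Matrix.det_diagonal, ← Units.coe_prod, prod_natRoot, Units.val_one]⟩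
  have hXM : X = slHom K (P⁻¹ * T * P) := by
    rw [map_mul, map_mul, map_inv, slHom_eq_torusHom (D := T) c' rfl, hc', hY]
    group
  let m0 : Matrix (Fin 3) (Fin 3) F :=
    (cst (bVec natRoot) : Matrix (Fin 3) chevG2.Idx F) * (x : Matrix chevG2.Idx chevG2.Idx F) *
      (cst (cVec natRoot) : Matrix chevG2.Idx (Fin 3) F)
  have hm0 : m0.map f = ((P⁻¹ * T * P : SL(3, K)) : Matrix (Fin 3) (Fin 3) K) := by
    have e : (x : Matrix chevG2.Idx chevG2.Idx F).map f =
        img ((P⁻¹ * T * P : SL(3, K)) : Matrix (Fin 3) (Fin 3) K)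
          (((P⁻¹ * T * P)⁻¹ : SL(3, K)) : Matrix (Fin 3) (Fin 3) K) :=
      congrArg Units.val hXM
    simp only [m0, Matrix.map_mul, map_cst, e, natBlock_img]
  have hdet : m0.det = 1 := by
    apply f.injective
    rw [RingHom.map_det, RingHom.mapMatrix_apply, hm0, map_one]
    exact (P⁻¹ * T * P : SL(3, K)).2
  obtain ⟨m, hm⟩ : ∃ m : SL(3, F), (m : Matrix (Fin 3) (Fin 3) F) = m0 := ⟨⟨m0, hdet⟩, rfl⟩
  have hxm : slHom F m = x := by
    apply gl_map_injective f
    rw [map_slHom, ← hX, hXM]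
    refine congrArg _ (Subtype.ext ?_)
    show (m : Matrix (Fin 3) (Fin 3) F).map f = _
    rw [hm, hm0]
  refine ⟨m, hxm, slHom_injective ?_⟩
  rw [map_mul, map_mul, hxm, hc.eq]

end Fields

/-- `G₂(q)` has a self-centralising cyclic subgroup of order `q² + q + 1`. -/
theorem exists_selfCentralizing {F K : Type*} [Field F] [Fintype F] [Field K] [Finite K]
    [Algebra F K] (hK : Module.finrank F K = 3) (hq : 3 ≤ Fintype.card F) :
    ∃ H : Subgroup ↥(chevG2.group F), IsCyclic ↥H ∧
      Nat.card ↥H = Fintype.card F ^ 2 + Fintype.card F + 1 ∧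
      Subgroup.centralizer (H : Set ↥(chevG2.group F)) = H := by
  haveI : FiniteDimensional F K := Module.finite_of_finrank_eq_succ hK
  let b := Module.finBasisOfFinrankEq F K hK
  obtain ⟨α, hα⟩ := ClassicalLinear.SingerThree.exists_orderOf_eq (F := F) hK
  obtain ⟨P, hP⟩ := ClassicalLinear.SingerThree.exists_diagonalizer b hα
  set g := ClassicalLinear.SingerThree.singer b hα with hg
  let φ : SL(3, F) →* ↥(chevG2.group F) := (slHom F).codRestrict _ slHom_mem_group
  have hφ : Function.Injective φ := fun a b h => slHom_injective (congrArg Subtype.val h)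
  refine ⟨Subgroup.zpowers (φ g), inferInstance, ?_, le_antisymm ?_ ?_⟩
  · rw [Nat.card_zpowers, orderOf_injective φ hφ, ClassicalLinear.SingerThree.orderOf_singer]
  · intro x hx
    have hc : Commute x (φ g) :=
      (Subgroup.mem_centralizer_iff.1 hx _ (Subgroup.mem_zpowers _)).symm
    set q := Fintype.card F with hqdef
    let t : Fin 3 → Kˣ := fun i => α ^ q ^ (i : ℕ)
    have ht : t 0 * t 1 * t 2 = 1 := by
      show α ^ q ^ 0 * α ^ q ^ 1 * α ^ q ^ 2 = 1
      rw [← pow_add, ← pow_add, ← pow_orderOf_eq_one α, hα]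
      ring_nf
    obtain ⟨c, hcc⟩ := exists_torus_natRoot t ht
    let ex : Fin chevG2.nroots → ℤ := fun s => (expPair s).1 + (expPair s).2 * q +
      weight (Sum.inr s) 2 * ((q : ℤ) ^ 2 + q + 1)
    have hchi : ∀ s : Fin chevG2.nroots, chi chevG2 s c = α ^ ex s := by
      intro s
      rw [chi_eq_prod, Fin.prod_univ_three, hcc, hcc, hcc]
      simp only [t, ← zpow_natCast, ← _root_.zpow_mul, ← _root_.zpow_add, ex, expPair]
      congr 1
      simp
      ring
    have hord : (orderOf α : ℤ) = (q : ℤ) ^ 2 + q + 1 := by rw [hα]; push_cast; ring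
    have h1 : ∀ s : Fin chevG2.nroots, chi chevG2 s c ≠ 1 := by
      intro s hs
      rw [hchi, ← orderOf_dvd_iff_zpow_eq_one, hord] at hs
      exact (not_dvd_exp hq s).1 ((dvd_add_left (dvd_mul_left _ _)).1 hs)
    have h2 : Function.Injective fun s : Fin chevG2.nroots => chi chevG2 s c := by
      intro s s' he
      by_contra hne
      dsimp only at he
      rw [hchi, hchi, zpow_eq_zpow_iff_modEq, Int.modEq_comm, Int.modEq_iff_dvd, hord] at he
      have he' : ((q : ℤ) ^ 2 + q + 1) ∣
          ((expPair s).1 - (expPair s').1) + ((expPair s).2 - (expPair s').2) * q +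
            (weight (Sum.inr s) 2 - weight (Sum.inr s') 2) * ((q : ℤ) ^ 2 + q + 1) := by
        have e : ((expPair s).1 - (expPair s').1) + ((expPair s).2 - (expPair s').2) * (q : ℤ) +
            (weight (Sum.inr s) 2 - weight (Sum.inr s') 2) * ((q : ℤ) ^ 2 + q + 1) =
            ex s - ex s' := by
          simp only [ex]
          ring
        rw [e]
        exact he
      exact (not_dvd_exp hq s).2 s' hne ((Int.dvd_add_left (Int.dvd_mul_left _ _)).1 he')
    obtain ⟨m, hm, hmg⟩ := exists_preimage_of_commute (algebraMap F K) (g := g) (P := P) c h1 h2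
      (by simpa only [hcc, t, Units.val_pow_eq_pow_val] using hP)
      (x := (x : GL chevG2.Idx F)) x.2 (congrArg Subtype.val hc.eq)
    obtain ⟨k, hk⟩ := Subgroup.mem_zpowers_iff.1
      (ClassicalLinear.SingerThree.mem_zpowers_of_commute b hα hmg)
    refine Subgroup.mem_zpowers_iff.2 ⟨k, ?_⟩
    rw [← map_zpow, hk]
    exact Subtype.ext hm
  · intro x hx
    rw [Subgroup.mem_centralizer_iff]
    intro y hy
    obtain ⟨i, rfl⟩ := Subgroup.mem_zpowers_iff.1 hx
    obtain ⟨j, rfl⟩ := Subgroup.mem_zpowers_iff.1 (SetLike.mem_coe.1 hy)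
    exact ((Commute.refl _).zpow_zpow j i).eq

end CfsgLib.Chevalley.G2SLThree
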