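import Cfsg.Agent.Lib.Chevalley.G2Tori

/-!
The tori of order `(q - 1)²` and `(q + 1)²` of `G₂(q)` extended by an element of order three:
they contain the elements of prime order `r ≥ 5` dividing `q² - 1` and the 3-elements, and the
centraliser of such an element that meets the unipotent elements is centralised by an involution.
-/

set_option autoImplicit false
set_option linter.unusedSectionVars false

open Matrix Cfsg.Lie

namespace CfsgLib.Chevalley.G2Tori

open CfsgLib.KnownSimple.ChevalleyLang (Omega exists_preimage)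
open Twist

theorem exists_fixed_coset {G : Type*} [Group G] [Finite G] {H : Subgroup G} {r k : ℕ}
    [Fact r.Prime] {y : G} (hy : y ^ r ^ k = 1) (hH : ¬ r ∣ H.index) :
    ∃ c : G, c * y * c⁻¹ ∈ H := by
  have hP : IsPGroup r (Subgroup.zpowers y) := by
    obtain ⟨j, -, hj⟩ := (Nat.dvd_prime_pow Fact.out).1 (orderOf_dvd_of_pow_eq_one hy)
    exact IsPGroup.of_card (by rw [Nat.card_zpowers, hj])
  obtain ⟨a, ha⟩ := hP.nonempty_fixed_point_of_prime_not_dvd_card (G ⧸ H) hH
  induction a using QuotientGroup.induction_on with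
  | H c =>
    refine ⟨c⁻¹, ?_⟩
    have e := ha ⟨y, Subgroup.mem_zpowers y⟩
    change ((y * c : G) : G ⧸ H) = (c : G ⧸ H) at e
    rw [eq_comm, QuotientGroup.eq] at e
    rw [inv_inv, mul_assoc]
    exact e

theorem coxWord_add : ∀ a b : ℕ, coxWord (a + b) = coxWord a ++ coxWord b
  | 0, b => by simp [coxWord]
  | a + 1, b => by rw [Nat.succ_add, coxWord, coxWord_add a b, coxWord, List.cons_append, List.cons_append]

section Monomial

variable {K : Type*} [Field K]

theorem nW_cox (n : ℕ) : nW full.cert K (coxWord n) = nW full.cert K (coxWord 1) ^ n := by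
  induction n with
  | zero => simp [coxWord]
  | succ n ih => rw [coxWord_add, nW_append, ih, pow_succ]

theorem exists_acts_sq : ∀ l : List (Fin chevG2.rank), ∃ η : Fin chevG2.nroots → K,
    Acts full.cert (nW full.cert K l) (wPerm full.cert l) η ∧ ∀ s, η s * η s = 1 := by
  intro l
  induction l with
  | nil => exact ⟨_, by rw [nW_nil, wPerm_nil]; exact acts_one full.cert, fun _ => one_mul 1⟩
  | cons i l ih =>
    obtain ⟨η, hη, hsq⟩ := ih
    refine ⟨_, by rw [nW_cons, wPerm_cons]; exact (acts_nG_simple full i one_ne_zero).mul hη,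
      fun s => ?_⟩
    have e : ∀ u : Fin chevG2.nroots, etaAt auxG2 i u * etaAt auxG2 i u = 1 := by
      intro u
      have h := (refl_spec cert_G2 (A := auxG2) i.isLt u.isLt).2.2.2.2.2.1
      rcases Int.eq_one_or_neg_one_of_mul_eq_one h with h' | h' <;> rw [h'] <;> norm_num
    simp only [_root_.one_zpow, mul_one]
    rw [mul_mul_mul_comm, hsq, ← Int.cast_mul, e, Int.cast_one, one_mul]

theorem cox_pow_twelve : nW full.cert K (coxWord 1) ^ 12 = 1 := by
  obtain ⟨η, hA, hsq⟩ := exists_acts_sq (K := K) (coxWord 6)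
  have hperm : wPerm full.cert (coxWord 6) = 1 := Equiv.ext cox_perm_data.1
  have hdiag : nW full.cert K (coxWord 6) ∈ chevG2.diagonalSubgroup K :=
    mem_diagonal_of_perm full (nW_mem_monomial full _) hA fun i => by
      rw [hperm]; exact full.simple_pos i.isLt
  rw [diagonalSubgroup_eq_range full] at hdiag
  obtain ⟨d, hd⟩ := hdiag
  rw [show 12 = 6 * 2 from rfl, pow_mul, ← nW_cox, ← hd, ← map_pow, ← map_one (torusHom chevG2 K)]
  refine torusHom_eq_of_chi fun s => ?_
  rw [map_pow, map_one, sq]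
  have e := congrArg (fun M : GL chevG2.Idx K =>
    (M : Matrix chevG2.Idx chevG2.Idx K) (Sum.inr s) (Sum.inr s)) hd
  simp only [coe_torusHom, Matrix.diagonal_apply_eq, Sum.elim_inr, hA.col, hperm,
    Equiv.Perm.one_apply, if_true] at e
  exact Units.ext (by rw [Units.val_mul, e, hsq, Units.val_one])

/-- The monomial element of order three. -/
noncomputable def rotThree (K : Type*) [Field K] : GL chevG2.Idx K :=
  nW full.cert K (coxWord 8)

theorem wPerm_cox_eight : wPerm full.cert (coxWord 8) = wPerm full.cert (coxWord 2) := by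
  rw [show (8 : ℕ) = 6 + 2 from rfl, coxWord_add, wPerm_append,
    show wPerm full.cert (coxWord 6) = 1 from Equiv.ext cox_perm_data.1, one_mul]

theorem rotThree_pow_three : rotThree K ^ 3 = 1 := by
  rw [rotThree, nW_cox, ← pow_mul, show 8 * 3 = 12 * 2 from rfl, pow_mul, cox_pow_twelve, one_pow]

theorem exists_acts_rotThree :
    ∃ η, Acts full.cert (rotThree K) (wPerm full.cert (coxWord 2)) η := by
  obtain ⟨η, hη⟩ := acts_nW (F := K) full (coxWord 8)
  rw [wPerm_cox_eight] at hη
  exact ⟨η, hη⟩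

theorem conj_torus_pow (j : ℕ) {N : ℕ} {c : Fin chevG2.rank → Kˣ} (hc : c ^ N = 1) :
    ∃ c', c' ^ N = 1 ∧
      rotThree K ^ j * torusHom chevG2 K c = torusHom chevG2 K c' * rotThree K ^ j := by
  have e : rotThree K ^ j = nW full.cert K (coxWord (8 * j)) := by
    rw [rotThree, nW_cox, nW_cox (8 * j), pow_mul]
  obtain ⟨c', hc'⟩ := nW_conj_torus full (coxWord (8 * j)) c
  refine ⟨c', injective_torusHom ?_, ?_⟩
  · rw [map_pow, ← hc', conj_pow, ← map_pow, hc, map_one, mul_one, mul_inv_cancel]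
  · rw [e, ← hc', inv_mul_cancel_right]

theorem twisted_cube {c : Fin chevG2.rank → Kˣ} : (torusHom chevG2 K c * rotThree K) ^ 3 = 1 := by
  obtain ⟨c₁, -, h₁⟩ := conj_torus_pow (K := K) 1 (N := 0) (pow_zero c)
  obtain ⟨c₂, -, h₂⟩ := conj_torus_pow (K := K) 2 (N := 0) (pow_zero c)
  obtain ⟨η, hA⟩ := exists_acts_rotThree (K := K)
  set w := wPerm full.cert (coxWord 2)
  have hA2 := hA.mul hA
  rw [pow_one] at h₁
  rw [sq] at h₂
  have k₁ : ∀ s, chi chevG2 (w s) c₁ = chi chevG2 s c := chi_of_mul_torus_eq hA h₁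
  have k₂ : ∀ s, chi chevG2 ((w * w) s) c₂ = chi chevG2 s c := chi_of_mul_torus_eq hA2 h₂
  have e : (torusHom chevG2 K c * (rotThree K)) ^ 3 =
      torusHom chevG2 K (c * c₁ * c₂) * ((rotThree K) * (rotThree K) * (rotThree K)) := by
    calc (torusHom chevG2 K c * (rotThree K)) ^ 3
        = torusHom chevG2 K c * ((rotThree K) * torusHom chevG2 K c) * ((rotThree K) * torusHom chevG2 K c) * (rotThree K) := by
          rw [pow_succ, pow_two]; group
      _ = torusHom chevG2 K c * torusHom chevG2 K c₁ * ((rotThree K) * (rotThree K) * torusHom chevG2 K c) * (rotThree K) := by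
          conv_lhs => rw [h₁]
          rw [show (rotThree K) * (rotThree K) * torusHom chevG2 K c = (rotThree K) * ((rotThree K) * torusHom chevG2 K c) by group, h₁]
          group
      _ = _ := by rw [h₂, map_mul, map_mul]; group
  rw [e, show (rotThree K) * (rotThree K) * (rotThree K) = (rotThree K) ^ 3 by rw [pow_succ, pow_two], rotThree_pow_three, mul_one, ← map_one (torusHom chevG2 K)]
  refine torusHom_eq_of_chi fun s => ?_
  obtain ⟨s', rfl⟩ : ∃ s', (w * w) s' = s := ⟨_, (w * w).apply_symm_apply s⟩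
  have kc : chi chevG2 ((w * w) s') c * chi chevG2 (w s') c * chi chevG2 s' c = 1 := by
    show (∏ k : Fin chevG2.rank, c k ^ chevG2.cartan k ((w * w) s')) *
      (∏ k : Fin chevG2.rank, c k ^ chevG2.cartan k (w s')) *
      (∏ k : Fin chevG2.rank, c k ^ chevG2.cartan k s') = 1
    rw [← Finset.prod_mul_distrib, ← Finset.prod_mul_distrib]
    refine Finset.prod_eq_one fun k _ => ?_
    rw [← _root_.zpow_add, ← _root_.zpow_add]
    rw [show chevG2.cartan k ((w * w) s') + chevG2.cartan k (w s') + chevG2.cartan k s' = 0 by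
      have := orbit_sum s' k
      simp only [Equiv.Perm.mul_apply]
      linarith, zpow_zero]
  rw [map_mul, map_mul, k₂, Equiv.Perm.mul_apply, k₁, ← Equiv.Perm.mul_apply, map_one]
  exact kc

end Monomial

universe u

variable {F : Type u} [Field F] [Fintype F]

/-- The exponent `q - 1` (`e = 0`) or `q + 1` (`e = 1`). -/
def splitOrd (e : Fin 2) (q : ℕ) : ℕ := if e = 0 then q - 1 else q + 1

theorem twist_cond (e : Fin 2) {q : ℕ} (hq : 1 ≤ q) {K : Type*} [Field K]
    {c : Fin chevG2.rank → Kˣ} (hc : c ^ splitOrd e q = 1) (s : Fin chevG2.nroots) :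
    chi chevG2 (wPerm full.cert (coxWord (3 * (e : ℕ))) s) c = chi chevG2 s c ^ q := by
  have h : chi chevG2 s c ^ splitOrd e q = 1 := by rw [← map_pow, hc, map_one]
  fin_cases e
  · simp [splitOrd] at h
    simp [coxWord]
    conv_rhs => rw [← Nat.sub_add_cancel hq, pow_succ, h, one_mul]
  · simp [splitOrd] at h
    show chi chevG2 (wPerm cert_G2 (coxWord 3) s) c = _
    rw [wPerm_three, chi_simple_neg cert_G2]
    exact (eq_inv_of_mul_eq_one_left (by rw [← pow_succ, h])).symm

variable {p : ℕ} [Fact p.Prime] [CharP F p]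

set_option maxHeartbeats 1000000 in
/-- The extended torus: a subgroup of order `3 (q ∓ 1)²` with exponent `3 (q ∓ 1)`, and the
centraliser property of its elements of prime order. -/
theorem exists_split_torus (e : Fin 2) {q : ℕ} (hF : Fintype.card F = q) (hodd : p ≠ 2) :
    ∃ X : Subgroup ↥(chevG2.group F), Nat.card X = 3 * splitOrd e q ^ 2 ∧
      (∀ x ∈ X, x ^ splitOrd e q = 1 ∨ x ^ 3 = 1) ∧
      ∀ r : ℕ, r.Prime → 5 ≤ r → ∀ y ∈ X, orderOf y = r → ∀ v : ↥(chevG2.group F),
        Commute v y → v ≠ 1 → (∃ k, v ^ p ^ k = 1) →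
          ∃ t : ↥(chevG2.group F), orderOf t = 2 ∧ ∀ z, Commute z y → Commute z t := by
  obtain ⟨σ, hσ⟩ := exists_frobAlg chevG2 F
  set Ω := Omega chevG2 F
  obtain ⟨g, hg, hgn⟩ := exists_frame full invC_spec hσ (coxWord (3 * (e : ℕ)))
  obtain ⟨η, hA⟩ := acts_nW (F := Ω) full (coxWord (3 * (e : ℕ)))
  have hfix : ∀ y, σ y = y → ∃ x, algebraMap F Ω x = y := fun y hy =>
    exists_preimage (by rw [← hσ]; exact hy)
  have hq : ∀ y, σ y = y ^ q := fun y => hF ▸ hσ y
  have hq2 : 2 ≤ q := hF ▸ Fintype.one_lt_card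
  set N := splitOrd e q with hN
  haveI : CharP Ω p := charP_of_injective_algebraMap (algebraMap F _).injective p
  have hpq : p ∣ q := by
    rw [← hF, ← CharP.cast_eq_zero_iff F p, FiniteField.cast_card_eq_zero]
  have hp2 : 2 ≤ p := (Fact.out : p.Prime).two_le
  have hqodd : Odd q := by
    obtain ⟨k, hk, hk'⟩ := FiniteField.card F p
    rw [← hF, hk']
    exact (Fact.out : p.Prime).odd_of_ne_two hodd |>.pow
  have hNeven : 2 ∣ N := by
    obtain ⟨k, hk⟩ := hqodd
    rw [hN, splitOrd]
    split_ifs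
    · exact ⟨k, by omega⟩
    · exact ⟨k + 1, by omega⟩
  haveI : NeZero N := ⟨by rw [hN, splitOrd]; split_ifs <;> omega⟩
  haveI : NeZero (N : Ω) := ⟨fun h0 => by
    obtain ⟨k, hk⟩ := hpq
    have h1 : p ∣ N := (CharP.cast_eq_zero_iff Ω p N).1 h0
    have h3 : p ∣ 1 := by
      rw [hN, splitOrd] at h1
      split_ifs at h1 with h
      · have := Nat.dvd_sub (Dvd.intro k hk.symm) h1
        rwa [show q - (q - 1) = 1 by omega] at this
      · have := Nat.dvd_sub h1 (Dvd.intro k hk.symm)
        rwa [show q + 1 - q = 1 by omega] at this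
    have := Nat.le_of_dvd one_pos h3
    omega⟩
  have hM3 : (rotThree Ω) ^ 3 = 1 := rotThree_pow_three
  have hMfix : nW full.cert Ω (coxWord (3 * (e : ℕ))) * frobPush chevG2 σ (rotThree Ω) *
      (nW full.cert Ω (coxWord (3 * (e : ℕ))))⁻¹ = (rotThree Ω) := by
    rw [rotThree, push_nW_fixed, nW_cox, nW_cox 8, mul_inv_eq_iff_eq_mul, ← pow_add, ← pow_add,
      add_comm]
  have hσc : ∀ c : Fin chevG2.rank → Ωˣ, frobPush chevG2 σ (torusHom chevG2 Ω c) =
      torusHom chevG2 Ω (c ^ (q : ℤ)) := by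
    intro c
    rw [frobPush, ReflectionsSpinor.ChevField.push_torus]
    refine congrArg _ (funext fun k => Units.ext ?_)
    rw [zpow_natCast]
    exact (hq _).trans (Units.val_pow_eq_pow_val _ _).symm
  -- every twisted element comes from the finite group
  have hlift : ∀ c : Fin chevG2.rank → Ωˣ, c ^ N = 1 → ∀ j : ℕ,
      ∃ x, emb chevG2 F Ω x = g * (torusHom chevG2 Ω c * (rotThree Ω) ^ j) * g⁻¹ := by
    intro c hc j
    refine exists_emb_eq full injective_torusHom hfix hg hgn
      (mul_mem (diagonal_le_group full.cert (torus_mem_diagonal full c))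
        (pow_mem (monomial_le_group full.cert (nW_mem_monomial full _)) j)) ?_
    set n := nW full.cert Ω (coxWord (3 * (e : ℕ)))
    have e1 : n * frobPush chevG2 σ (torusHom chevG2 Ω c) * n⁻¹ = torusHom chevG2 Ω c := by
      rw [hσc, mul_inv_eq_iff_eq_mul]
      exact mul_torus_eq hA fun s => by
        rw [chi_zpow, twist_cond e (by omega) hc, zpow_natCast]
    rw [map_mul, map_pow]
    calc n * (frobPush chevG2 σ (torusHom chevG2 Ω c) * frobPush chevG2 σ (rotThree Ω) ^ j) * n⁻¹
        = (n * frobPush chevG2 σ (torusHom chevG2 Ω c) * n⁻¹) *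
          (n * frobPush chevG2 σ (rotThree Ω) * n⁻¹) ^ j := by rw [conj_pow]; group
      _ = _ := by rw [e1, hMfix]
  let X : Subgroup ↥(chevG2.group F) :=
    { carrier := {x | ∃ c : Fin chevG2.rank → Ωˣ, c ^ N = 1 ∧ ∃ j : ℕ,
        emb chevG2 F Ω x = g * (torusHom chevG2 Ω c * (rotThree Ω) ^ j) * g⁻¹}
      one_mem' := ⟨1, one_pow _, 0, by rw [map_one, map_one]; group⟩
      mul_mem' := by
        rintro a b ⟨c, hc, i, ea⟩ ⟨d, hd, j, eb⟩
        obtain ⟨d', hd', hcd⟩ := conj_torus_pow (K := Ω) i hd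
        refine ⟨c * d', by rw [mul_pow, hc, hd', one_mul], i + j, ?_⟩
        rw [map_mul, ea, eb, map_mul, pow_add]
        calc g * (torusHom chevG2 Ω c * (rotThree Ω) ^ i) * g⁻¹ * (g * (torusHom chevG2 Ω d * (rotThree Ω) ^ j) * g⁻¹)
            = g * (torusHom chevG2 Ω c * ((rotThree Ω) ^ i * torusHom chevG2 Ω d) * (rotThree Ω) ^ j) * g⁻¹ := by group
          _ = _ := by rw [hcd]; group
      inv_mem' := by
        rintro a ⟨c, hc, i, ea⟩
        obtain ⟨d', hd', hcd⟩ := conj_torus_pow (K := Ω) (2 * i) (c := c⁻¹) (N := N)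
          (by rw [inv_pow, hc, inv_one])
        refine ⟨d', hd', 2 * i, ?_⟩
        have e3 : ((rotThree Ω) ^ i)⁻¹ = (rotThree Ω) ^ (2 * i) := inv_eq_of_mul_eq_one_right (by
          rw [← pow_add, show i + 2 * i = 3 * i by ring, pow_mul, hM3, one_pow])
        rw [map_inv, ea, ← hcd, map_inv, ← e3]
        group }
  have hmem : ∀ x, x ∈ X ↔ ∃ c : Fin chevG2.rank → Ωˣ, c ^ N = 1 ∧ ∃ j : ℕ,
      emb chevG2 F Ω x = g * (torusHom chevG2 Ω c * (rotThree Ω) ^ j) * g⁻¹ := fun _ => Iff.rfl
  obtain ⟨ηM, hAM⟩ := exists_acts_rotThree (K := Ω)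
  set w2 := wPerm full.cert (coxWord 2) with hw2
  have hMpow : ∀ j : ℕ, (rotThree Ω) ^ j = (rotThree Ω) ^ (j % 3) := fun j => by
    conv_lhs => rw [← Nat.div_add_mod j 3, pow_add, pow_mul, hM3, one_pow, one_mul]
  refine ⟨X, ?_, ?_, ?_⟩
  · -- the order
    let f : (Fin chevG2.rank → rootsOfUnity N Ω) × Fin 3 → X := fun a =>
      ⟨Classical.choose (hlift (fun k => (a.1 k : Ωˣ)) (funext fun k => (a.1 k).2) a.2),
        (hmem _).2 ⟨_, funext fun k => (a.1 k).2, a.2, Classical.choose_spec
          (hlift (fun k => (a.1 k : Ωˣ)) (funext fun k => (a.1 k).2) a.2)⟩⟩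
    have hspec : ∀ a, emb chevG2 F Ω (f a).1 =
        g * (torusHom chevG2 Ω (fun k => (a.1 k : Ωˣ)) * (rotThree Ω) ^ (a.2 : ℕ)) * g⁻¹ := fun a =>
      Classical.choose_spec (hlift (fun k => (a.1 k : Ωˣ)) (funext fun k => (a.1 k).2) a.2)
    have hbij : Function.Bijective f := by
      constructor
      · intro a b hab
        have h := congrArg (fun x : X => emb chevG2 F Ω x.1) hab
        simp only [hspec, mul_left_inj, mul_right_inj] at h
        obtain ⟨ηa, hAa⟩ := acts_pow hAM (a.2 : ℕ)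
        obtain ⟨ηb, hAb⟩ := acts_pow hAM (b.2 : ℕ)
        have hab' := (acts_torus full.cert (fun k => (b.1 k : Ωˣ))).mul hAb
        rw [← h] at hab'
        have hπ := ((acts_torus full.cert _).mul hAa).perm_eq hab'
        rw [one_mul, one_mul] at hπ
        have hj : a.2 = b.2 := by
          obtain ⟨-, h1, h2⟩ := cox_perm_data
          have key : ∀ i j : Fin 3, (w2 ^ (i : ℕ)) ra = (w2 ^ (j : ℕ)) ra → i = j := by
            intro i j hij
            fin_cases i <;> fin_cases j <;>
              simp [pow_succ, hw2] at hij ⊢ <;>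
              first
                | exact absurd hij h1 | exact absurd hij.symm h1
                | exact absurd hij h2 | exact absurd hij.symm h2
                | exact absurd (((wPerm full.cert (coxWord 2)).injective hij)) h1
                | exact absurd (((wPerm full.cert (coxWord 2)).injective hij).symm) h1
          exact key _ _ (by rw [hw2, hπ])
        rw [hj, mul_left_inj] at h
        refine Prod.ext (funext fun k => Subtype.ext ?_) hj
        exact congrFun (injective_torusHom h) k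
      · rintro ⟨x, c, hc, j, ex⟩
        refine ⟨(fun k => ⟨c k, congrFun hc k⟩, ⟨j % 3, Nat.mod_lt _ (by norm_num)⟩),
          Subtype.ext (emb_injective (K := Ω) ?_)⟩
        rw [hspec, ex, ← hMpow]
    rw [← Nat.card_eq_of_bijective f hbij, Nat.card_prod, Nat.card_pi, Nat.card_fin,
      Finset.prod_const, HasEnoughRootsOfUnity.natCard_rootsOfUnity,
      Finset.card_univ, Fintype.card_fin, mul_comm, show chevG2.rank = 2 from rfl]
  · -- the exponent
    have hcase : ∀ (c : Fin chevG2.rank → Ωˣ) (j : ℕ) x, c ^ N = 1 →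
        emb chevG2 F Ω x = g * (torusHom chevG2 Ω c * (rotThree Ω) ^ j) * g⁻¹ → j % 3 = 1 → x ^ 3 = 1 := by
      intro c j x _ ex hj
      refine emb_injective (K := Ω) ?_
      rw [map_pow, ex, hMpow, hj, pow_one, conj_pow, twisted_cube, mul_one, mul_inv_cancel, map_one]
    rintro x ⟨c, hc, j, ex⟩
    rcases (by omega : j % 3 = 0 ∨ j % 3 = 1 ∨ j % 3 = 2) with h | h | h
    · left
      refine emb_injective (K := Ω) ?_
      rw [map_pow, ex, hMpow, h, pow_zero, mul_one, conj_pow, ← map_pow, hc, map_one, mul_one,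
        mul_inv_cancel, map_one]
    · exact Or.inr (hcase c j x hc ex h)
    · right
      obtain ⟨d, hd, hcd⟩ := conj_torus_pow (K := Ω) (2 * j) (c := c⁻¹) (N := N)
        (by rw [inv_pow, hc, inv_one])
      have e3 : ((rotThree Ω) ^ j)⁻¹ = (rotThree Ω) ^ (2 * j) := inv_eq_of_mul_eq_one_right (by
        rw [← pow_add, show j + 2 * j = 3 * j by ring, pow_mul, hM3, one_pow])
      have := hcase d (2 * j) x⁻¹ hd (by rw [map_inv, ex, ← hcd, map_inv, ← e3]; group) (by omega)
      rwa [inv_pow, inv_eq_one] at this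
  · -- elements of prime order
    intro r hr hr5 y hyX hyr v hv hv1 ⟨k, hvk⟩
    obtain ⟨c, hc, j, ey⟩ := hyX
    have hy1 : y ≠ 1 := fun h => by rw [h, orderOf_one] at hyr; omega
    have hj : j % 3 = 0 := by
      by_contra hj
      apply hy1
      have h3 : y ^ 3 = 1 := by
        rcases (by omega : j % 3 = 1 ∨ j % 3 = 2) with h | h
        · refine emb_injective (K := Ω) ?_
          rw [map_pow, ey, hMpow, h, pow_one, conj_pow, twisted_cube, mul_one, mul_inv_cancel,
            map_one]
        · obtain ⟨d, hd, hcd⟩ := conj_torus_pow (K := Ω) (2 * j) (c := c⁻¹) (N := N)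
            (by rw [inv_pow, hc, inv_one])
          have e3 : ((rotThree Ω) ^ j)⁻¹ = (rotThree Ω) ^ (2 * j) := inv_eq_of_mul_eq_one_right (by
            rw [← pow_add, show j + 2 * j = 3 * j by ring, pow_mul, hM3, one_pow])
          have e4 : emb chevG2 F Ω y⁻¹ = g * (torusHom chevG2 Ω d * (rotThree Ω) ^ (2 * j)) * g⁻¹ := by
            rw [map_inv, ey, ← hcd, map_inv, ← e3]; group
          have : (y⁻¹) ^ 3 = 1 := by
            refine emb_injective (K := Ω) ?_
            rw [map_pow, e4, hMpow, show 2 * j % 3 = 1 by omega, pow_one, conj_pow, twisted_cube,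
              mul_one, mul_inv_cancel, map_one]
          rwa [inv_pow, inv_eq_one] at this
      have h5 := orderOf_dvd_of_pow_eq_one h3
      rw [hyr] at h5
      exact absurd (Nat.le_of_dvd (by norm_num) h5) (by omega)
    rw [hMpow, hj, pow_zero, mul_one] at ey
    have hTr : torusHom chevG2 Ω c ^ r = 1 := by
      have h1 := congrArg (emb chevG2 F Ω) (hyr ▸ pow_orderOf_eq_one y : y ^ r = 1)
      rwa [map_pow, map_one, ey, conj_pow, conj_eq_one_iff] at h1
    have hcr : c ^ r = 1 := injective_torusHom (by rw [map_pow, hTr, map_one])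
    have hx : chi chevG2 ra c ^ r = 1 := by rw [← map_pow, hcr, map_one]
    have hyb : chi chevG2 rb c ^ r = 1 := by rw [← map_pow, hcr, map_one]
    have hne : ¬ (chi chevG2 ra c = 1 ∧ chi chevG2 rb c = 1) := by
      rintro ⟨h1, h2⟩
      apply hy1
      refine emb_injective (K := Ω) ?_
      have : torusHom chevG2 Ω c = torusHom chevG2 Ω 1 := torusHom_eq_of_chi fun s => by
        rw [chi_eq, h1, h2, _root_.one_zpow, _root_.one_zpow, one_mul, map_one]
      rw [ey, this, map_one, mul_one, mul_inv_cancel, map_one]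
    -- the elements commuting with `y`, in the frame
    have hframe : ∀ z, Commute z y → Commute (torusHom chevG2 Ω c) (g⁻¹ * emb chevG2 F Ω z * g) := by
      intro z hz
      have h := (hz.symm.map (emb chevG2 F Ω)).map (MulAut.conj g⁻¹).toMonoidHom
      have e1 : (MulAut.conj g⁻¹).toMonoidHom (emb chevG2 F Ω y) = torusHom chevG2 Ω c := by
        show g⁻¹ * _ * g⁻¹⁻¹ = _
        rw [ey]; group
      have e2 : (MulAut.conj g⁻¹).toMonoidHom (emb chevG2 F Ω z) = g⁻¹ * emb chevG2 F Ω z * g := by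
        show g⁻¹ * _ * g⁻¹⁻¹ = _
        rw [inv_inv]
      rwa [e1, e2] at h
    have hα : ∃ α : Fin chevG2.nroots, chi chevG2 α c = 1 := by
      by_contra hno
      push Not at hno
      obtain ⟨hvm, -⟩ := frame_mem full injective_torusHom hfix hg hgn v
      obtain ⟨u, hu, m, hm, π, ηm, hAm, hπ, u', hu', eY⟩ :=
        exists_of_commute_torus full hvm (hframe v hv)
      have htriv : rootsU chevG2 Ω {r | chevG2.IsPosRoot r ∧ chi chevG2 r c = 1} ≤ ⊥ := by
        rw [rootsU_le_iff full.cert]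
        intro r hr _
        exact absurd hr.2 (hno ⟨r, hr.1.1⟩)
      rw [Subgroup.mem_bot.1 (htriv hu), Subgroup.mem_bot.1 (htriv hu'), one_mul, mul_one] at eY
      obtain rfl : π = 1 := (perm_fix hr hr5 hx hyb hne hAm hπ).resolve_right
        fun ⟨s, hs, _⟩ => hno s hs
      have hmd := mem_diagonal_of_perm full hm hAm fun i => full.simple_pos i.isLt
      rw [diagonalSubgroup_eq_range full] at hmd
      obtain ⟨d, hd⟩ := hmd
      rw [← hd] at eY
      have ev : emb chevG2 F Ω v = g * torusHom chevG2 Ω d * g⁻¹ := by rw [← eY]; simp [mul_assoc]; rfl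
      have h1 := congrArg (emb chevG2 F Ω) hvk
      rw [map_pow, map_one, ev, conj_pow, conj_eq_one_iff] at h1
      apply hv1
      refine emb_injective (K := Ω) ?_
      rw [ev, torusHom_eq_one_of_pow_char p h1, mul_one, mul_inv_cancel, map_one]
    obtain ⟨α, hα⟩ := hα
    obtain ⟨a, b, hab, hpar⟩ := half_period α
    set s₁ : Ωˣ := (-1) ^ ((a : ℕ) : ℤ) with hs₁
    set s₂ : Ωˣ := (-1) ^ ((b : ℕ) : ℤ) with hs₂
    set c' := cOf s₁ s₂ with hc'
    have hchi' : ∀ s : Fin chevG2.nroots, chi chevG2 s c' =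
        (-1 : Ωˣ) ^ (crd auxG2 0 s * (a : ℕ) + crd auxG2 1 s * (b : ℕ)) := by
      intro s
      rw [hc', chi_cOf, hs₁, hs₂, ← _root_.zpow_mul, ← _root_.zpow_mul, ← _root_.zpow_add,
        mul_comm ((a : ℕ) : ℤ), mul_comm ((b : ℕ) : ℤ)]
    have hneg2 : ∀ z : ℤ, (2 : ℤ) ∣ z → (-1 : Ωˣ) ^ z = 1 := by
      rintro z ⟨i, rfl⟩
      rw [_root_.zpow_mul, show (-1 : Ωˣ) ^ (2 : ℤ) = 1 by simp, _root_.one_zpow]
    have hc'α : ∀ s : Fin chevG2.nroots, chi chevG2 s c = 1 → chi chevG2 s c' = 1 := by
      intro s hs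
      rcases root_unique hr hr5 hx hyb hne hα hs with rfl | rfl
      · rw [hchi']; exact hneg2 _ hpar
      · rw [chi_simple_neg cert_G2, hchi', hneg2 _ hpar, inv_one]
    have hc'2 : c' * c' = 1 := by
      refine injective_torusHom (torusHom_eq_of_chi fun s => ?_)
      rw [map_mul, hchi', ← _root_.zpow_add, map_one]
      exact hneg2 _ ⟨_, (two_mul _).symm⟩
    have hc'N : c' ^ N = 1 := by
      obtain ⟨i, hi⟩ := hNeven
      rw [hi, pow_mul, sq, hc'2, one_pow]
    obtain ⟨t, ht⟩ := hlift c' hc'N 0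
    rw [pow_zero, mul_one] at ht
    refine ⟨t, ?_, fun z hz => ?_⟩
    · refine orderOf_eq_prime (emb_injective (K := Ω) ?_) fun h1 => ?_
      · rw [map_pow, ht, conj_pow, sq, ← map_mul, hc'2, map_one, mul_one, mul_inv_cancel, map_one]
      · rw [h1, map_one, eq_comm, conj_eq_one_iff, ← map_one (torusHom chevG2 Ω)] at ht
        have hc1 := injective_torusHom ht
        have h2 : (-1 : Ωˣ) ≠ 1 := fun h => by
          have : ringChar Ω ≠ 2 := by rw [ringChar.eq Ω p]; exact hodd
          exact Ring.neg_one_ne_one_of_char_ne_two this (congrArg Units.val h)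
        rcases hab with h | h
        · have := chi_cOf_ra s₁ s₂
          rw [← hc', hc1, map_one, hs₁, h, Nat.cast_one, zpow_one] at this
          exact h2 this.symm
        · have := chi_cOf_rb s₁ s₂
          rw [← hc', hc1, map_one, hs₂, h, Nat.cast_one, zpow_one] at this
          exact h2 this.symm
    obtain ⟨hzm, -⟩ := frame_mem full injective_torusHom hfix hg hgn z
    obtain ⟨u, hu, m, hm, π, ηm, hAm, hπ, u', hu', eY⟩ :=
      exists_of_commute_torus full hzm (hframe z hz)
    have hU : ∀ x ∈ rootsU chevG2 Ω {r | chevG2.IsPosRoot r ∧ chi chevG2 r c = 1},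
        Commute (torusHom chevG2 Ω c') x := by
      intro x hx'
      induction hx' using rootsU_induction full.cert with
      | h1 => exact Commute.one_right _
      | hmul x₁ x₂ _ _ h₁ h₂ => exact h₁.mul_right h₂
      | hx r hr t =>
        have e := (acts_torus full.cert c').conj ⟨r, hr.1.1⟩ t
        rw [Equiv.Perm.one_apply, hc'α ⟨r, hr.1.1⟩ hr.2, Units.val_one, one_mul] at e
        exact mul_inv_eq_iff_eq_mul.1 e
    have hπ' : ∀ s : Fin chevG2.nroots, chi chevG2 (π s) c' = chi chevG2 s c' := by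
      rcases perm_fix hr hr5 hx hyb hne hAm hπ with rfl | ⟨β, hβ, hk⟩
      · exact fun s => rfl
      intro s
      obtain ⟨k, k0, k1⟩ := hk s
      rw [hchi', hchi', k0, k1, show (crd auxG2 0 s + k * crd auxG2 0 β) * ((a : ℕ) : ℤ) +
        (crd auxG2 1 s + k * crd auxG2 1 β) * ((b : ℕ) : ℤ) =
        (crd auxG2 0 s * (a : ℕ) + crd auxG2 1 s * (b : ℕ)) +
          (crd auxG2 0 β * (a : ℕ) + crd auxG2 1 β * (b : ℕ)) * k by ring, _root_.zpow_add,
        _root_.zpow_mul (-1 : Ωˣ) (crd auxG2 0 β * (a : ℕ) + crd auxG2 1 β * (b : ℕ)) k,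
        ← hchi' β, hc'α β hβ, _root_.one_zpow, mul_one]
    have hTm : Commute (torusHom chevG2 Ω c') m := (mul_torus_eq hAm hπ').symm
    have hall : Commute (torusHom chevG2 Ω c') (g⁻¹ * emb chevG2 F Ω z * g) := by
      rw [eY]; exact ((hU u hu).mul_right hTm).mul_right (hU u' hu')
    refine Commute.symm (Commute.of_map (emb_injective (K := Ω)) ?_)
    have e5 : emb chevG2 F Ω z = g * (g⁻¹ * emb chevG2 F Ω z * g) * g⁻¹ := by group
    rw [ht, e5]
    exact hall.map (MulAut.conj g).toMonoidHom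

end CfsgLib.Chevalley.G2Tori
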