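import Cfsg.Agent.Lib.Chevalley.G2UnipotentExponent
import Cfsg.Agent.Lib.Chevalley.G2CentralizerOrders
import Cfsg.Agent.Lib.Chevalley.G2SplitTori

/-!
The orders of the elements of `G₂(q)`, `q` odd: every one divides one of `p(q+1)`, `p(q-1)`,
`q²-1`, `q²+q+1`, `q²-q+1`, or `p²` if `p ≤ 5`.
-/

set_option autoImplicit false
set_option linter.unusedSectionVars false
set_option linter.style.haveILetI false

open Matrix Cfsg.Lie

namespace CfsgLib.Chevalley.G2Spectrum

universe u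

variable {F : Type u} [Field F] [Fintype F]

/-- The group `G₂(F)`. -/
abbrev GG (F : Type u) [Field F] : Type u := ↥(chevG2.group F)

theorem orderOf_conj {G : Type*} [Group G] (c x : G) : orderOf (c * x * c⁻¹) = orderOf x :=
  ((MulAut.conj c).orderOf_eq x)

theorem card_group (q : ℕ) (hF : Fintype.card F = q) :
    Nat.card (GG F) = q ^ 6 * ((q - 1) * (q + 1)) ^ 2 * (q ^ 4 + q ^ 2 + 1) := by
  have h := cardG2 (F := F)
  rw [one_mul, show chevG2.nroots / 2 = 6 from rfl, hF] at h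
  simp only [List.map_cons, List.map_nil, List.prod_cons, List.prod_nil, mul_one] at h
  have hq : 1 ≤ q := hF ▸ Fintype.card_pos
  obtain ⟨m, hm⟩ : ∃ m, q ^ 2 = m + 1 :=
    ⟨q ^ 2 - 1, by have : 1 ≤ q ^ 2 := Nat.one_le_pow _ _ hq; omega⟩
  have h6 : q ^ 6 - 1 = m * (q ^ 4 + q ^ 2 + 1) := by
    apply Nat.sub_eq_of_eq_add
    rw [show q ^ 6 = (q ^ 2) ^ 3 by ring, show q ^ 4 = (q ^ 2) ^ 2 by ring, hm]
    ring
  have h2 : (q - 1) * (q + 1) = m := by
    rw [mul_comm, ← Nat.sq_sub_sq, one_pow]; omega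
  rw [h, h2, h6, show q ^ 2 - 1 = m by omega]
  ring

theorem torOrd_mul (q : ℕ) :
    G2Tori.torOrd 0 q * G2Tori.torOrd 1 q = q ^ 4 + q ^ 2 + 1 := by
  have h : q ≤ q * q + 1 := by nlinarith
  simp only [G2Tori.torOrd, if_true, show ((1 : Fin 2) = 0) = False by simp, if_false]
  zify [h]
  ring

section

variable {p : ℕ} [Fact p.Prime] [CharP F p]

/-- The Sylow `p`-subgroup. -/
def uni (F : Type u) [Field F] : Subgroup ↥(chevG2.group F) :=
  (chevG2.posUnipotent F).subgroupOf (chevG2.group F)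

theorem char_dvd {q : ℕ} (hF : Fintype.card F = q) : p ∣ q := by
  rw [← hF, ← CharP.cast_eq_zero_iff F p, FiniteField.cast_card_eq_zero]

theorem exists_conj_uni {q : ℕ} (hF : Fintype.card F = q) {y : (GG F)} {k : ℕ} (hy : y ^ p ^ k = 1) :
    ∃ c : (GG F), ((c * y * c⁻¹ : (GG F)) : GL chevG2.Idx F) ∈ chevG2.posUnipotent F := by
  have hle : chevG2.posUnipotent F ≤ chevG2.group F := rootsU_le_group cert_G2 _
  have hcard : Nat.card (uni F) = q ^ 6 := by
    rw [uni, Nat.card_congr (Subgroup.subgroupOfEquivOfLe hle).toEquiv,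
      G2Unipotent.posUnipotent_posL, card_rootsU G2Unipotent.full.toStd G2Unipotent.pairwise_posL
        G2Unipotent.closed_pos, hF]
    rfl
  have hq : 2 ≤ q := hF ▸ Fintype.one_lt_card
  have hp := (Fact.out : p.Prime)
  have hpq := char_dvd (p := p) hF
  have hindex : ¬ p ∣ (uni F).index := by
    intro hd
    have h := (uni F).card_mul_index
    rw [hcard, card_group q hF, mul_assoc] at h
    rw [Nat.eq_of_mul_eq_mul_left (by positivity) h] at hd
    rcases (Nat.Prime.dvd_mul hp).1 hd with h1 | h1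
    · rcases (Nat.Prime.dvd_mul hp).1 (hp.dvd_of_dvd_pow h1) with h2 | h2
      · have := Nat.dvd_sub hpq h2
        rw [show q - (q - 1) = 1 by omega] at this
        exact hp.not_dvd_one this
      · exact hp.not_dvd_one ((Nat.dvd_add_right hpq).1 h2)
    · exact hp.not_dvd_one ((Nat.dvd_add_right
        (dvd_add (dvd_pow hpq four_ne_zero) (dvd_pow hpq two_ne_zero))).1 h1)
  obtain ⟨c, hc⟩ := G2Tori.exists_fixed_coset hy hindex
  exact ⟨c, hc⟩

theorem split_index {q : ℕ} (hq : 2 ≤ q) {r : ℕ} (hr : r.Prime) (hr3 : 3 ≤ r) {e : Fin 2}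
    (he : r ∣ G2Tori.splitOrd e q) {i : ℕ}
    (h : 3 * G2Tori.splitOrd e q ^ 2 * i =
      q ^ 6 * ((q - 1) * (q + 1)) ^ 2 * (q ^ 4 + q ^ 2 + 1)) : ¬ r ∣ i := by
  obtain ⟨other, ho, hod⟩ : ∃ other, (q - 1) * (q + 1) = G2Tori.splitOrd e q * other ∧ ¬ r ∣ other := by
    have hnb : ¬ (r ∣ q - 1 ∧ r ∣ q + 1) := by
      rintro ⟨h1, h2⟩
      have := Nat.le_of_dvd (by norm_num) (show r ∣ 2 by
        have := Nat.dvd_sub h2 h1; rwa [show q + 1 - (q - 1) = 2 by omega] at this)
      omega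
    simp only [G2Tori.splitOrd] at he ⊢
    split_ifs at he ⊢ with h0
    · exact ⟨q + 1, rfl, fun h2 => hnb ⟨he, h2⟩⟩
    · exact ⟨q - 1, mul_comm _ _, fun h2 => hnb ⟨h2, he⟩⟩
  set N := G2Tori.splitOrd e q
  have hN : 0 < N := by simp only [N, G2Tori.splitOrd]; split_ifs <;> omega
  have h' : 3 * i = q ^ 6 * other ^ 2 * (q ^ 4 + q ^ 2 + 1) := by
    refine Nat.eq_of_mul_eq_mul_left (show 0 < N ^ 2 by positivity) ?_
    calc N ^ 2 * (3 * i) = 3 * N ^ 2 * i := by ring
      _ = _ := by rw [h, ho]; ring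
  have hrq : ¬ r ∣ q := by
    intro h1
    rw [show N = if e = 0 then q - 1 else q + 1 from rfl] at he
    split_ifs at he
    · have := Nat.dvd_sub h1 he
      rw [show q - (q - 1) = 1 by omega] at this
      exact hr.not_dvd_one this
    · exact hr.not_dvd_one ((Nat.dvd_add_right h1).1 he)
  obtain ⟨u, hu⟩ : ∃ u, q ^ 2 = 1 + r * u := by
    have hdvd : r ∣ q ^ 2 - 1 := by
      rw [show q ^ 2 - 1 = (q - 1) * (q + 1) by rw [mul_comm, ← Nat.sq_sub_sq, one_pow], ho]
      exact he.mul_right _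
    obtain ⟨u, hu⟩ := hdvd
    exact ⟨u, by have : 1 ≤ q ^ 2 := Nat.one_le_pow _ _ (by omega); omega⟩
  have h4 : q ^ 4 + q ^ 2 + 1 = 3 + r * (3 * u + r * u * u) := by
    rw [show q ^ 4 = (q ^ 2) ^ 2 by ring, hu]; ring
  intro hi
  rw [h4] at h'
  by_cases hr' : r = 3
  · subst hr'
    rw [show 3 + 3 * (3 * u + 3 * u * u) = 3 * (1 + 3 * (u + u * u)) by ring] at h'
    have h'' : i = q ^ 6 * other ^ 2 * (1 + 3 * (u + u * u)) := by
      refine Nat.eq_of_mul_eq_mul_left (show 0 < 3 by norm_num) ?_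
      rw [h']; ring
    rw [h''] at hi
    rcases (Nat.Prime.dvd_mul hr).1 hi with h1 | h1
    · rcases (Nat.Prime.dvd_mul hr).1 h1 with h2 | h2
      · exact hrq (hr.dvd_of_dvd_pow h2)
      · exact hod (hr.dvd_of_dvd_pow h2)
    · omega
  · have h'' : r ∣ q ^ 6 * other ^ 2 * (3 + r * (3 * u + r * u * u)) := h' ▸ hi.mul_left 3
    rcases (Nat.Prime.dvd_mul hr).1 h'' with h1 | h1
    · rcases (Nat.Prime.dvd_mul hr).1 h1 with h2 | h2
      · exact hrq (hr.dvd_of_dvd_pow h2)
      · exact hod (hr.dvd_of_dvd_pow h2)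
    · exact hr' ((Nat.prime_dvd_prime_iff_eq hr Nat.prime_three).1
        ((Nat.dvd_add_left (dvd_mul_right r _)).1 h1))

/-- Elements of order a power of an odd prime dividing `q ∓ 1`. -/
theorem pow_splitOrd {q : ℕ} (hF : Fintype.card F = q) (hodd : p ≠ 2) {r : ℕ} (hr : r.Prime)
    (hr3 : 3 ≤ r) {e : Fin 2} (he : r ∣ G2Tori.splitOrd e q) {y : (GG F)} {k : ℕ} (hy : y ^ r ^ k = 1) :
    y ^ G2Tori.splitOrd e q = 1 := by
  haveI := Fact.mk hr
  obtain ⟨X, hX, hexp, -⟩ := G2Tori.exists_split_torus (p := p) e hF hodd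
  have hi : ¬ r ∣ X.index := split_index (hF ▸ Fintype.one_lt_card) hr hr3 he
    (by rw [← hX, X.card_mul_index, card_group q hF])
  obtain ⟨c, hc⟩ := G2Tori.exists_fixed_coset hy hi
  rcases hexp _ hc with h | h
  · rwa [conj_pow, conj_eq_one_iff] at h
  · rw [conj_pow, conj_eq_one_iff] at h
    by_cases hr' : r = 3
    · obtain ⟨t, ht⟩ := he
      rw [ht, hr', pow_mul, h, one_pow]
    · have h1 : orderOf y ∣ 3 := orderOf_dvd_of_pow_eq_one h
      have h2 : orderOf y ∣ r ^ k := orderOf_dvd_of_pow_eq_one hy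
      have h3 : orderOf y ∣ 1 := by
        have := Nat.dvd_gcd h1 h2
        rwa [Nat.Coprime.gcd_eq_one (Nat.Coprime.pow_right k
          ((Nat.coprime_primes Nat.prime_three hr).2 (Ne.symm hr')))] at this
      rw [Nat.dvd_one, orderOf_eq_one_iff] at h3
      rw [h3, one_pow]

theorem cenExp_dvd {q : ℕ} {x : (GG F)} (h : G2SLThree.CenExp p q x) :
    orderOf x ∣ q ^ 2 - 1 ∨ orderOf x ∣ p * (q + 1) ∨ orderOf x ∣ p * (q - 1) := by
  rcases h with h | h | h
  exacts [Or.inl (orderOf_dvd_of_pow_eq_one h), Or.inr (Or.inl (orderOf_dvd_of_pow_eq_one h)),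
    Or.inr (Or.inr (orderOf_dvd_of_pow_eq_one h))]

/-- Every element order divides one of the listed numbers. -/
theorem orderOf_dvd_member {q : ℕ} (hF : Fintype.card F = q) (hodd : p ≠ 2) (x : (GG F)) :
    orderOf x ∣ p * (q + 1) ∨ orderOf x ∣ p * (q - 1) ∨ orderOf x ∣ q ^ 2 - 1 ∨
      (∃ m, orderOf x ∣ G2Tori.torOrd m q) ∨ ((p = 3 ∨ p = 5) ∧ orderOf x ∣ p ^ 2) := by
  have hp := (Fact.out : p.Prime)
  have hp3 : 3 ≤ p := by have := hp.two_le; omega
  have hq : 2 ≤ q := hF ▸ Fintype.one_lt_card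
  have hchar : ringChar F ≠ 2 := by rw [ringChar.eq F p]; exact hodd
  have hNc : Nat.card F = q := by rw [Nat.card_eq_fintype_card, hF]
  have hsq : q ^ 2 - 1 = (q + 1) * (q - 1) := by rw [← Nat.sq_sub_sq, one_pow]
  set N := orderOf x with hN
  have hN0 : 0 < N := orderOf_pos x
  have hpow : ∀ d, d ∣ N → orderOf (x ^ (N / d)) = d := fun d hd => by
    rw [orderOf_pow_of_dvd (Nat.div_ne_zero_iff.2 ⟨fun h => by rw [h, zero_dvd_iff] at hd; omega,
      Nat.le_of_dvd hN0 hd⟩) (Nat.div_dvd_of_dvd hd), ← hN,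
      Nat.div_div_self hd hN0.ne']
  by_cases hbig : ∃ r m, r.Prime ∧ 5 ≤ r ∧ r ∣ N ∧ r ∣ G2Tori.torOrd m q
  · obtain ⟨r, m, hr, hr5, hrN, hrT⟩ := hbig
    haveI := Fact.mk hr
    right; right; right; left
    refine ⟨m, ?_⟩
    obtain ⟨x₀, hx₀, hcent⟩ := G2Tori.exists_cyclic_torus m hF
    set T := G2Tori.torOrd m q with hT
    have hrq : ¬ r ∣ q := by
      intro h
      have h1 : (r : ℤ) ∣ (T : ℤ) := Int.natCast_dvd_natCast.2 hrT
      rw [hT, G2Tori.cast_torOrd] at h1
      have h2 : (r : ℤ) ∣ (q : ℤ) := Int.natCast_dvd_natCast.2 h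
      have h3 : (r : ℤ) ∣ 1 := by
        simpa using dvd_sub h1 (dvd_sub (h2.mul_left (q : ℤ)) (h2.mul_left (G2Tori.rotSign m)))
      have := Int.le_of_dvd one_pos h3
      omega
    have hindex : ¬ r ∣ (Subgroup.zpowers x₀).index := by
      intro hd
      have h := (Subgroup.zpowers x₀).card_mul_index
      rw [Nat.card_zpowers, hx₀, card_group q hF, ← torOrd_mul q] at h
      obtain ⟨m', hm'⟩ : ∃ m', G2Tori.torOrd 0 q * G2Tori.torOrd 1 q = T * G2Tori.torOrd m' q ∧
          m' ≠ m := by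
        fin_cases m
        · exact ⟨1, rfl, by decide⟩
        · exact ⟨0, mul_comm _ _, by decide⟩
      rw [hm'.1] at h
      have hi : (Subgroup.zpowers x₀).index =
          q ^ 6 * ((q - 1) * (q + 1)) ^ 2 * G2Tori.torOrd m' q := by
        refine Nat.eq_of_mul_eq_mul_left (show 0 < T by
          by_contra h0
          have hT0 : T = 0 := by omega
          rw [hT0] at hx₀
          exact (orderOf_pos x₀).ne' hx₀) (h.trans ?_)
        ring
      rw [hi] at hd
      have h1 : (r : ℤ) ∣ (T : ℤ) := Int.natCast_dvd_natCast.2 hrT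
      rw [hT, G2Tori.cast_torOrd] at h1
      have hsmall : ∀ z : ℤ, z ≠ 0 → z.natAbs ≤ 4 → ¬ (r : ℤ) ∣ z := by
        intro z hz hz' hd'
        have := Nat.le_of_dvd (by omega) (Int.natCast_dvd.1 hd')
        omega
      have hrqz : ¬ (r : ℤ) ∣ (q : ℤ) := fun h => hrq (Int.natCast_dvd_natCast.1 h)
      rcases (Nat.Prime.dvd_mul hr).1 hd with h2 | h2
      · rcases (Nat.Prime.dvd_mul hr).1 h2 with h3 | h3
        · exact hrq (hr.dvd_of_dvd_pow h3)
        · -- `r ∣ q² - 1` and `r ∣ T` force `r ∣ 3`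
          have h4 : (r : ℤ) ∣ (q : ℤ) * q - 1 := by
            have h5 := Int.natCast_dvd_natCast.2 (hr.dvd_of_dvd_pow h3)
            rw [Nat.cast_mul, Nat.cast_sub (by omega)] at h5
            push_cast at h5
            convert h5 using 1
            ring
          have h6 : (r : ℤ) ∣ G2Tori.rotSign m * q - 2 := by
            have := dvd_sub h4 h1
            rwa [show (q : ℤ) * q - 1 - ((q : ℤ) * q - G2Tori.rotSign m * q + 1) =
              G2Tori.rotSign m * q - 2 by ring] at this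
          have h7 : (r : ℤ) ∣ 3 := by
            have hs : G2Tori.rotSign m * G2Tori.rotSign m = 1 := by fin_cases m <;> simp [G2Tori.rotSign]
            have := dvd_sub (h6.mul_left (G2Tori.rotSign m * q + 2)) h4
            rwa [show (G2Tori.rotSign m * q + 2) * (G2Tori.rotSign m * q - 2) - ((q : ℤ) * q - 1) = -3
              by linear_combination (q : ℤ) * q * hs, dvd_neg] at this
          exact hsmall 3 (by norm_num) (by norm_num) h7
      · have h4 : (r : ℤ) ∣ (G2Tori.torOrd m' q : ℤ) := Int.natCast_dvd_natCast.2 h2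
        rw [G2Tori.cast_torOrd] at h4
        have h5 : (r : ℤ) ∣ (G2Tori.rotSign m - G2Tori.rotSign m') * q := by
          have := dvd_sub h4 h1
          rwa [show (q : ℤ) * q - G2Tori.rotSign m' * q + 1 -
            ((q : ℤ) * q - G2Tori.rotSign m * q + 1) = (G2Tori.rotSign m - G2Tori.rotSign m') * q
            by ring] at this
        rcases (Nat.prime_iff_prime_int.1 hr).dvd_mul.1 h5 with h6 | h6
        · refine hsmall _ ?_ ?_ h6 <;>
            (fin_cases m <;> fin_cases m' <;> simp [G2Tori.rotSign] at hm' ⊢)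
        · exact hrqz h6
    obtain ⟨c, hc⟩ := G2Tori.exists_fixed_coset (k := 1) (y := x ^ (N / r))
      (by rw [pow_one]; nth_rewrite 2 [← hpow r hrN]; exact pow_orderOf_eq_one _) hindex
    set z := c * x ^ (N / r) * c⁻¹ with hz
    have hzo : orderOf z = r := by rw [hz, orderOf_conj, hpow r hrN]
    have hzle : Subgroup.zpowers z = Subgroup.zpowers (x₀ ^ (T / r)) := by
      have ho : orderOf (x₀ ^ (T / r)) = r := by
        rw [orderOf_pow_of_dvd (Nat.div_ne_zero_iff.2 ⟨hr.ne_zero, Nat.le_of_dvd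
          (hx₀ ▸ orderOf_pos x₀) hrT⟩) (hx₀.symm ▸ Nat.div_dvd_of_dvd hrT), hx₀,
          Nat.div_div_self hrT (hx₀ ▸ (orderOf_pos x₀).ne')]
      refine Subgroup.eq_of_le_of_card_ge ?_ (by rw [Nat.card_zpowers, Nat.card_zpowers, ho, hzo])
      rw [Subgroup.zpowers_le]
      obtain ⟨i, hi⟩ := Subgroup.mem_zpowers_iff.1 hc
      have h1 : x₀ ^ (i * r) = 1 := by
        rw [_root_.zpow_mul, zpow_natCast, hi]
        rw [← hzo]
        exact pow_orderOf_eq_one _
      rw [← orderOf_dvd_iff_zpow_eq_one, hx₀] at h1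
      have h2 : ((T / r : ℕ) : ℤ) ∣ i := by
        refine Int.dvd_of_mul_dvd_mul_right (a := (r : ℤ)) (by exact_mod_cast hr.ne_zero) ?_
        rwa [← Nat.cast_mul, Nat.div_mul_cancel hrT]
      obtain ⟨j, hj⟩ := h2
      refine Subgroup.mem_zpowers_iff.2 ⟨j, ?_⟩
      rw [← zpow_natCast, ← _root_.zpow_mul, ← hj, hi]
    obtain ⟨j, hj⟩ := Subgroup.mem_zpowers_iff.1 (hzle.symm ▸ Subgroup.mem_zpowers (x₀ ^ (T / r)) :
      x₀ ^ (T / r) ∈ Subgroup.zpowers z)
    have hcomm : Commute (c * x * c⁻¹) (x₀ ^ (T / r)) := by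
      rw [← hj]
      refine Commute.zpow_right ?_ j
      rw [hz, ← conj_pow]
      exact Commute.self_pow _ _
    have hmem := hcent r hr hr5 hrT _ hcomm
    obtain ⟨i, hi⟩ := Subgroup.mem_zpowers_iff.1 hmem
    rw [hN, ← orderOf_conj c x, ← hi, ← hx₀]
    exact orderOf_dvd_of_pow_eq_one (by
      rw [← zpow_natCast, ← _root_.zpow_mul, mul_comm, _root_.zpow_mul, zpow_natCast,
        pow_orderOf_eq_one, _root_.one_zpow])
  push Not at hbig
  -- prime-power parts prime to `p`
  have hprime : ∀ r, r.Prime → r ≠ p → 3 ≤ r → r ∣ N → ∃ e, r ∣ G2Tori.splitOrd e q := by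
    intro r hr hrp hr3 hrN
    have hG : r ∣ Nat.card (GG F) := hrN.trans (orderOf_dvd_natCard x)
    rw [card_group q hF] at hG
    have hq2 : r ∣ (q - 1) * (q + 1) → ∃ e, r ∣ G2Tori.splitOrd e q := by
      intro h
      rcases (Nat.Prime.dvd_mul hr).1 h with h | h
      · exact ⟨0, by simpa [G2Tori.splitOrd] using h⟩
      · exact ⟨1, by simpa [G2Tori.splitOrd] using h⟩
    have hrq : ¬ r ∣ q := by
      intro h
      obtain ⟨f, hpf, hf⟩ := FiniteField.card F p
      rw [← hF, hf] at h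
      exact hrp ((Nat.prime_dvd_prime_iff_eq hr hp).1 (hr.dvd_of_dvd_pow h))
    by_cases hr' : r = 3
    · subst hr'
      apply hq2
      rcases (by omega : q % 3 = 0 ∨ q % 3 = 1 ∨ q % 3 = 2) with h | h | h
      · exact absurd (Nat.dvd_of_mod_eq_zero h) hrq
      · exact Dvd.dvd.mul_right (Nat.dvd_of_mod_eq_zero (by omega)) _
      · exact Dvd.dvd.mul_left (Nat.dvd_of_mod_eq_zero (by omega)) _
    have hr5 : 5 ≤ r := by
      rcases Nat.lt_or_ge r 5 with h | h
      · have : r = 4 := by omega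
        subst this; exact absurd hr (by decide)
      · exact h
    rcases (Nat.Prime.dvd_mul hr).1 hG with h | h
    · rcases (Nat.Prime.dvd_mul hr).1 h with h' | h'
      · exact absurd (hr.dvd_of_dvd_pow h') hrq
      · exact hq2 (hr.dvd_of_dvd_pow h')
    · rw [← torOrd_mul] at h
      rcases (Nat.Prime.dvd_mul hr).1 h with h' | h'
      · exact absurd h' (hbig r 0 hr hr5 hrN)
      · exact absurd h' (hbig r 1 hr hr5 hrN)
  have hinv : ∀ (y : (GG F)), 2 ∣ orderOf y → G2SLThree.CenExp p q y := by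
    intro y hy
    rw [← hNc]
    refine G2SLThree.cenExp_of_commute (p := p) hchar (t := y ^ (orderOf y / 2)) ?_ (Commute.self_pow _ _)
    rw [orderOf_pow_of_dvd (Nat.div_ne_zero_iff.2 ⟨two_ne_zero, Nat.le_of_dvd (orderOf_pos y) hy⟩)
      (Nat.div_dvd_of_dvd hy), Nat.div_div_self hy (orderOf_pos y).ne']
  have hsplit : ∀ r k, r.Prime → r ≠ p → 0 < k → r ^ k ∣ N → ∀ e, 3 ≤ r →
      r ∣ G2Tori.splitOrd e q → r ^ k ∣ G2Tori.splitOrd e q := by
    intro r k hr _ _ hrN e hr3 he
    have h := pow_splitOrd (p := p) hF hodd hr hr3 he (y := x ^ (N / r ^ k)) (k := k)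
      (by nth_rewrite 2 [← hpow _ hrN]; exact pow_orderOf_eq_one _)
    rw [← hpow _ hrN]
    exact orderOf_dvd_of_pow_eq_one h
  have hsplit_dvd : ∀ e, G2Tori.splitOrd e q ∣ q ^ 2 - 1 := by
    intro e
    rw [hsq, G2Tori.splitOrd]
    split_ifs
    · exact dvd_mul_left _ _
    · exact dvd_mul_right _ _
  have hpq := char_dvd (p := p) hF
  have hpq2 : ¬ p ∣ q ^ 2 - 1 := by
    intro h
    rw [hsq] at h
    rcases (Nat.Prime.dvd_mul hp).1 h with h | h
    · exact hp.not_dvd_one ((Nat.dvd_add_right hpq).1 h)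
    · have := Nat.dvd_sub hpq h
      rw [show q - (q - 1) = 1 by omega] at this
      exact hp.not_dvd_one this
  by_cases hpN : p ∣ N
  swap
  · -- semisimple
    right; right; left
    rw [Nat.dvd_iff_prime_pow_dvd_dvd]
    intro r k hr hrN
    rcases Nat.eq_zero_or_pos k with rfl | hk
    · simp
    have hrd : r ∣ N := (dvd_pow_self r hk.ne').trans hrN
    have hrp : r ≠ p := fun h => hpN (h ▸ hrd)
    by_cases hr2 : r = 2
    · subst hr2
      rw [← hpow _ hrN]
      rcases cenExp_dvd (hinv (x ^ (N / 2 ^ k)) (by rw [hpow _ hrN]; exact dvd_pow_self 2 hk.ne'))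
        with h | h | h
      · exact h
      · have h' : orderOf (x ^ (N / 2 ^ k)) ∣ q + 1 := by
          refine Nat.Coprime.dvd_of_dvd_mul_left ?_ h
          rw [hpow _ hrN]
          exact Nat.Coprime.pow_left k ((Nat.coprime_primes Nat.prime_two hp).2 (Ne.symm hodd))
        exact h'.trans (hsq ▸ dvd_mul_right _ _)
      · have h' : orderOf (x ^ (N / 2 ^ k)) ∣ q - 1 := by
          refine Nat.Coprime.dvd_of_dvd_mul_left ?_ h
          rw [hpow _ hrN]
          exact Nat.Coprime.pow_left k ((Nat.coprime_primes Nat.prime_two hp).2 (Ne.symm hodd))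
        exact h'.trans (hsq ▸ dvd_mul_left _ _)
    · have hr3 : 3 ≤ r := by have := hr.two_le; omega
      obtain ⟨e, he⟩ := hprime r hr hrp hr3 hrd
      exact (hsplit r k hr hrp hk hrN e hr3 he).trans (hsplit_dvd e)
  by_cases hp2N : p ^ 2 ∣ N
  · -- regular unipotent
    obtain ⟨c, hc⟩ := exists_conj_uni (p := p) hF (k := 2) (y := x ^ (N / p ^ 2))
      (by nth_rewrite 2 [← hpow _ hp2N]; exact pow_orderOf_eq_one _)
    have ho : orderOf ((c * x ^ (N / p ^ 2) * c⁻¹ : (GG F)) : GL chevG2.Idx F) = p ^ 2 := by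
      rw [Subgroup.orderOf_coe, orderOf_conj, hpow _ hp2N]
    have hup : ((c * x ^ (N / p ^ 2) * c⁻¹ : (GG F)) : GL chevG2.Idx F) ^ p ≠ 1 := by
      intro h
      have h1 := Nat.le_of_dvd hp.pos (orderOf_dvd_of_pow_eq_one h)
      rw [ho] at h1
      nlinarith
    have hp7 : p < 7 := by
      by_contra h
      exact hup (G2Unipotent.pow_pos_of_seven_le (by omega) hc)
    have hcomm : Commute (c * x * c⁻¹ : (GG F)) (c * x ^ (N / p ^ 2) * c⁻¹) := by
      rw [← conj_pow]; exact Commute.self_pow _ _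
    have hxU := G2Unipotent.mem_posUnipotent_of_commute hp3 hc hup (c * x * c⁻¹ : (GG F)).2
      (congrArg Subtype.val hcomm.eq)
    right; right; right; right
    refine ⟨?_, ?_⟩
    · rcases (by omega : p = 3 ∨ p = 4 ∨ p = 5 ∨ p = 6) with h | h | h | h
      · exact Or.inl h
      · exact absurd (h ▸ hp) (by decide)
      · exact Or.inr h
      · exact absurd (h ▸ hp) (by decide)
    · rw [hN, ← orderOf_conj c x, ← Subgroup.orderOf_coe, sq]
      exact orderOf_dvd_of_pow_eq_one (G2Unipotent.pow_char_sq hp3 hxU)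
  by_cases h2N : 2 ∣ N
  · rcases cenExp_dvd (hinv x h2N) with h | h | h
    · exact absurd (hpN.trans h) hpq2
    · exact Or.inl h
    · exact Or.inr (Or.inl h)
  obtain ⟨m, hm⟩ := hpN
  have hpm : ¬ p ∣ m := fun h => hp2N (by rw [hm, sq]; exact mul_dvd_mul_left p h)
  by_cases h5 : ∃ r, r.Prime ∧ r ≠ p ∧ 5 ≤ r ∧ r ∣ N
  · obtain ⟨r, hr, hrp, hr5, hrN⟩ := h5
    obtain ⟨e, he⟩ := hprime r hr hrp (by omega) hrN
    haveI := Fact.mk hr
    obtain ⟨X, hX, -, hcen⟩ := G2Tori.exists_split_torus (p := p) e hF hodd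
    have hi : ¬ r ∣ X.index := split_index hq hr (by omega) he
      (by rw [← hX, X.card_mul_index, card_group q hF])
    obtain ⟨c, hc⟩ := G2Tori.exists_fixed_coset (k := 1) (y := x ^ (N / r))
      (by rw [pow_one]; nth_rewrite 2 [← hpow r hrN]; exact pow_orderOf_eq_one _) hi
    have hv1 : c * x ^ (N / p) * c⁻¹ ≠ 1 := by
      intro h
      have := congrArg orderOf h
      rw [orderOf_conj, hpow p ⟨m, hm⟩, orderOf_one] at this
      omega
    obtain ⟨t, ht, htz⟩ := hcen r hr hr5 _ hc (by rw [orderOf_conj, hpow r hrN])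
      (c * x ^ (N / p) * c⁻¹)
      (by rw [← conj_pow, ← conj_pow]; exact Commute.pow_pow (Commute.refl _) _ _) hv1
      ⟨1, by rw [pow_one, conj_pow, orderOf_dvd_iff_pow_eq_one.1 (hpow p ⟨m, hm⟩).dvd, mul_one,
        mul_inv_cancel]⟩
    have hxt : Commute (c * x * c⁻¹) t := htz _ (by rw [← conj_pow]; exact Commute.self_pow _ _)
    have hco : Nat.Coprime (orderOf (c * x * c⁻¹)) (orderOf t) := by
      rw [orderOf_conj, ht, Nat.coprime_comm, Nat.prime_two.coprime_iff_not_dvd, ← hN]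
      exact h2N
    have ho := hxt.orderOf_mul_eq_mul_orderOf_of_coprime hco
    have hC := G2SLThree.cenExp_of_commute (p := p) hchar ht (hxt.mul_left (Commute.refl t))
    rw [hNc] at hC
    have hdv : N ∣ orderOf (c * x * c⁻¹ * t) := by
      rw [ho, orderOf_conj]
      exact dvd_mul_right _ _
    rcases cenExp_dvd hC with h | h | h
    · exact absurd ((Dvd.intro m hm.symm).trans (hdv.trans h)) hpq2
    · exact Or.inl (hdv.trans h)
    · exact Or.inr (Or.inl (hdv.trans h))
  push Not at h5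
  have hm0 : 0 < m := Nat.pos_of_ne_zero fun h => by rw [h, mul_zero] at hm; omega
  -- only the prime three is left
  have hprimes : ∀ r, r.Prime → r ∣ m → r = 3 := by
    intro r hr hrm
    have hrN : r ∣ N := hm ▸ hrm.mul_left p
    have hrp : r ≠ p := fun h => hpm (h ▸ hrm)
    have hr2 : r ≠ 2 := fun h => h2N (h ▸ hrN)
    by_contra h3
    have := hr.two_le
    have : r = 4 := by
      have := h5 r hr hrp
      by_contra h4
      exact (this (by omega)) hrN
    subst this
    exact absurd hr (by decide)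
  by_cases h3 : 3 ∣ m
  · have h3p : 3 ≠ p := fun h => hpm (h ▸ h3)
    obtain ⟨e, he⟩ := hprime 3 Nat.prime_three h3p le_rfl (hm ▸ h3.mul_left p)
    have hmd : m ∣ G2Tori.splitOrd e q := by
      rw [Nat.dvd_iff_prime_pow_dvd_dvd]
      intro r k hr hrm
      rcases Nat.eq_zero_or_pos k with rfl | hk
      · simp
      obtain rfl := hprimes r hr ((dvd_pow_self r hk.ne').trans hrm)
      exact hsplit 3 k hr h3p hk (hm ▸ hrm.mul_left p) e le_rfl he
    rw [hm]
    simp only [G2Tori.splitOrd] at hmd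
    split_ifs at hmd
    · exact Or.inr (Or.inl (mul_dvd_mul_left p hmd))
    · exact Or.inl (mul_dvd_mul_left p hmd)
  · have hm1 : m = 1 := by
      by_contra h
      obtain ⟨r, hr, hrm⟩ := Nat.exists_prime_and_dvd h
      exact h3 (hprimes r hr hrm ▸ hrm)
    rw [hm, hm1, mul_one]
    exact Or.inl (dvd_mul_right _ _)

end

end CfsgLib.Chevalley.G2Spectrum
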