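import Cfsg.Agent.Lib.Chevalley.G2Spectrum
import Cfsg.Agent.Lib.SL2.Torus

/-!
Elements of `G₂(q)`, `q` odd, of order `p(q ± 1)`, `q² - 1`, `q² ± q + 1`, and `p²` for `p ≤ 5`.
-/

set_option autoImplicit false
set_option linter.unusedSectionVars false
set_option linter.style.haveILetI false

open Matrix Cfsg.Lie
open scoped MatrixGroups

namespace CfsgLib.Chevalley.G2Spectrum

universe u

variable {F : Type u} [Field F] [Fintype F] {p : ℕ} [Fact p.Prime] [CharP F p]

theorem orderOf_slX_one [DecidableEq F] : orderOf (slX (1 : F)) = p := by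
  refine orderOf_eq_prime ?_ ?_
  · have key : ∀ n : ℕ, ((slX (1 : F)) ^ n).1 = !![1, (n : F); 0, 1] := by
      intro n
      induction n with
      | zero => simp [← Matrix.one_fin_two]
      | succ n ih =>
        rw [pow_succ, Matrix.SpecialLinearGroup.coe_mul, ih, slX_coe, Matrix.mul_fin_two]
        simp [add_comm]
    apply Subtype.ext
    rw [key, CharP.cast_eq_zero, ← Matrix.one_fin_two]
    rfl
  · intro h
    have := congrArg (fun M : SL(2, F) => M.1 0 1) h
    simp at this

theorem exists_orderOf_mul {q e : ℕ} (hF : Fintype.card F = q) (hq : 5 ≤ q)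
    (he : e = q - 1 ∨ e = q + 1) : ∃ x : GG F, orderOf x = p * e := by
  letI := Classical.decEq F
  obtain ⟨g, -, hg, -⟩ := CfsgLib.SL2.exists_torus_generator (F := F) (e := e)
    (by rwa [Nat.card_eq_fintype_card, hF]) (by omega)
  have hj : Function.Injective (G2SLThree.jG F) := fun a b h =>
    G2SLThree.jHom_injective (congrArg Subtype.val h)
  have hk : Function.Injective (G2SLThree.kG F) := fun a b h =>
    Matrix.SpecialLinearGroup.toGL_injective (G2SLThree.kHom_injective (congrArg Subtype.val h))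
  refine ⟨G2SLThree.kG F (slX 1) * G2SLThree.jG F g, ?_⟩
  rw [(G2SLThree.commute_kG_jG _ _).orderOf_mul_eq_mul_orderOf_of_coprime ?_,
    orderOf_injective _ hk, orderOf_injective _ hj, orderOf_slX_one (p := p), hg]
  rw [orderOf_injective _ hk, orderOf_injective _ hj, orderOf_slX_one (p := p), hg]
  have hp := (Fact.out : p.Prime)
  rw [hp.coprime_iff_not_dvd]
  intro h
  have hpq := char_dvd (p := p) hF
  rcases he with rfl | rfl
  · have := Nat.dvd_sub hpq h
    rw [show q - (q - 1) = 1 by omega] at this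
    exact hp.not_dvd_one this
  · exact hp.not_dvd_one ((Nat.dvd_add_right hpq).1 h)

theorem exists_orderOf_sq_sub_one {q : ℕ} (hF : Fintype.card F = q) :
    ∃ x : GG F, orderOf x = q ^ 2 - 1 := by
  classical
  haveI := Fact.mk (CharP.char_is_prime F (ringChar F))
  let K := FiniteField.Extension F (ringChar F) 2
  have : Finite K := Module.finite_of_finite F
  have hq : 2 ≤ q := hF ▸ Fintype.one_lt_card
  have hK : Nat.card K = q ^ 2 := by
    rw [FiniteField.natCard_extension, Nat.card_eq_fintype_card, hF]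
  have hfr : Module.finrank F K = 2 := by
    have h := Module.natCard_eq_pow_finrank (K := F) (V := K)
    rw [hK, Nat.card_eq_fintype_card, hF] at h
    exact (Nat.pow_right_injective hq h).symm
  let b : Module.Basis (Fin 2) F K := Module.finBasisOfFinrankEq F K hfr
  let φ : Kˣ →* GL (Fin 2) F := Units.map (Algebra.leftMulMatrix b).toRingHom.toMonoidHom
  have hφ : Function.Injective φ := fun x y h =>
    Units.ext (Algebra.leftMulMatrix_injective b (congrArg Units.val h))
  obtain ⟨g, hg⟩ := IsCyclic.exists_generator (α := Kˣ)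
  refine ⟨⟨G2SLThree.kHom F (φ g), G2SLThree.kHom_mem_group _⟩, ?_⟩
  rw [← Subgroup.orderOf_coe, orderOf_injective _ G2SLThree.kHom_injective, orderOf_injective _ hφ,
    orderOf_eq_card_of_forall_mem_zpowers hg, Nat.card_units, hK]

/-- The sparse matrix of `x_r(1)`. -/
def unitL (r : ℕ) : Sparse.SMat :=
  ((List.range 14).map fun i => (i, i, (1 : ℤ))) ++ coefList chevG2 1 r ++ coefList chevG2 2 r ++
    coefList chevG2 3 r

/-- The powers of `x₇(1) x₆(1)`. -/
def prodL : ℕ → Sparse.SMat
  | 0 => (List.range 14).map fun i => (i, i, (1 : ℤ))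
  | n + 1 => Sparse.mulL (Sparse.mulL (unitL 7) (unitL 6)) (prodL n)

theorem one_entry : ∀ a b : Fin (chevG2.rank + chevG2.nroots),
    Sparse.entry ((List.range 14).map fun i => (i, i, (1 : ℤ))) a b = if a = b then 1 else 0 := by
  decide +kernel

theorem inBounds_unitL : ∀ r ∈ [6, 7], ∀ e ∈ unitL r, e.1 < 14 ∧ e.2.1 < 14 := by
  decide +kernel

theorem inBounds_prodOne : ∀ e ∈ Sparse.mulL (unitL 7) (unitL 6), e.1 < 14 ∧ e.2.1 < 14 := by
  decide +kernel

set_option maxRecDepth 100000 in
theorem prod_witness :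
    ¬ (3 : ℤ) ∣ Sparse.entry (prodL 3) 0 2 ∧ ¬ (5 : ℤ) ∣ Sparse.entry (prodL 5) 0 2 := by
  decide +kernel

/-- Integer matrices from sparse lists. -/
noncomputable def intMat (L : Sparse.SMat) : Matrix chevG2.Idx chevG2.Idx ℤ :=
  Sparse.toMat (fun a => ((code chevG2 a : Fin _) : ℕ)) L

theorem intMat_one : intMat ((List.range 14).map fun i => (i, i, (1 : ℤ))) = 1 := by
  ext a b
  rw [intMat, Sparse.toMat_apply, one_entry (code chevG2 a) (code chevG2 b), Matrix.one_apply]
  simp only [(code chevG2).injective.eq_iff]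

theorem intMat_prodL (n : ℕ) : intMat (prodL n) = (intMat (unitL 7) * intMat (unitL 6)) ^ n := by
  induction n with
  | zero => rw [pow_zero]; exact intMat_one
  | succ n ih =>
    rw [pow_succ', ← ih]
    show intMat (Sparse.mulL _ (prodL n)) = _
    rw [intMat, Sparse.toMat_mulL (code chevG2) inBounds_prodOne,
      Sparse.toMat_mulL (code chevG2) (inBounds_unitL 7 (by simp))]
    rfl

theorem x_one_eq {r : ℕ} (hr : r < chevG2.nroots) :
    chevG2.x F r 1 = (Int.castRingHom F).mapMatrix (intMat (unitL r)) := by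
  have h : intMat (unitL r) = 1 + coefMat chevG2 1 r + coefMat chevG2 2 r + coefMat chevG2 3 r := by
    rw [← intMat_one]
    ext a b
    simp [intMat, unitL, coefMat, Sparse.toMat_apply, Sparse.entry_append, add_assoc]
  rw [x_eq_xR chevG2 F hr, xR_eq_sum chevG2 cert_G2.wf (r := ⟨r, hr⟩), h]
  simp only [map_add, map_one, one_pow, one_smul]
  rfl

theorem exists_orderOf_char_sq (hp : p = 3 ∨ p = 5) : ∃ x : GG F, orderOf x = p ^ 2 := by
  have h7 : 7 ∈ G2Unipotent.posL := by decide
  have h6 : 6 ∈ G2Unipotent.posL := by decide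
  set u : GL chevG2.Idx F := xG cert_G2 7 1 * xG cert_G2 6 1 with hu
  have hmem : u ∈ chevG2.posUnipotent F := by
    rw [G2Unipotent.posUnipotent_posL]
    exact mul_mem (xG_mem_rootsU cert_G2 h7 1) (xG_mem_rootsU cert_G2 h6 1)
  have hg : u ∈ chevG2.group F :=
    rootsU_le_group cert_G2 {r | r ∈ G2Unipotent.posL} (G2Unipotent.posUnipotent_posL (F := F) ▸ hmem)
  refine ⟨⟨u, hg⟩, ?_⟩
  rw [← Subgroup.orderOf_coe]
  refine orderOf_eq_prime_pow (n := 1) ?_ ?_
  · rw [pow_one]
    intro h
    have h' := congrArg (fun v : GL chevG2.Idx F => (v : Matrix chevG2.Idx chevG2.Idx F)) h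
    simp only [hu, Units.val_pow_eq_pow_val, Units.val_mul, coe_xG, Units.val_one,
      x_one_eq (F := F) (show 7 < chevG2.nroots by decide),
      x_one_eq (F := F) (show 6 < chevG2.nroots by decide), ← map_mul, ← map_pow,
      ← intMat_prodL] at h'
    have h'' := congrFun (congrFun h' ((code chevG2).symm ⟨0, by decide⟩))
      ((code chevG2).symm ⟨2, by decide⟩)
    rw [Matrix.one_apply_ne (fun e => by simpa using (code chevG2).symm.injective e)] at h''
    simp only [RingHom.mapMatrix_apply, Matrix.map_apply, intMat, Sparse.toMat_apply,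
      Equiv.apply_symm_apply, eq_intCast] at h''
    rw [CharP.intCast_eq_zero_iff F p] at h''
    rcases hp with rfl | rfl
    · exact prod_witness.1 (by exact_mod_cast h'')
    · exact prod_witness.2 (by exact_mod_cast h'')
  · rw [show p ^ (1 + 1) = p * p by ring]
    exact G2Unipotent.pow_char_sq (by omega) hmem

end CfsgLib.Chevalley.G2Spectrum
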