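import Cfsg.Agent.Lib.Chevalley.G2TorusData

/-!
Torus elements of prime order at least five in `G₂`: the Weyl group elements fixing them, the
cyclic tori of order `q² ± q + 1` and their centralisers.
-/

set_option autoImplicit false
set_option linter.unusedSectionVars false

open Matrix Cfsg.Lie

namespace CfsgLib.Chevalley.G2Tori

open CfsgLib.KnownSimple.ChevalleyLang (Omega exists_preimage)
open Twist

section values

variable {K : Type*} [Field K]

theorem chi_eq (c : Fin chevG2.rank → Kˣ) (s : Fin chevG2.nroots) :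
    chi chevG2 s c = chi chevG2 ra c ^ crd auxG2 0 s * chi chevG2 rb c ^ crd auxG2 1 s := by
  show (∏ k : Fin chevG2.rank, c k ^ chevG2.cartan k s) =
    (∏ k : Fin chevG2.rank, c k ^ chevG2.cartan k ra) ^ crd auxG2 0 s *
      (∏ k : Fin chevG2.rank, c k ^ chevG2.cartan k rb) ^ crd auxG2 1 s
  rw [← Finset.prod_zpow, ← Finset.prod_zpow, ← Finset.prod_mul_distrib]
  refine Finset.prod_congr rfl fun k _ => ?_
  rw [← _root_.zpow_mul, ← _root_.zpow_mul, ← _root_.zpow_add, crd_spec s k]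
  congr 1
  ring

/-- The torus element with given values at the simple roots. -/
noncomputable def cOf (x y : Kˣ) : Fin chevG2.rank → Kˣ := fun k =>
  x ^ invC (nd 0) k * y ^ invC (nd 1) k

theorem chi_cOf (x y : Kˣ) (s : Fin chevG2.nroots) :
    chi chevG2 s (cOf x y) = x ^ crd auxG2 0 s * y ^ crd auxG2 1 s := by
  show (∏ k : Fin 2, (x ^ invC (nd 0) k * y ^ invC (nd 1) k) ^ chevG2.cartan k s) = _
  rw [Fin.prod_univ_two, ← (invC_crd s).1, ← (invC_crd s).2, mul_zpow, mul_zpow, mul_mul_mul_comm]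
  simp only [← _root_.zpow_mul, ← _root_.zpow_add, Fin.val_zero, Fin.val_one, mul_comm]

theorem chi_cOf_ra (x y : Kˣ) : chi chevG2 ra (cOf x y) = x := by
  obtain ⟨-, ⟨h1, h2, -, -⟩, -⟩ := simple_data
  rw [chi_cOf, h1, h2, zpow_one, zpow_zero, mul_one]

theorem chi_cOf_rb (x y : Kˣ) : chi chevG2 rb (cOf x y) = y := by
  obtain ⟨-, ⟨-, -, h3, h4⟩, -⟩ := simple_data
  rw [chi_cOf, h3, h4, zpow_one, zpow_zero, one_mul]

theorem injective_torusHom : Function.Injective (torusHom chevG2 K) :=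
  torusHom_injective_of_inverse invC_spec simple_data.2.2

theorem eq_one_of_small {x : Kˣ} {r : ℕ} (hr : r.Prime) (hr5 : 5 ≤ r) (hx : x ^ r = 1) {k : ℤ}
    (hk : k.natAbs ∈ ([1, 2, 3, 4] : List ℕ)) (hxk : x ^ k = 1) : x = 1 := by
  have h1 : orderOf x ∣ r := orderOf_dvd_of_pow_eq_one hx
  have h2 : orderOf x ∣ k.natAbs := Int.natCast_dvd.1 (orderOf_dvd_iff_zpow_eq_one.2 hxk)
  rw [← orderOf_eq_one_iff]
  rcases (Nat.dvd_prime hr).1 h1 with h | h
  · exact h
  · exfalso
    rw [h] at h2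
    simp only [List.mem_cons, List.not_mem_nil, or_false] at hk
    have := Nat.le_of_dvd (by omega) h2
    omega

theorem eq_one_of_det {x y : Kˣ} {r : ℕ} (hr : r.Prime) (hr5 : 5 ≤ r) (hx : x ^ r = 1)
    (hy : y ^ r = 1) {a b c d : ℤ} (h : (det2 a b c d).natAbs ∈ ([1, 2, 3, 4] : List ℕ))
    (h1 : x ^ a * y ^ b = 1) (h2 : x ^ c * y ^ d = 1) : x = 1 ∧ y = 1 := by
  constructor
  · refine eq_one_of_small hr hr5 hx h ?_
    have e := congrArg₂ (fun u v : Kˣ => u ^ d * v ^ (-b)) h1 h2
    simp only [mul_zpow, ← _root_.zpow_mul, _root_.one_zpow, mul_one] at e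
    rw [mul_mul_mul_comm, ← _root_.zpow_add, ← _root_.zpow_add] at e
    rw [← e, show b * d + d * -b = 0 by ring, zpow_zero, mul_one]
    congr 1
    simp [det2]; ring
  · refine eq_one_of_small hr hr5 hy h ?_
    have e := congrArg₂ (fun u v : Kˣ => u ^ (-c) * v ^ a) h1 h2
    simp only [mul_zpow, ← _root_.zpow_mul, _root_.one_zpow, mul_one] at e
    rw [mul_mul_mul_comm, ← _root_.zpow_add, ← _root_.zpow_add] at e
    rw [← e, show a * -c + c * a = 0 by ring, zpow_zero, one_mul]
    congr 1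
    simp [det2]; ring

variable {r : ℕ} (hr : r.Prime) (hr5 : 5 ≤ r) {c : Fin chevG2.rank → Kˣ}
  (hx : chi chevG2 ra c ^ r = 1) (hy : chi chevG2 rb c ^ r = 1)
  (hne : ¬ (chi chevG2 ra c = 1 ∧ chi chevG2 rb c = 1))

include hr hr5 hx hy hne

/-- A torus element of prime order `r ≥ 5` is trivial on at most one pair of roots. -/
theorem root_unique {s u : Fin chevG2.nroots} (hs : chi chevG2 s c = 1)
    (hu : chi chevG2 u c = 1) : u = s ∨ u = ngR cert_G2 s := by
  rcases pair_cases s u with h | h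
  · exfalso
    apply hne
    refine eq_one_of_det hr hr5 hx hy ?_ ((chi_eq c s).symm.trans hs) ((chi_eq c u).symm.trans hu)
    simp only [List.mem_cons, List.not_mem_nil, or_false] at h ⊢
    omega
  · exact h

/-- The Weyl group elements fixing a torus element of prime order `r ≥ 5`. -/
theorem perm_fix {n : GL chevG2.Idx K} {π : Equiv.Perm (Fin chevG2.nroots)}
    {η : Fin chevG2.nroots → K} (hA : Acts full.cert n π η)
    (hπ : ∀ s : Fin chevG2.nroots, chi chevG2 (π s) c = chi chevG2 s c) :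
    π = 1 ∨ ∃ α : Fin chevG2.nroots, chi chevG2 α c = 1 ∧
      ∀ s : Fin chevG2.nroots, ∃ k : ℤ, crd auxG2 0 (π s) = crd auxG2 0 s + k * crd auxG2 0 α ∧
        crd auxG2 1 (π s) = crd auxG2 1 s + k * crd auxG2 1 α := by
  have hlin : ∀ (i : ℕ), i < 2 → ∀ s : Fin chevG2.nroots, crd auxG2 i (π s) =
      crd auxG2 0 s * crd auxG2 i (π ra) + crd auxG2 1 s * crd auxG2 i (π rb) := by
    intro i hi s
    have e := hA.lin i hi s
    change _ = ∑ j : Fin 2, _ at e
    rw [Fin.sum_univ_two] at e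
    obtain ⟨⟨p0, p1⟩, -, -⟩ := simple_data
    rw [e, show smp full.cert (0 : Fin 2) = ra from p0, show smp full.cert (1 : Fin 2) = rb from p1]
    rfl
  rcases perm_cases (π ra) (π rb) with ⟨e1, e2⟩ | h | ⟨α, k₀, k₁, hk, e1, e2, e3, e4⟩ | ⟨s, hs⟩
  · refine Or.inl (Equiv.ext fun s => ?_)
    obtain ⟨-, ⟨h1, h2, h3, h4⟩, -⟩ := simple_data
    rw [Equiv.Perm.one_apply]
    refine crd_injective _ _ ?_ ?_
    · rw [hlin 0 (by norm_num) s, e1, e2, h1, h3]; ring
    · rw [hlin 1 (by norm_num) s, e1, e2, h2, h4]; ring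
  · exfalso
    apply hne
    refine eq_one_of_det hr hr5 hx hy h ?_ ?_
    · have e := (chi_eq c (π ra)).symm.trans (hπ ra)
      rw [_root_.zpow_sub, zpow_one, mul_right_comm, ← div_eq_mul_inv, div_eq_one]
      exact e
    · have e := (chi_eq c (π rb)).symm.trans (hπ rb)
      rw [_root_.zpow_sub, zpow_one, ← mul_assoc, ← div_eq_mul_inv, div_eq_one]
      exact e
  · right
    refine ⟨α, ?_, fun s => ⟨crd auxG2 0 s * ((k₀ : ℤ) - 3) + crd auxG2 1 s * ((k₁ : ℤ) - 3), ?_, ?_⟩⟩
    · have hα : chi chevG2 α c ^ r = 1 := by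
        rw [chi_eq, mul_pow, ← zpow_natCast, ← zpow_natCast, ← _root_.zpow_mul, ← _root_.zpow_mul,
          mul_comm (crd auxG2 0 α), mul_comm (crd auxG2 1 α), _root_.zpow_mul, _root_.zpow_mul,
          zpow_natCast, zpow_natCast, hx, hy, _root_.one_zpow, _root_.one_zpow, one_mul]
      rcases hk with hk | hk
      · refine eq_one_of_small hr hr5 hα (k := (k₀ : ℤ) - 3) ?_ ?_
        · have := k₀.isLt
          simp only [List.mem_cons, List.not_mem_nil, or_false]
          omega
        · have e := (chi_eq c (π ra)).symm.trans (hπ ra)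
          rw [show crd auxG2 0 (π ra) = ((k₀ : ℤ) - 3) * crd auxG2 0 α + 1 by linarith, e2,
            _root_.zpow_add, zpow_one, mul_right_comm, mul_eq_right] at e
          rw [chi_eq, mul_zpow, ← _root_.zpow_mul, ← _root_.zpow_mul, mul_comm (crd auxG2 0 α),
            mul_comm (crd auxG2 1 α)]
          exact e
      · refine eq_one_of_small hr hr5 hα (k := (k₁ : ℤ) - 3) ?_ ?_
        · have := k₁.isLt
          simp only [List.mem_cons, List.not_mem_nil, or_false]
          omega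
        · have e := (chi_eq c (π rb)).symm.trans (hπ rb)
          rw [show crd auxG2 1 (π rb) = ((k₁ : ℤ) - 3) * crd auxG2 1 α + 1 by linarith, e3,
            _root_.zpow_add, zpow_one, ← mul_assoc, mul_eq_right] at e
          rw [chi_eq, mul_zpow, ← _root_.zpow_mul, ← _root_.zpow_mul, mul_comm (crd auxG2 0 α),
            mul_comm (crd auxG2 1 α)]
          exact e
    · rw [hlin 0 (by norm_num) s, show crd auxG2 0 (π ra) = ((k₀ : ℤ) - 3) * crd auxG2 0 α + 1 by
        linarith, e3]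
      ring
    · rw [hlin 1 (by norm_num) s, show crd auxG2 1 (π rb) = ((k₁ : ℤ) - 3) * crd auxG2 1 α + 1 by
        linarith, e2]
      ring
  · exfalso
    rcases hs (π s) with h | h
    · exact h (hlin 0 (by norm_num) s)
    · exact h (hlin 1 (by norm_num) s)

end values

universe u

variable {F : Type u} [Field F] [Fintype F]

/-- The order of the cyclic torus. -/
def torOrd (m : Fin 2) (q : ℕ) : ℕ := if m = 0 then q * q + 1 - q else q * q + q + 1

theorem cast_torOrd (m : Fin 2) (q : ℕ) :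
    (torOrd m q : ℤ) = (q : ℤ) * q - rotSign m * q + 1 := by
  have h : q ≤ q * q + 1 := by nlinarith
  fin_cases m <;> simp [torOrd, rotSign]
  · rw [Nat.cast_sub h]; push_cast; ring

/-- The rotations give cyclic subgroups whose subgroups of prime order `r ≥ 5` have the whole
subgroup as centraliser. -/
theorem exists_cyclic_torus (m : Fin 2) {q : ℕ} (hF : Fintype.card F = q) :
    ∃ x : ↥(chevG2.group F), orderOf x = torOrd m q ∧
      ∀ r : ℕ, r.Prime → 5 ≤ r → r ∣ torOrd m q → ∀ z : ↥(chevG2.group F),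
        Commute z (x ^ (torOrd m q / r)) → z ∈ Subgroup.zpowers x := by
  obtain ⟨σ, hσ⟩ := exists_frobAlg chevG2 F
  obtain ⟨g, hg, hgn⟩ := exists_frame full invC_spec hσ (coxWord ((m : ℕ) + 1))
  obtain ⟨η, hA⟩ := acts_nW (F := Omega chevG2 F) full (coxWord ((m : ℕ) + 1))
  have hfix : ∀ y, σ y = y → ∃ x, algebraMap F (Omega chevG2 F) x = y := fun y hy =>
    exists_preimage (by rw [← hσ]; exact hy)
  have hq : ∀ y, σ y = y ^ q := fun y => hF ▸ hσ y
  have hq2 : 2 ≤ q := hF ▸ Fintype.one_lt_card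
  set N := torOrd m q with hN
  have hN0 : 0 < N := by
    have : (q : ℕ) ≤ q * q := Nat.le_mul_self q
    rw [hN, torOrd]; split_ifs <;> omega
  obtain ⟨p, hp⟩ := CharP.exists F
  haveI : Fact p.Prime := ⟨CharP.char_is_prime F p⟩
  haveI : CharP (Omega chevG2 F) p := charP_of_injective_algebraMap (algebraMap F _).injective p
  have hpq : (p : ℤ) ∣ q := by
    obtain ⟨k, hk⟩ := FiniteField.card F p
    rw [← hF, hk.2]
    exact_mod_cast dvd_pow_self p (PNat.ne_zero k)
  haveI : NeZero (N : Omega chevG2 F) := ⟨fun h0 => by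
    have h1 : (p : ℤ) ∣ (N : ℤ) := by exact_mod_cast (CharP.cast_eq_zero_iff _ p N).1 h0
    rw [hN, cast_torOrd] at h1
    have h2 : (p : ℤ) ∣ (1 : ℤ) := by
      have h3 : (p : ℤ) ∣ (q : ℤ) * q - rotSign m * q := by
        exact dvd_sub (hpq.mul_left _) (hpq.mul_left _)
      simpa using dvd_sub h1 h3
    exact (Fact.out : p.Prime).one_lt.ne' (by
      have := Int.eq_one_of_dvd_one (by positivity) h2
      exact_mod_cast this)⟩
  obtain ⟨ζ, hζ⟩ := HasEnoughRootsOfUnity.exists_primitiveRoot (Omega chevG2 F) N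
  set α : (Omega chevG2 F)ˣ := (hζ.isUnit hN0.ne').unit
  have hα : orderOf α = N := by
    rw [← orderOf_units, IsUnit.unit_spec]
    exact hζ.eq_orderOf.symm
  -- the element with value `α` at the first simple root
  set c := cOf α (α ^ ((q : ℤ) - rotShift m)) with hc0
  set e : Fin chevG2.nroots → ℤ := fun s =>
    (crd auxG2 0 s - rotShift m * crd auxG2 1 s) + crd auxG2 1 s * q with he
  have hchi : ∀ s : Fin chevG2.nroots, chi chevG2 s c = α ^ e s := by
    intro s
    rw [hc0, chi_cOf, ← _root_.zpow_mul, ← _root_.zpow_add, he]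
    congr 1
    ring
  have hαN : α ^ (N : ℤ) = 1 := by rw [zpow_natCast, ← hα, pow_orderOf_eq_one]
  have hc : ∀ s : Fin chevG2.nroots, chi chevG2 (rot m s) c = chi chevG2 s c ^ q := by
    intro s
    have e1 : e (rot m s) = e s * q + (-crd auxG2 1 s) * (N : ℤ) := by
      obtain ⟨a, b⟩ := rot_crd m s
      rw [hN, cast_torOrd]
      simp only [he]
      rw [b, a]
      ring
    rw [hchi, hchi, e1, _root_.zpow_add, mul_comm (-crd auxG2 1 s), _root_.zpow_mul α (N : ℤ), hαN,
      _root_.one_zpow, mul_one, _root_.zpow_mul, zpow_natCast]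
  obtain ⟨x, hx⟩ := exists_emb_torus full injective_torusHom hfix hg hgn hq hA hc
  have hra : chi chevG2 ra c = α := by rw [hc0, chi_cOf_ra]
  have hordT : orderOf (torusHom chevG2 (Omega chevG2 F) c) = N := by
    rw [orderOf_torusHom full (α := α) e hchi hra, hα]
  refine ⟨x, ?_, fun r hr hr5 hrN z hz => ?_⟩
  · rw [← orderOf_injective _ (emb_injective (K := Omega chevG2 F)), hx]
    exact (MulEquiv.orderOf_eq (MulAut.conj g) _).trans hordT
  set k := N / r with hk
  set y := g⁻¹ * emb chevG2 F (Omega chevG2 F) z * g with hy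
  obtain ⟨hym, hyfix⟩ := frame_mem full injective_torusHom hfix hg hgn z
  rw [← hy] at hym hyfix
  have hyc : Commute (torusHom chevG2 (Omega chevG2 F) (c ^ k)) y := by
    have h := (hz.symm.map (emb chevG2 F (Omega chevG2 F))).map (MulAut.conj g⁻¹).toMonoidHom
    have e1 : (MulAut.conj g⁻¹).toMonoidHom (emb chevG2 F (Omega chevG2 F) (x ^ k)) =
        torusHom chevG2 (Omega chevG2 F) (c ^ k) := by
      show g⁻¹ * emb chevG2 F (Omega chevG2 F) (x ^ k) * g⁻¹⁻¹ = _
      rw [map_pow, hx, conj_pow, map_pow]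
      group
    have e2 : (MulAut.conj g⁻¹).toMonoidHom (emb chevG2 F (Omega chevG2 F) z) = y := by
      show g⁻¹ * _ * g⁻¹⁻¹ = y
      rw [hy, inv_inv]
    rwa [e1, e2] at h
  set c' := c ^ k with hc'
  have hrk : k * r = N := Nat.div_mul_cancel hrN
  have hxr : chi chevG2 ra c' ^ r = 1 := by
    rw [hc', map_pow, hra, ← pow_mul, hrk, ← hα, pow_orderOf_eq_one]
  have hyr : chi chevG2 rb c' ^ r = 1 := by
    rw [hc', map_pow, hchi, ← pow_mul, hrk, ← zpow_natCast, ← _root_.zpow_mul, mul_comm,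
      _root_.zpow_mul, hαN, _root_.one_zpow]
  have hne : ¬ (chi chevG2 ra c' = 1 ∧ chi chevG2 rb c' = 1) := by
    rintro ⟨h, -⟩
    rw [hc', map_pow, hra, ← orderOf_dvd_iff_pow_eq_one, hα] at h
    have hkpos : 0 < k := Nat.pos_of_ne_zero fun h0 => by rw [h0, zero_mul] at hrk; omega
    have := Nat.le_of_dvd hkpos h
    nlinarith
  have h1 : ∀ s : Fin chevG2.nroots, chi chevG2 s c' ≠ 1 := by
    intro s hs
    have hs' : chi chevG2 (rot m s) c' = 1 := by
      rw [hc', map_pow, hc, ← pow_mul, mul_comm, pow_mul, ← map_pow, ← hc', hs, one_pow]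
    apply hne
    refine eq_one_of_det hr hr5 hxr hyr ?_ ((chi_eq c' s).symm.trans hs)
      ((chi_eq c' _).symm.trans hs')
    have := rot_det m s
    simp only [List.mem_cons, List.not_mem_nil, or_false] at this ⊢
    omega
  obtain ⟨u, hu, M, hM, π, ηm, hAm, hπ, u', hu', eY⟩ := exists_of_commute_torus full hym hyc
  have htriv : rootsU chevG2 (Omega chevG2 F) {r | chevG2.IsPosRoot r ∧ chi chevG2 r c' = 1} ≤ ⊥ := by
    rw [rootsU_le_iff full.cert]
    intro r hr _
    exact absurd hr.2 (h1 ⟨r, hr.1.1⟩)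
  rw [Subgroup.mem_bot.1 (htriv hu), Subgroup.mem_bot.1 (htriv hu'), one_mul, mul_one] at eY
  obtain rfl : π = 1 := (perm_fix hr hr5 hxr hyr hne hAm hπ).resolve_right
    fun ⟨s, hs, _⟩ => h1 s hs
  have hMd := mem_diagonal_of_perm full hM hAm fun i => full.simple_pos i.isLt
  rw [diagonalSubgroup_eq_range full] at hMd
  obtain ⟨d, hd⟩ := hMd
  rw [← hd] at eY
  have hσd : frobPush chevG2 σ (torusHom chevG2 (Omega chevG2 F) d) =
      torusHom chevG2 (Omega chevG2 F) (d ^ (q : ℤ)) := by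
    rw [frobPush, ReflectionsSpinor.ChevField.push_torus]
    refine congrArg _ (funext fun k => Units.ext ?_)
    rw [zpow_natCast]
    exact (hq _).trans (Units.val_pow_eq_pow_val _ _).symm
  rw [eY, hσd] at hyfix
  have hd' : ∀ s : Fin chevG2.nroots, chi chevG2 (rot m s) d = chi chevG2 s d ^ q := fun s => by
    rw [show rot m = wPerm full.cert (coxWord ((m : ℕ) + 1)) from rfl,
      chi_of_mul_torus_eq hA hyfix s, chi_zpow, zpow_natCast]
  set β := chi chevG2 ra d with hβ
  have hb : chi chevG2 rb d = β ^ ((q : ℤ) - rotShift m) := by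
    have e1 := hd' ra
    rw [chi_eq, (rot_data m).1.1, (rot_data m).1.2, zpow_one, ← hβ] at e1
    rw [_root_.zpow_sub, zpow_natCast, ← e1, mul_comm, inv_mul_cancel_left]
  have hd1 : ∀ s : Fin chevG2.nroots, chi chevG2 s d = β ^ e s := by
    intro s
    rw [chi_eq, hb, ← hβ, ← _root_.zpow_mul, ← _root_.zpow_add, he]
    congr 1
    ring
  have hβN : β ^ (N : ℤ) = 1 := by
    have e2 := hd' (rot m ra)
    rw [hd' ra, ← hβ, ← pow_mul] at e2
    have e3 : chi chevG2 (rot m (rot m ra)) d =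
        chi chevG2 (rot m ra) d ^ rotSign m * (chi chevG2 ra d)⁻¹ := by
      show (∏ k : Fin chevG2.rank, d k ^ chevG2.cartan k (rot m (rot m ra))) =
        (∏ k : Fin chevG2.rank, d k ^ chevG2.cartan k (rot m ra)) ^ rotSign m *
          (∏ k : Fin chevG2.rank, d k ^ chevG2.cartan k ra)⁻¹
      rw [← Finset.prod_zpow, ← Finset.prod_inv_distrib, ← Finset.prod_mul_distrib]
      refine Finset.prod_congr rfl fun k _ => ?_
      rw [← _root_.zpow_mul, ← _root_.zpow_neg, ← _root_.zpow_add, (rot_data m).2 k]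
      congr 1
      ring
    rw [e3, hd' ra, ← hβ, ← zpow_natCast, ← _root_.zpow_mul, ← _root_.zpow_neg_one, ← _root_.zpow_add,
      ← zpow_natCast β (q * q)] at e2
    have e4 : β ^ ((q : ℤ) * rotSign m + -1 - ((q * q : ℕ) : ℤ)) = 1 := by
      rw [_root_.zpow_sub, ← e2, mul_inv_cancel]
    rw [← _root_.inv_inj, inv_one, ← _root_.zpow_neg, ← e4, hN, cast_torOrd]
    congr 1
    push_cast
    ring
  haveI : NeZero (orderOf (α : Omega chevG2 F)) := ⟨by rw [orderOf_units, hα]; omega⟩
  obtain ⟨j, -, hj⟩ := (IsPrimitiveRoot.orderOf (α : Omega chevG2 F)).eq_pow_of_pow_eq_one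
    (ξ := (β : Omega chevG2 F)) (by
      rw [orderOf_units, hα, ← Units.val_pow_eq_pow_val, ← zpow_natCast, hβN, Units.val_one])
  have hβα : β = α ^ j := Units.ext (by rw [Units.val_pow_eq_pow_val, hj])
  refine Subgroup.mem_zpowers_iff.2 ⟨(j : ℤ), emb_injective (K := Omega chevG2 F) ?_⟩
  have hz' : emb chevG2 F (Omega chevG2 F) z = g * y * g⁻¹ := by rw [hy]; group
  rw [map_zpow, hx, hz', eY, conj_zpow, ← map_zpow]
  congr 2
  refine torusHom_eq_of_chi fun s => ?_
  rw [chi_zpow, hchi, hd1, hβα, ← zpow_natCast, ← _root_.zpow_mul, ← _root_.zpow_mul, mul_comm]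

end CfsgLib.Chevalley.G2Tori
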