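import Cfsg.Agent.Lib.Chevalley.TwistLang
import Cfsg.Agent.Lib.Chevalley.CountG2

/-!
Finite facts on the root system of `G₂` used for its twisted tori: the Weyl permutations of
order three and six, the negation, and the elements of the Weyl group fixing a torus element
whose order is a prime at least five.
-/

set_option autoImplicit false
set_option maxRecDepth 20000

open Matrix Cfsg.Lie

namespace CfsgLib.Chevalley.G2Tori

theorem full : Full chevG2 auxG2 := ⟨⟨cert_G2, posG2, by simp⟩, extraG2⟩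

/-- A node. -/
abbrev nd (i : Fin 2) : Fin chevG2.rank := i

/-- The simple root of the first node. -/
def ra : Fin chevG2.nroots := ⟨7, by decide⟩

/-- The simple root of the second node. -/
def rb : Fin chevG2.nroots := ⟨6, by decide⟩

/-- The inverse of the Cartan matrix. -/
def invC (j k : Fin chevG2.rank) : ℤ :=
  (([[2, 3], [1, 2]] : List (List ℤ)).getD (j : ℕ) []).getD (k : ℕ) 0

theorem invC_spec : ∀ i k : Fin chevG2.rank,
    ∑ j, cartanMat chevG2 i j * invC j k = if i = k then 1 else 0 := by decide +kernel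

theorem crd_spec : ∀ s : Fin chevG2.nroots, ∀ k : Fin chevG2.rank,
    chevG2.cartan k s =
      crd auxG2 0 s * chevG2.cartan k ra + crd auxG2 1 s * chevG2.cartan k rb := by
  decide +kernel

theorem invC_crd : ∀ s : Fin chevG2.nroots,
    chevG2.cartan 0 s * invC (nd 0) (nd 0) + chevG2.cartan 1 s * invC (nd 0) (nd 1) = crd auxG2 0 s ∧
    chevG2.cartan 0 s * invC (nd 1) (nd 0) + chevG2.cartan 1 s * invC (nd 1) (nd 1) = crd auxG2 1 s := by
  decide +kernel

theorem simple_data : (smp cert_G2 (nd 0) = ra ∧ smp cert_G2 (nd 1) = rb) ∧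
    (crd auxG2 0 ra = 1 ∧ crd auxG2 1 ra = 0 ∧ crd auxG2 0 rb = 0 ∧ crd auxG2 1 rb = 1) ∧
    ∀ j : Fin chevG2.rank, chevG2.simple j < chevG2.nroots := by
  decide +kernel

/-- The Coxeter word repeated. -/
def coxWord : ℕ → List (Fin chevG2.rank)
  | 0 => []
  | n + 1 => nd 0 :: nd 1 :: coxWord n

theorem crd_injective : ∀ s u : Fin chevG2.nroots,
    crd auxG2 0 s = crd auxG2 0 u → crd auxG2 1 s = crd auxG2 1 u → s = u := by
  decide +kernel

theorem wPerm_three : ∀ s : Fin chevG2.nroots,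
    wPerm cert_G2 (coxWord 3) s = ngR cert_G2 s := by decide +kernel

/-- Coefficient of the step of a rotation: `1` for order six, `2 - 1` for order three. -/
def rotShift (m : Fin 2) : ℤ := if m = 0 then 2 else 1

/-- The sign in `w² = ± w - 1`. -/
def rotSign (m : Fin 2) : ℤ := if m = 0 then 1 else -1

/-- The rotation of order six or three. -/
def rot (m : Fin 2) : Equiv.Perm (Fin chevG2.nroots) :=
  wPerm cert_G2 (coxWord ((m : ℕ) + 1))

theorem rot_data : ∀ m : Fin 2,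
    (crd auxG2 0 (rot m ra) = rotShift m ∧ crd auxG2 1 (rot m ra) = 1) ∧
    ∀ k : Fin chevG2.rank, chevG2.cartan k (rot m (rot m ra)) =
      rotSign m * chevG2.cartan k (rot m ra) - chevG2.cartan k ra := by
  decide +kernel

theorem rot_crd : ∀ m : Fin 2, ∀ s : Fin chevG2.nroots,
    crd auxG2 1 (rot m s) = crd auxG2 0 s - rotShift m * crd auxG2 1 s + rotSign m * crd auxG2 1 s ∧
      crd auxG2 0 (rot m s) - rotShift m * crd auxG2 1 (rot m s) = -crd auxG2 1 s := by
  decide +kernel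

/-- The permutation of order three, and the sum over its orbits. -/
theorem orbit_sum : ∀ s : Fin chevG2.nroots, ∀ k : Fin chevG2.rank,
    chevG2.cartan k s + chevG2.cartan k (wPerm cert_G2 (coxWord 2) s) +
      chevG2.cartan k (wPerm cert_G2 (coxWord 2) (wPerm cert_G2 (coxWord 2) s)) = 0 := by
  decide +kernel

theorem cox_perm_data :
    (∀ s : Fin chevG2.nroots, wPerm cert_G2 (coxWord 6) s = s) ∧
    wPerm cert_G2 (coxWord 2) ra ≠ ra ∧
      wPerm cert_G2 (coxWord 2) (wPerm cert_G2 (coxWord 2) ra) ≠ ra := by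
  decide +kernel

/-- The determinant of two coordinate vectors. -/
def det2 (a b c d : ℤ) : ℤ := a * d - b * c

/-- The two difference vectors of the images of the simple roots are multiples of one positive
root, one of them by `±1, ±2, ±3`. -/
def alongB (t₀ t₁ α : Fin chevG2.nroots) : Prop :=
  ∃ k₀ k₁ : Fin 7, (((k₀ : ℤ) - 3 ≠ 0) ∨ ((k₁ : ℤ) - 3 ≠ 0)) ∧
    crd auxG2 0 t₀ - 1 = ((k₀ : ℤ) - 3) * crd auxG2 0 α ∧
    crd auxG2 1 t₀ = ((k₀ : ℤ) - 3) * crd auxG2 1 α ∧
    crd auxG2 0 t₁ = ((k₁ : ℤ) - 3) * crd auxG2 0 α ∧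
    crd auxG2 1 t₁ - 1 = ((k₁ : ℤ) - 3) * crd auxG2 1 α

noncomputable instance instDecidableAlongB (t₀ t₁ α : Fin chevG2.nroots) : Decidable (alongB t₀ t₁ α) := by
  unfold alongB; infer_instance

theorem perm_cases : ∀ t₀ t₁ : Fin chevG2.nroots,
    (t₀ = ra ∧ t₁ = rb) ∨
    (det2 (crd auxG2 0 t₀ - 1) (crd auxG2 1 t₀) (crd auxG2 0 t₁) (crd auxG2 1 t₁ - 1)).natAbs ∈
      ([1, 2, 3, 4] : List ℕ) ∨
    (∃ α : Fin chevG2.nroots, alongB t₀ t₁ α) ∨
    ∃ s : Fin chevG2.nroots, ∀ u : Fin chevG2.nroots,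
      crd auxG2 0 u ≠ crd auxG2 0 s * crd auxG2 0 t₀ + crd auxG2 1 s * crd auxG2 0 t₁ ∨
      crd auxG2 1 u ≠ crd auxG2 0 s * crd auxG2 1 t₀ + crd auxG2 1 s * crd auxG2 1 t₁ := by
  decide +kernel

theorem pair_cases : ∀ s u : Fin chevG2.nroots,
    (det2 (crd auxG2 0 s) (crd auxG2 1 s) (crd auxG2 0 u) (crd auxG2 1 u)).natAbs ∈
        ([1, 2, 3] : List ℕ) ∨
      u = s ∨ u = ngR cert_G2 s := by
  decide +kernel

theorem half_period : ∀ α : Fin chevG2.nroots, ∃ a b : Fin 2,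
    ((a : ℕ) = 1 ∨ (b : ℕ) = 1) ∧ (2 : ℤ) ∣ crd auxG2 0 α * (a : ℕ) + crd auxG2 1 α * (b : ℕ) := by
  decide +kernel

theorem rot_det : ∀ m : Fin 2, ∀ s : Fin chevG2.nroots,
    (det2 (crd auxG2 0 s) (crd auxG2 1 s) (crd auxG2 0 (rot m s)) (crd auxG2 1 (rot m s))).natAbs ∈
      ([1, 2, 3] : List ℕ) := by
  decide +kernel

end CfsgLib.Chevalley.G2Tori
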