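import Cfsg.Agent.Lib.Chevalley.Bruhat
import Cfsg.Agent.Lib.Chevalley.CountG2

/-!
Powers of the unipotent elements of `G₂` in odd characteristic, and the centraliser of a
unipotent element outside both radicals.
-/

set_option autoImplicit false
set_option maxRecDepth 10000
set_option linter.unusedSectionVars false

open Matrix

namespace CfsgLib.Chevalley

open Cfsg.Lie

section general

variable {D : ChevalleyDatum} {A : Aux} {F : Type*} [Field F]

theorem sub_one_pow_raise {ι R : Type*} [Fintype ι] [DecidableEq ι] [Ring R] {w : ι → ℤ} {d : ℤ}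
    {M : Matrix ι ι R} (h : RaiseBy w d M) :
    ∀ (n : ℕ) a b, ((M - 1) ^ n) a b ≠ 0 → w b + (n : ℤ) * d ≤ w a := by
  intro n
  induction n with
  | zero =>
    intro a b hne
    rw [pow_zero, Matrix.one_apply] at hne
    obtain rfl : a = b := by_contra fun e => hne (if_neg e)
    simp
  | succ n ih =>
    intro a b hne
    rw [pow_succ', Matrix.mul_apply] at hne
    obtain ⟨c, -, hc⟩ := Finset.exists_ne_zero_of_sum_ne_zero hne
    have h1 := h a c (left_ne_zero_of_mul hc)
    have h2 := ih c b (right_ne_zero_of_mul hc)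
    push_cast
    linarith

/-- In characteristic `p` the `p`-th power raises `p` times as much. -/
theorem RaiseBy.pow_char [Fintype D.Idx] {w : D.Idx → ℤ} {d : ℤ} {p : ℕ} [Fact p.Prime]
    [CharP F p] {u : GL D.Idx F} (h : RaiseBy w d (u : Matrix D.Idx D.Idx F)) :
    RaiseBy w ((p : ℤ) * d) ((u ^ p : GL D.Idx F) : Matrix D.Idx D.Idx F) := by
  intro a b hne
  rcases isEmpty_or_nonempty D.Idx with he | he
  · exact (he.false a).elim
  have e : ((u ^ p : GL D.Idx F) : Matrix D.Idx D.Idx F) - 1 =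
      ((u : Matrix D.Idx D.Idx F) - 1) ^ p := by
    rw [sub_pow_char_of_commute _ (Commute.one_right _), one_pow, Units.val_pow_eq_pow_val]
  rw [e] at hne
  exact sub_one_pow_raise h p a b hne

/-- A unipotent element raising a weight more than all its roots is trivial. -/
theorem eq_one_of_raise (hS : Std D A) {w : ℕ → ℤ} (hneg : ∀ r < D.nroots, w (D.neg r) = -w r)
    {M : ℤ} : ∀ {L : List ℕ}, L.Pairwise (· < ·) → IsClosedRoots D {r | r ∈ L} →
    (∀ r ∈ L, w r < M) → ∀ {g : GL D.Idx F}, g ∈ rootsU D F {r | r ∈ L} →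
    RaiseBy (wt D w) M (g : Matrix D.Idx D.Idx F) → g = 1 := by
  intro L
  induction L with
  | nil =>
    intro _ _ _ g hg _
    obtain ⟨t, -, rfl⟩ := exists_prodU hS List.Pairwise.nil
      ⟨fun r hr => absurd hr List.not_mem_nil, fun r hr => absurd hr List.not_mem_nil⟩ hg
    simp [prodU]
  | cons k L ih =>
    intro hs hc hM g hg hR
    obtain ⟨a, v, hv, rfl⟩ := split_first hS hs hc hg
    have hk : D.IsPosRoot k := hc.pos k (List.mem_cons_self ..)
    have hkp := hS.pos.phi_pos hk
    have h1 := raiseBy_rootsU hS (fun r hr => hc.pos r (List.mem_cons_of_mem _ hr))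
      (d := phi D A k + 1) (by omega)
      (fun r hr => by
        have := hS.pos.phi_lt ((List.pairwise_cons.1 hs).1 r hr)
          (hc.pos r (List.mem_cons_of_mem _ hr)).1
        omega) hv
    have hx := raiseBy_x hS hk (d := 0) hkp.le a (F := F)
    obtain ⟨i, hi, hne⟩ := hS.pos.cor_primitive hS.cert (K := F) hk.1
    have hlt := hS.cert.wf.neg_lt k hk.1
    have hne' := hS.cert.wf.neg_ne k hk.1
    set r₀ : D.Idx := Sum.inl ⟨i, hi⟩
    set c₀ : D.Idx := Sum.inr ⟨D.neg k, hlt⟩
    have ephi : phi D A (D.neg k) = -phi D A k := phi_neg_root hS.cert hk.1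
    have hv0 : ((v : Matrix D.Idx D.Idx F) - 1) r₀ c₀ = 0 := by
      by_contra hh
      have := h1 _ _ hh
      simp only [r₀, c₀, wt, Sum.elim_inl, Sum.elim_inr, ephi] at this
      omega
    have hprod : ((((xG hS.cert k a : GL D.Idx F) : Matrix D.Idx D.Idx F) - 1) *
        ((v : Matrix D.Idx D.Idx F) - 1)) r₀ c₀ = 0 := by
      rw [Matrix.mul_apply]
      refine Finset.sum_eq_zero fun b _ => ?_
      by_contra hh
      have e1 := hx r₀ b (by rw [← coe_xG hS.cert]; exact left_ne_zero_of_mul hh)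
      have e2 := h1 _ _ (right_ne_zero_of_mul hh)
      simp only [r₀, c₀, wt, Sum.elim_inl, Sum.elim_inr, ephi] at e1 e2
      omega
    have ha : a = 0 := by
      by_contra ha
      have hx0 : (((xG hS.cert k a : GL D.Idx F) : Matrix D.Idx D.Idx F) - 1) r₀ c₀ ≠ 0 := by
        rw [coe_xG, x_eq_xR D F hk.1, Matrix.sub_apply, Matrix.one_apply_ne (by simp [r₀, c₀]),
          sub_zero]
        simp [r₀, c₀, xR, cor, ChevalleyDatum.neg] at hne ⊢
        exact ⟨fun h => hne' (by simpa [ChevalleyDatum.neg] using h), hne, ha⟩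
      have hg0 : (((xG hS.cert k a * v : GL D.Idx F) : Matrix D.Idx D.Idx F) - 1) r₀ c₀ ≠ 0 := by
        rw [Units.val_mul, show ((xG hS.cert k a : GL D.Idx F) : Matrix D.Idx D.Idx F) *
            (v : Matrix D.Idx D.Idx F) - 1 =
            (((xG hS.cert k a : GL D.Idx F) : Matrix D.Idx D.Idx F) - 1) *
              ((v : Matrix D.Idx D.Idx F) - 1) +
            (((xG hS.cert k a : GL D.Idx F) : Matrix D.Idx D.Idx F) - 1) +
              ((v : Matrix D.Idx D.Idx F) - 1) by noncomm_ring,
          Matrix.add_apply, Matrix.add_apply, hprod, hv0, zero_add, add_zero]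
        exact hx0
      have := hR _ _ hg0
      simp only [r₀, c₀, wt, Sum.elim_inl, Sum.elim_inr, hneg k hk.1] at this
      have := hM k (List.mem_cons_self ..)
      omega
    rw [ha, xG_zero, one_mul] at hR ⊢
    exact ih (List.pairwise_cons.1 hs).2 (hc.tail hS hs)
      (fun r hr => hM r (List.mem_cons_of_mem _ hr)) hv hR

theorem pow_eq_one_of_raise (hS : Std D A) {w : ℕ → ℤ} (hw : WeightCoef D w)
    (hneg : ∀ r < D.nroots, w (D.neg r) = -w r) {L : List ℕ} (hs : L.Pairwise (· < ·))
    (hc : IsClosedRoots D {r | r ∈ L}) {d : ℤ} (hd : 0 ≤ d) (hd' : ∀ r ∈ L, d ≤ w r)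
    {p : ℕ} [Fact p.Prime] [CharP F p] (hM : ∀ r ∈ L, w r < (p : ℤ) * d) {g : GL D.Idx F}
    (hg : g ∈ rootsU D F {r | r ∈ L}) : g ^ p = 1 :=
  eq_one_of_raise hS hneg hs hc hM (pow_mem hg p)
    (RaiseBy.pow_char (raiseBy_rootsU_weight hS.cert hw (fun r hr => (hc.pos r hr).1) hd hd' hg))

end general

namespace G2Unipotent

variable {F : Type*} [Field F]

local notation "I14" => ChevalleyDatum.Idx chevG2

theorem full : Full chevG2 auxG2 := ⟨⟨cert_G2, posG2, by simp⟩, extraG2⟩

/-- The positive roots. -/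
def posL : List ℕ := [6, 7, 8, 9, 10, 11]

/-- The positive roots other than a simple one. -/
def radL (i : Fin 2) : List ℕ := if i = 0 then [6, 8, 9, 10, 11] else [7, 8, 9, 10, 11]

/-- A simple root. -/
def sRoot (i : Fin 2) : Fin chevG2.nroots := if i = 0 then ⟨7, by decide⟩ else ⟨6, by decide⟩

/-- The opposite of a simple root. -/
def nRoot (i : Fin 2) : Fin chevG2.nroots := if i = 0 then ⟨4, by decide⟩ else ⟨5, by decide⟩

theorem posRoots_eq : chevG2.posRoots = posL := by decide +kernel

theorem closed_data :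
    (∀ r ∈ posL, ∀ s ∈ posL, s ≠ r → ∀ c ∈ chevG2.commTerms r s, c.1 ∈ posL) ∧
    ∀ i : Fin 2, ∀ r ∈ radL i, ∀ s ∈ radL i, s ≠ r → ∀ c ∈ chevG2.commTerms r s, c.1 ∈ radL i := by
  decide +kernel

theorem isPos {r : ℕ} (h : r ∈ posL) : chevG2.IsPosRoot r := by
  have := (Set.ext_iff.1 full.toStd.posList.2.1 r).1 (by rw [Set.mem_ofPred_eq, posRoots_eq]; exact h)
  exact this

theorem closed_pos : IsClosedRoots chevG2 {r | r ∈ posL} :=
  ⟨fun _ h => isPos h, closed_data.1⟩

theorem radL_subset : ∀ i : Fin 2, ∀ r ∈ radL i, r ∈ posL := by decide +kernel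

theorem closed_rad (i : Fin 2) : IsClosedRoots chevG2 {r | r ∈ radL i} :=
  ⟨fun _ h => isPos (radL_subset i _ h), closed_data.2 i⟩

theorem pairwise_posL : posL.Pairwise (· < ·) := by decide

theorem pairwise_radL : ∀ i : Fin 2, (radL i).Pairwise (· < ·) := by decide

theorem posUnipotent_posL : chevG2.posUnipotent F = rootsU chevG2 F {r | r ∈ posL} := by
  rw [posUnipotent_eq, ← full.toStd.posList.2.1, posRoots_eq]

/-- The height. -/
noncomputable def height (s : ℕ) : ℤ := crd auxG2 0 s + crd auxG2 1 s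

theorem weightCoef_height : WeightCoef chevG2 height := by
  intro r k hk a b hne
  have h0 := weightCoef_crd (i := 0) cert_G2 (by decide) r k hk a b hne
  have h1 := weightCoef_crd (i := 1) cert_G2 (by decide) r k hk a b hne
  have e : ∀ c : I14, wt chevG2 height c = wt chevG2 (crd auxG2 0) c + wt chevG2 (crd auxG2 1) c := by
    rintro (j | s) <;> simp [wt, height]
  rw [e, e, h0, h1]
  simp only [height]
  ring

theorem height_data :
    (∀ r : Fin 12, height (chevG2.neg r) = -height r) ∧
    (∀ r ∈ posL, 1 ≤ height r ∧ height r < 7) ∧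
    (∀ r ∈ radL 1, 16 ≤ phi chevG2 auxG2 r ∧ phi chevG2 auxG2 r < 80) ∧
    ∀ r ∈ radL 0, 1 ≤ crd auxG2 1 r ∧ crd auxG2 1 r < 3 := by
  decide +kernel

theorem crd_neg {i r : ℕ} (hi : i < 2) (hr : r < chevG2.nroots) :
    crd auxG2 i (chevG2.neg r) = -crd auxG2 i r :=
  (neg_facts cert_G2 (D := chevG2) (A := auxG2) hi hr).1

/-- Coefficients of the root elements in the commutator relations of the short radical. -/
theorem short_rad_comm :
    ∀ r ∈ radL 1, ∀ s ∈ radL 1, s ≠ r → ∀ c ∈ chevG2.commTerms r s,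
      c.1 ∈ ([9, 10, 11] : List ℕ) ∧
        ((r ∈ ([9, 10, 11] : List ℕ) ∨ s ∈ ([9, 10, 11] : List ℕ)) → c.2.1 % 3 = 0) := by
  decide +kernel

/-- `(g h)ⁿ` when the commutator is central. -/
theorem mul_pow_central {G : Type*} [Group G] {g h z : G} (hz : h * g = g * h * z)
    (hzg : Commute z g) (hzh : Commute z h) :
    ∀ n : ℕ, (g * h) ^ n = g ^ n * h ^ n * z ^ (n.choose 2) := by
  have hswap : ∀ n : ℕ, h ^ n * g = g * h ^ n * z ^ n := by
    intro n
    induction n with
    | zero => simp
    | succ n ih =>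
      rw [pow_succ', mul_assoc, ih, ← mul_assoc, ← mul_assoc, hz,
        mul_assoc (g * h) z, (hzh.pow_right n).eq, ← mul_assoc, mul_assoc g h, ← pow_succ' h,
        mul_assoc, ← pow_succ' z]
  intro n
  induction n with
  | zero => simp
  | succ n ih =>
    have e1 : z ^ n.choose 2 * (g * h) = g * h * z ^ n.choose 2 :=
      ((hzg.mul_right hzh).pow_left _).eq
    rw [pow_succ, ih, mul_assoc, e1, ← mul_assoc, ← mul_assoc (g ^ n * h ^ n) g,
      mul_assoc (g ^ n) (h ^ n) g, hswap, ← mul_assoc, ← mul_assoc, ← pow_succ,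
      mul_assoc (g ^ (n + 1) * h ^ n) (z ^ n) h, (hzh.pow_left n).eq, ← mul_assoc,
      mul_assoc (g ^ (n + 1)) (h ^ n) h, ← pow_succ, mul_assoc, ← pow_add]
    congr 1
    rw [Nat.choose_succ_succ, Nat.choose_one_right]

/-- In characteristic three the short radical has exponent three. -/
theorem pow_three_short [CharP F 3] {g : GL I14 F}
    (hg : g ∈ rootsU chevG2 F {r | r ∈ radL 1}) : g ^ 3 = 1 := by
  set Z := rootsU chevG2 F {r | r ∈ ([9, 10, 11] : List ℕ)} with hZ
  set Q := rootsU chevG2 F {r | r ∈ radL 1} with hQ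
  have hlt : ∀ r ∈ radL 1, r < chevG2.nroots := fun r hr => (isPos (radL_subset 1 r hr)).1
  have hne : ∀ r ∈ radL 1, ∀ s ∈ radL 1, s ≠ chevG2.neg r := fun r hr s hs =>
    full.toStd.ne_neg (isPos (radL_subset 1 r hr)) (isPos (radL_subset 1 s hs))
  have hcomm : ∀ r ∈ radL 1, ∀ s ∈ radL 1, ∀ t u : F,
      ∃ W ∈ Z, ((r ∈ ([9, 10, 11] : List ℕ) ∨ s ∈ ([9, 10, 11] : List ℕ)) → W = 1) ∧
        xG cert_G2 s u * xG cert_G2 r t = xG cert_G2 r t * xG cert_G2 s u * W := by
    intro r hr s hs t u
    by_cases hsr : s = r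
    · subst hsr
      exact ⟨1, one_mem _, fun _ => rfl, by rw [xG_mul, xG_mul, add_comm, mul_one]⟩
    have h := x_mul_x (F := F) (D := chevG2) (by simp) (hlt r hr) (hlt s hs) hsr (hne r hr s hs) t u
    rw [wordMat_eq_prod cert_G2] at h
    simp only [ChevalleyDatum.commWord, List.map_map, Function.comp_def] at h
    refine ⟨((chevG2.commTerms r s).map fun c =>
        xG cert_G2 c.1 ((c.2.1 : F) * (-t) ^ c.2.2.1 * u ^ c.2.2.2)).prod, ?_, ?_, ?_⟩
    · refine Subgroup.list_prod_mem _ fun x hx => ?_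
      obtain ⟨c, hc, rfl⟩ := List.mem_map.1 hx
      exact xG_mem_rootsU cert_G2 (short_rad_comm r hr s hs hsr c hc).1 _
    · intro hz
      refine List.prod_eq_one fun x hx => ?_
      obtain ⟨c, hc, rfl⟩ := List.mem_map.1 hx
      have h0 : (c.2.1 : F) = 0 :=
        (CharP.intCast_eq_zero_iff F 3 _).2
          (Int.dvd_of_emod_eq_zero ((short_rad_comm r hr s hs hsr c hc).2 hz))
      rw [h0, zero_mul, zero_mul, xG_zero]
    · exact Units.ext (by simpa using h)
  have hZsub : ∀ r ∈ ([9, 10, 11] : List ℕ), r ∈ radL 1 := by decide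
  have hZQ : ∀ z ∈ Z, ∀ x ∈ Q, Commute z x := by
    intro z hz
    induction hz using rootsU_induction cert_G2 with
    | h1 => exact fun x _ => Commute.one_left x
    | hmul a b _ _ ha hb => exact fun x hx => (ha x hx).mul_left (hb x hx)
    | hx r hr t =>
      intro x hx
      induction hx using rootsU_induction cert_G2 with
      | h1 => exact Commute.one_right _
      | hmul a b _ _ ha hb => exact ha.mul_right hb
      | hx s hs u =>
        obtain ⟨W, -, hW1, e⟩ := hcomm r (hZsub r hr) s hs t u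
        rw [hW1 (Or.inl hr), mul_one] at e
        exact e.symm
  have hQQ : ∀ x ∈ Q, ∀ y ∈ Q, ∃ W ∈ Z, y * x = x * y * W := by
    intro x hx
    induction hx using rootsU_induction cert_G2 with
    | h1 => exact fun y _ => ⟨1, one_mem _, by simp⟩
    | hmul a b ha' hb' ha hb =>
      intro y hy
      obtain ⟨W₁, h₁, e₁⟩ := ha y hy
      obtain ⟨W₂, h₂, e₂⟩ := hb y hy
      refine ⟨W₂ * W₁, mul_mem h₂ h₁, ?_⟩
      rw [← mul_assoc y, e₁, mul_assoc (a * y), (hZQ W₁ h₁ b hb').eq, ← mul_assoc,
        mul_assoc a y b, e₂]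
      simp only [mul_assoc]
    | hx r hr t =>
      intro y hy
      induction hy using rootsU_induction cert_G2 with
      | h1 => exact ⟨1, one_mem _, by simp⟩
      | hmul a b ha' hb' ha hb =>
        obtain ⟨W₁, h₁, e₁⟩ := ha
        obtain ⟨W₂, h₂, e₂⟩ := hb
        refine ⟨W₂ * W₁, mul_mem h₂ h₁, ?_⟩
        rw [mul_assoc a, e₂, ← mul_assoc, ← mul_assoc, e₁, mul_assoc (xG cert_G2 r t * a),
          (hZQ W₁ h₁ b hb').eq, ← mul_assoc, mul_assoc _ W₁ W₂, (hZQ W₁ h₁ W₂ ?_).eq]
        · simp only [mul_assoc]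
        · exact rootsU_mono (fun r hr => hZsub r hr) h₂
      | hx s hs u =>
        obtain ⟨W, hW, -, e⟩ := hcomm r hr s hs t u
        exact ⟨W, hW, e⟩
  induction hg using rootsU_induction cert_G2 with
  | h1 => exact one_pow _
  | hx r hr t =>
    rw [pow_succ, pow_succ, pow_one, xG_mul, xG_mul]
    have : t + t + t = 0 := by
      have h3 : (3 : F) = 0 := by exact_mod_cast CharP.cast_eq_zero F 3
      linear_combination t * h3
    rw [this, xG_zero]
  | hmul a b ha' hb' ha hb =>
    obtain ⟨W, hW, e⟩ := hQQ a ha' b hb'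
    rw [mul_pow_central e (hZQ W hW a ha') (hZQ W hW b hb') 3, ha, hb, one_mul, one_mul]
    have hW3 : W ^ 3 = 1 := by
      clear e
      induction hW using rootsU_induction cert_G2 with
      | h1 => exact one_pow _
      | hx r hr t =>
        rw [pow_succ, pow_succ, pow_one, xG_mul, xG_mul]
        have : t + t + t = 0 := by
          have h3 : (3 : F) = 0 := by exact_mod_cast CharP.cast_eq_zero F 3
          linear_combination t * h3
        rw [this, xG_zero]
      | hmul c d hc' hd' hc hd =>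
        rw [(hZQ c hc' d (rootsU_mono (fun r hr => hZsub r hr) hd')).mul_pow, hc, hd, one_mul]
    exact hW3

/-- The radicals have exponent `p`. -/
theorem pow_rad {p : ℕ} [Fact p.Prime] [CharP F p] (hp : 3 ≤ p) (i : Fin 2) {g : GL I14 F}
    (hg : g ∈ rootsU chevG2 F {r | r ∈ radL i}) : g ^ p = 1 := by
  have hpz : (3 : ℤ) ≤ p := by exact_mod_cast hp
  obtain rfl | rfl : i = 0 ∨ i = 1 := by fin_cases i <;> simp
  · refine pow_eq_one_of_raise full.toStd (weightCoef_crd (i := 1) cert_G2 (by decide))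
      (fun r hr => crd_neg (by decide) hr) (pairwise_radL 0) (closed_rad 0) zero_le_one
      (fun r hr => (height_data.2.2.2 r hr).1) (fun r hr => ?_) hg
    have := (height_data.2.2.2 r hr).2
    omega
  · by_cases h3 : p = 3
    · subst h3; exact pow_three_short hg
    have hp5 : 5 ≤ p := by
      have := (Fact.out : p.Prime).eq_one_or_self_of_dvd 2
      rcases Nat.lt_or_ge p 5 with h | h
      · have : p = 4 := by omega
        subst this; exact absurd (Fact.out : Nat.Prime 4) (by decide)
      · exact h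
    refine pow_eq_one_of_raise full.toStd (weightCoef_phi cert_G2)
      (fun r hr => phi_neg_root cert_G2 hr) (pairwise_radL 1) (closed_rad 1) (d := 16) (by norm_num)
      (fun r hr => (height_data.2.2.1 r hr).1) (fun r hr => ?_) hg
    have := (height_data.2.2.1 r hr).2
    omega

theorem pow_pos_of_seven_le {p : ℕ} [Fact p.Prime] [CharP F p] (hp : 7 ≤ p) {g : GL I14 F}
    (hg : g ∈ chevG2.posUnipotent F) : g ^ p = 1 := by
  rw [posUnipotent_posL] at hg
  refine pow_eq_one_of_raise full.toStd weightCoef_height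
    (fun r hr => height_data.1 ⟨r, hr⟩) pairwise_posL closed_pos zero_le_one
    (fun r hr => (height_data.2.1 r hr).1) (fun r hr => ?_) hg
  have := (height_data.2.1 r hr).2
  omega

/-- The coefficient of a simple root in a unipotent element, read in the matrix. -/
def lead (i : Fin 2) (u : GL I14 F) (j : Fin chevG2.rank) : F :=
  (u : Matrix I14 I14 F) (Sum.inl j) (Sum.inr (nRoot i))

theorem raise_height {u : GL I14 F} (hu : u ∈ chevG2.posUnipotent F) :
    RaiseBy (wt chevG2 height) 1 (u : Matrix I14 I14 F) := by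
  rw [posUnipotent_posL] at hu
  exact raiseBy_rootsU_weight cert_G2 weightCoef_height (fun r hr => (isPos hr).1) zero_le_one
    (fun r hr => (height_data.2.1 r hr).1) hu

theorem height_nRoot : ∀ i : Fin 2, height (nRoot i : Fin 12) = -1 := by decide +kernel

theorem lead_mul {u v : GL I14 F} (hu : u ∈ chevG2.posUnipotent F)
    (hv : v ∈ chevG2.posUnipotent F) (i : Fin 2) (j : Fin chevG2.rank) :
    lead i (u * v) j = lead i u j + lead i v j := by
  have h0 : ((((u : GL I14 F) : Matrix I14 I14 F) - 1) * ((v : Matrix I14 I14 F) - 1))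
      (Sum.inl j) (Sum.inr (nRoot i)) = 0 := by
    rw [Matrix.mul_apply]
    refine Finset.sum_eq_zero fun b _ => ?_
    by_contra hh
    have e1 := raise_height hu _ _ (left_ne_zero_of_mul hh)
    have e2 := raise_height hv _ _ (right_ne_zero_of_mul hh)
    simp only [wt, Sum.elim_inl, Sum.elim_inr, height_nRoot] at e1 e2
    omega
  have e : ((u * v : GL I14 F) : Matrix I14 I14 F) =
      ((u : Matrix I14 I14 F) - 1) * ((v : Matrix I14 I14 F) - 1) + (u : Matrix I14 I14 F) +
        (v : Matrix I14 I14 F) - 1 := by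
    rw [Units.val_mul]; noncomm_ring
  rw [lead, e, Matrix.sub_apply, Matrix.add_apply, Matrix.add_apply, h0,
    Matrix.one_apply_ne (by simp), zero_add, sub_zero]
  rfl

theorem lead_one (i : Fin 2) (j : Fin chevG2.rank) : lead i (1 : GL I14 F) j = 0 := by
  simp [lead]

theorem coef_data : ∀ (i : Fin 2) (j : Fin chevG2.rank), ∀ r ∈ posL, ∀ k ∈ [1, 2, 3],
    (r ≠ (sRoot i : ℕ) ∨ k ≠ 1) →
      coefMat chevG2 k r (Sum.inl j) (Sum.inr (nRoot i)) = 0 := by
  decide +kernel

theorem coef_unit : ∀ i : Fin 2, ∃ j : Fin chevG2.rank,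
    coefMat chevG2 1 (sRoot i) (Sum.inl j) (Sum.inr (nRoot i)) = 1 ∨
      coefMat chevG2 1 (sRoot i) (Sum.inl j) (Sum.inr (nRoot i)) = -1 := by
  decide +kernel

theorem lead_xG {r : ℕ} (hr : r ∈ posL) (i : Fin 2) (j : Fin chevG2.rank) (t : F) :
    lead i (xG cert_G2 r t) j = if r = (sRoot i : ℕ) then
      t * ((coefMat chevG2 1 (sRoot i) (Sum.inl j) (Sum.inr (nRoot i)) : ℤ) : F) else 0 := by
  have hlt := (isPos hr).1
  rw [lead, coe_xG, x_eq_xR chevG2 F hlt, xR_eq_sum chevG2 cert_G2.wf (r := ⟨r, hlt⟩)]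
  have h2 := coef_data i j r hr 2 (by simp) (Or.inr (by norm_num))
  have h3 := coef_data i j r hr 3 (by simp) (Or.inr (by norm_num))
  simp only [Matrix.add_apply, Matrix.smul_apply, Matrix.one_apply_ne (Sum.inl_ne_inr), coefIn,
    Matrix.map_apply, h2, h3, Int.cast_zero, smul_eq_mul, mul_zero, zero_add, add_zero]
  by_cases he : r = (sRoot i : ℕ)
  · rw [if_pos he]; subst he; rfl
  · rw [if_neg he, coef_data i j r hr 1 (by simp) (Or.inl he), Int.cast_zero, mul_zero]

theorem mem_rad_of_lead {u : GL I14 F} (hu : u ∈ chevG2.posUnipotent F) (i : Fin 2)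
    (h : ∀ j, lead i u j = 0) : u ∈ rootsU chevG2 F {r | r ∈ radL i} := by
  rw [posUnipotent_posL] at hu
  obtain ⟨t, -, rfl⟩ := exists_prodU full.toStd pairwise_posL closed_pos hu
  have hval : ∀ j, ∀ L : List ℕ, (∀ r ∈ L, r ∈ posL) →
      lead i (prodU cert_G2 L t) j = (L.map fun r => lead i (xG cert_G2 r (t r)) j).sum := by
    intro j L
    induction L with
    | nil => intro _; simp [prodU, lead_one]
    | cons k L ih =>
      intro hL
      rw [prodU_cons, lead_mul, ih fun r hr => hL r (List.mem_cons_of_mem _ hr), List.map_cons,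
        List.sum_cons]
      · rw [posUnipotent_posL]; exact xG_mem_rootsU cert_G2 (hL k (List.mem_cons_self ..)) _
      · rw [posUnipotent_posL]
        exact rootsU_mono (fun r hr => hL r (List.mem_cons_of_mem _ hr)) (prodU_mem _ _)
  have ht : t (sRoot i) = 0 := by
    obtain ⟨j, hj⟩ := coef_unit i
    have e := h j
    rw [hval j posL fun r hr => hr, List.map_congr_left fun r hr => lead_xG hr i j (t r)] at e
    obtain rfl | rfl : i = 0 ∨ i = 1 := by fin_cases i <;> simp
    all_goals rcases hj with hj | hj <;> rw [hj] at e <;> simpa [posL, sRoot] using e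
  refine Subgroup.list_prod_mem _ fun x hx => ?_
  obtain ⟨r, hr, rfl⟩ := List.mem_map.1 hx
  by_cases he : r = (sRoot i : ℕ)
  · rw [he, ht, xG_zero]; exact one_mem _
  · refine xG_mem_rootsU cert_G2 ?_ _
    obtain rfl | rfl : i = 0 ∨ i = 1 := by fin_cases i <;> simp
    all_goals
      simp only [posL, List.mem_cons, List.not_mem_nil, or_false] at hr
      rcases hr with rfl | rfl | rfl | rfl | rfl | rfl <;> simp_all [radL, sRoot]

theorem pow_char_mem_rad {p : ℕ} [Fact p.Prime] [CharP F p] {u : GL I14 F}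
    (hu : u ∈ chevG2.posUnipotent F) (i : Fin 2) : u ^ p ∈ rootsU chevG2 F {r | r ∈ radL i} := by
  refine mem_rad_of_lead (pow_mem hu p) i fun j => ?_
  have key : ∀ n : ℕ, lead i (u ^ n) j = n * lead i u j := by
    intro n
    induction n with
    | zero => simp [lead_one]
    | succ n ih => rw [pow_succ, lead_mul (pow_mem hu n) hu, ih]; push_cast; ring
  rw [key, CharP.cast_eq_zero, zero_mul]

/-- A Sylow `p`-subgroup of `G₂` has exponent dividing `p²`, and `p` if `p ≥ 7`. -/
theorem pow_char_sq {p : ℕ} [Fact p.Prime] [CharP F p] (hp : 3 ≤ p) {u : GL I14 F}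
    (hu : u ∈ chevG2.posUnipotent F) : u ^ (p * p) = 1 := by
  rw [pow_mul]
  exact pow_rad hp 0 (pow_char_mem_rad hu 0)

/-- An element of `G₂` centralising a unipotent element whose `p`-th power is not trivial is
unipotent. -/
theorem mem_posUnipotent_of_commute {p : ℕ} [Fact p.Prime] [CharP F p] (hp : 3 ≤ p)
    {u : GL I14 F} (hu : u ∈ chevG2.posUnipotent F) (hup : u ^ p ≠ 1) {g : GL I14 F}
    (hg : g ∈ chevG2.group F) (hc : Commute g u) : g ∈ chevG2.posUnipotent F := by
  have hlead : ∀ i, ∃ j, lead i u j ≠ 0 := fun i => by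
    by_contra h
    push Not at h
    exact hup (pow_rad hp i (mem_rad_of_lead hu i h))
  obtain ⟨x, hx, n, hn, π, η, hA, x', hx', rfl⟩ := exists_canonical full hg
  have hx'' : x' ∈ chevG2.posUnipotent F :=
    rootsU_mono (T := {r | chevG2.IsPosRoot r}) (fun r hr => hr.1) hx'
  set w := x' * u * x'⁻¹ with hw
  set w' := x⁻¹ * u * x with hw'
  have hwU : w ∈ chevG2.posUnipotent F := mul_mem (mul_mem hx'' hu) (inv_mem hx'')
  have hw'U : w' ∈ chevG2.posUnipotent F := mul_mem (mul_mem (inv_mem hx) hu) hx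
  have hlw : ∀ i j, lead i w j = lead i u j := by
    intro i j
    rw [hw, lead_mul (mul_mem hx'' hu) (inv_mem hx''), lead_mul hx'' hu]
    have h0 := lead_mul hx'' (inv_mem hx'') i j
    rw [mul_inv_cancel, lead_one] at h0
    linear_combination -h0
  have heq : n * w = w' * n := by
    have := hc.eq
    calc n * w = x⁻¹ * (x * n * x' * u) * x'⁻¹ := by rw [hw]; group
      _ = x⁻¹ * (u * (x * n * x')) * x'⁻¹ := by rw [this]
      _ = _ := by rw [hw']; group
  have hni : ∀ (k : Fin chevG2.rank) (s : Fin chevG2.nroots),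
      ((n⁻¹ : GL I14 F) : Matrix I14 I14 F) (Sum.inl k) (Sum.inr s) = 0 := by
    intro k s
    have e := congrArg (fun M : GL I14 F => (M : Matrix I14 I14 F) (Sum.inl k) (Sum.inr (π.symm s)))
      (inv_mul_cancel n)
    simp only [Units.val_mul, Units.val_one, Matrix.one_apply_ne Sum.inl_ne_inr, Matrix.mul_apply,
      hA.col, Equiv.apply_symm_apply, mul_ite, mul_zero, Finset.sum_ite_eq', Finset.mem_univ,
      if_true] at e
    exact (mul_eq_zero.1 e).resolve_right (hA.ne_zero _)
  have hpos : ∀ i : Fin 2, chevG2.IsPosRoot (π (sRoot i)) := by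
    intro i
    rcases full.pos.pos_or_neg (π (sRoot i)).isLt with h | h
    · exact h
    exfalso
    obtain ⟨j, hj⟩ := hlead i
    apply hj
    rw [← hlw]
    have e : w = n⁻¹ * w' * n := by rw [mul_assoc, ← heq, inv_mul_cancel_left]
    rw [lead, e, Units.val_mul, Units.val_mul, Matrix.mul_apply]
    simp only [hA.col, mul_ite, mul_zero, Finset.sum_ite_eq', Finset.mem_univ, if_true]
    rw [mul_eq_zero]
    left
    rw [Matrix.mul_apply]
    refine Finset.sum_eq_zero fun b _ => ?_
    rcases b with k | s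
    · rw [mul_eq_zero]
      right
      by_contra hh
      have hne : (((w' : GL I14 F) : Matrix I14 I14 F) - 1) (Sum.inl k) (Sum.inr (π (nRoot i))) ≠ 0 := by
        rwa [Matrix.sub_apply, Matrix.one_apply_ne Sum.inl_ne_inr, sub_zero]
      have e1 := raise_height hw'U _ _ hne
      have e2 : nRoot i = ngR cert_G2 (sRoot i) := by
        obtain rfl | rfl : i = 0 ∨ i = 1 := by fin_cases i <;> simp
        all_goals rfl
      have e3 : (chevG2.IsPosRoot ((π (nRoot i) : Fin chevG2.nroots) : ℕ)) := by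
        rw [e2, hA.neg]
        rcases full.pos.pos_or_neg (ngR cert_G2 (π (sRoot i))).isLt with h' | h'
        · exact h'
        · exfalso
          have a1 := full.pos.phi_neg h'
          have a2 := full.pos.phi_neg h
          have a3 : phi chevG2 auxG2 (chevG2.neg (π (sRoot i) : Fin chevG2.nroots)) =
            -phi chevG2 auxG2 (π (sRoot i) : Fin chevG2.nroots) :=
            phi_neg_root cert_G2 (π (sRoot i)).isLt
          have a4 : ((ngR cert_G2 (π (sRoot i)) : Fin chevG2.nroots) : ℕ) =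
            chevG2.neg (π (sRoot i) : Fin chevG2.nroots) := rfl
          rw [a4, a3] at a1
          omega
      have e4 : ((π (nRoot i) : Fin chevG2.nroots) : ℕ) ∈ posL := by
        rw [← posRoots_eq]
        exact (Set.ext_iff.1 full.toStd.posList.2.1 _).2 e3
      have := (height_data.2.1 _ e4).1
      simp only [wt, Sum.elim_inl, Sum.elim_inr] at e1
      omega
    · rw [hni, zero_mul]
  have hnH : n ∈ chevG2.diagonalSubgroup F := by
    refine mem_diagonal_of_perm full hn hA fun i => ?_
    have h : ∀ i : Fin chevG2.rank, ∃ i' : Fin 2, smp cert_G2 i = sRoot i' := by decide +kernel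
    obtain ⟨i', hi'⟩ := h i
    rw [hi']
    exact hpos i'
  have hπ : π = 1 := by
    rw [diagonalSubgroup_eq_range full] at hnH
    obtain ⟨c, hc'⟩ := hnH
    exact hA.perm_eq (hc' ▸ acts_torus cert_G2 c)
  subst hπ
  rw [diagonalSubgroup_eq_range full] at hnH
  obtain ⟨c, rfl⟩ := hnH
  -- `T(c)` fixes both simple coefficients
  have hchi : ∀ i : Fin 2, chi chevG2 (nRoot i) c = 1 := by
    intro i
    obtain ⟨j, hj⟩ := hlead i
    have e := congrArg (fun M : GL I14 F =>
      (M : Matrix I14 I14 F) (Sum.inl j) (Sum.inr (nRoot i))) heq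
    simp only [Units.val_mul, coe_torusHom, Matrix.diagonal_mul, Matrix.mul_diagonal,
      Sum.elim_inl, Sum.elim_inr, one_mul] at e
    have e1 : lead i w' j = lead i u j := by
      rw [hw', lead_mul (mul_mem (inv_mem hx) hu) hx, lead_mul (inv_mem hx) hu]
      have h0 := lead_mul (inv_mem hx) hx i j
      rw [inv_mul_cancel, lead_one] at h0
      linear_combination -h0
    change lead i w j = lead i w' j * _ at e
    rw [hlw, e1] at e
    exact Units.ext (mul_left_cancel₀ hj (by rw [Units.val_one, mul_one]; exact e.symm))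
  have hT : torusHom chevG2 F c = 1 := by
    have hall : ∀ s : Fin chevG2.nroots, chi chevG2 s c = 1 := by
      intro s
      have h4 := hchi 0
      have h5 := hchi 1
      have key : ∀ s : Fin chevG2.nroots, ∀ k : Fin chevG2.rank, chevG2.cartan k s =
          -(crd auxG2 0 s) * chevG2.cartan k (nRoot 0) + -(crd auxG2 1 s) * chevG2.cartan k (nRoot 1) := by
        decide +kernel
      have : chi chevG2 s c = chi chevG2 (nRoot 0) c ^ (-(crd auxG2 0 s)) *
          chi chevG2 (nRoot 1) c ^ (-(crd auxG2 1 s)) := by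
        show (∏ k : Fin chevG2.rank, c k ^ chevG2.cartan k s) =
          (∏ k : Fin chevG2.rank, c k ^ chevG2.cartan k (nRoot 0)) ^ (-(crd auxG2 0 s)) *
            (∏ k : Fin chevG2.rank, c k ^ chevG2.cartan k (nRoot 1)) ^ (-(crd auxG2 1 s))
        rw [← Finset.prod_zpow, ← Finset.prod_zpow, ← Finset.prod_mul_distrib]
        refine Finset.prod_congr rfl fun k _ => ?_
        rw [← _root_.zpow_mul, ← _root_.zpow_mul, ← _root_.zpow_add, key s k]
        congr 1
        ring
      rw [this, h4, h5, _root_.one_zpow, _root_.one_zpow, one_mul]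
    apply Units.ext
    rw [coe_torusHom, Units.val_one, ← Matrix.diagonal_one]
    congr 1
    funext a
    rcases a with a | a <;> simp [hall]
  rw [hT, mul_one]
  exact mul_mem hx hx''

end G2Unipotent

end CfsgLib.Chevalley
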