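import Cfsg.Agent.Lib.Chevalley.Bruhat
import Cfsg.Agent.Lib.Chevalley.ExtraData
import Cfsg.Agent.Lib.Chevalley.CommAll

/-!
Two conjugates of the highest root subgroup of G2, D4, E6, E7, E8 generate a p-group or are conjugate to the pair
of the highest and the lowest root subgroup.
-/

set_option autoImplicit false

namespace CfsgLib.Chevalley.HighRootPair

open Cfsg.Lie

/-- The highest root. -/
def top (D : ChevalleyDatum) : ℕ := D.nroots - 1

/-- The pair check: no commutator term, or a single one commuting with both roots. -/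
def pairB (D : ChevalleyDatum) (r s : ℕ) : Bool :=
  match D.commTerms r s with
  | [] => true
  | [c] => decide (c.1 < D.nroots) && decide (c.1 ≠ r) && decide (c.1 ≠ s) &&
      decide (c.1 ≠ D.neg r) && decide (c.1 ≠ D.neg s) &&
      (D.commTerms r c.1).isEmpty && (D.commTerms s c.1).isEmpty
  | _ => false

/-- A set of roots containing the highest root, stable under fundamental reflections, all whose members form good
pairs with the highest root. -/
def longB (D : ChevalleyDatum) (m : ℕ → Bool) : Bool :=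
  m (top D) && ((List.range D.nroots).all fun s => !(m s) ||
    ((decide (s = top D) || decide (s = D.neg (top D)) || pairB D (top D) s) &&
      (List.range D.rank).all fun i => m (D.reflectRoot i s)))

theorem longG2 : longB chevG2 (fun s => [0, 5, 1, 10, 6, 11].contains s) = true := by decide +kernel
theorem longD4 : longB chevD4 (fun _ => true) = true := by decide +kernel
theorem longE6 : longB chevE6 (fun _ => true) = true := by decide +kernel
theorem longE7 : longB chevE7 (fun _ => true) = true := by decide +kernel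
theorem longE8 : longB chevE8 (fun _ => true) = true := by decide +kernel

theorem exists_longB {D : ChevalleyDatum} (hD : D ∈ [chevG2, chevD4, chevE6, chevE7, chevE8]) :
    ∃ m, longB D m = true := by
  simp only [List.mem_cons, List.not_mem_nil, or_false] at hD
  rcases hD with rfl | rfl | rfl | rfl | rfl
  exacts [⟨_, longG2⟩, ⟨_, longD4⟩, ⟨_, longE6⟩, ⟨_, longE7⟩, ⟨_, longE8⟩]

variable {D : ChevalleyDatum} {A : Aux} {F : Type*} [Field F]

theorem top_lt (h : Full D A) : top D < D.nroots := by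
  have := h.pos.half_pos
  unfold top; omega

theorem neg_top (h : Full D A) : D.neg (top D) = 0 := by
  have hn : 0 < D.nroots := Nat.lt_of_le_of_lt (Nat.zero_le _) (top_lt h)
  have hnl := h.cert.wf.neg_lt _ (top_lt h)
  refine h.pos.phi_inj hnl hn ?_
  have h1 := h.pos.phi_le (Nat.zero_le (D.neg (top D))) hnl
  have h2 : phi D A (D.neg 0) ≤ phi D A (top D) :=
    h.pos.phi_le (Nat.le_sub_one_of_lt (h.cert.wf.neg_lt 0 hn)) (top_lt h)
  rw [phi_neg_root h.cert hn] at h2
  rw [phi_neg_root h.cert (top_lt h)] at h1 ⊢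
  omega

theorem top_pos (h : Full D A) : D.IsPosRoot (top D) := by
  refine (h.pos.pos_or_neg (top_lt h)).resolve_right fun hn => ?_
  have h1 := h.pos.phi_neg hn
  have h2 := h.pos.phi_neg (u := D.neg (top D))
  have h3 := h.pos.phi_le (u := D.neg (top D))
    (Nat.le_sub_one_of_lt (h.cert.wf.neg_lt _ (top_lt h))) (top_lt h)
  rw [phi_neg_root h.cert (top_lt h)] at h3
  unfold top at *
  omega

theorem commute_of_nil (h : Full D A) (hD : D ∈ [chevG2, chevB2, chevD4, chevF4, chevE6, chevE7, chevE8])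
    {r s : ℕ} (hr : r < D.nroots) (hs : s < D.nroots) (hsr : s ≠ r) (hneg : s ≠ D.neg r)
    (he : D.commTerms r s = []) (t u : F) : xG h.cert r t * xG h.cert s u = xG h.cert s u * xG h.cert r t := by
  apply Units.ext
  have e := x_mul_x hD hr hs hsr hneg t u
  rw [ChevalleyDatum.commWord, he] at e
  simpa [ChevalleyDatum.wordMat] using e.symm

theorem commute_top (h : Full D A) (hD : D ∈ [chevG2, chevB2, chevD4, chevF4, chevE6, chevE7, chevE8])
    {s : ℕ} (hs : D.IsPosRoot s) (t u : F) :
    xG h.cert (top D) t * xG h.cert s u = xG h.cert s u * xG h.cert (top D) t := by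
  by_cases hst : s = top D
  · rw [hst, xG_mul, xG_mul, add_comm]
  have hneg : s ≠ D.neg (top D) := by
    intro e
    have := h.pos.phi_pos hs
    have h2 := h.pos.phi_pos (top_pos h)
    rw [e, phi_neg_root h.cert (top_lt h)] at this
    omega
  refine commute_of_nil h hD (top_lt h) hs.1 hst hneg ?_ t u
  refine List.eq_nil_iff_forall_not_mem.2 fun c hc => ?_
  have hl := h.lt_commTerms (top_pos h) hs hc
  have h1 : c.1 < D.nroots := hl.1.1
  have h2 : top D < c.1 := hl.2.1
  unfold top at h2; omega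

theorem isPGroup_rootSubgroup (h : Full D A) (p : ℕ) [Fact p.Prime] [CharP F p] (r : ℕ) :
    IsPGroup p ↥(D.rootSubgroup F r) := by
  rintro ⟨g, hg⟩
  obtain ⟨t, rfl⟩ := (mem_rootSubgroup_iff h.cert).1 hg
  have hpow : ∀ k : ℕ, (xG h.cert r t) ^ k = xG h.cert r ((k : F) * t) := by
    intro k
    induction k with
    | zero => simp [xG_zero]
    | succ k ih => rw [pow_succ, ih, xG_mul]; push_cast; ring_nf
  refine ⟨1, Subtype.ext ?_⟩
  rw [SubmonoidClass.coe_pow, pow_one, hpow, CharP.cast_eq_zero, zero_mul, xG_zero]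
  rfl

theorem sup_le_normalizer_of_conj {G : Type*} [Group G] {Y P : Subgroup G}
    (hc : ∀ y ∈ Y, ∀ x ∈ P, y * x * y⁻¹ ∈ P) : Y ≤ Subgroup.normalizer (P : Set G) := by
  intro y hy
  refine Subgroup.mem_normalizer_iff.2 fun x => ⟨hc y hy x, fun hx => ?_⟩
  have := hc _ (inv_mem hy) _ hx
  simpa [mul_assoc] using this

theorem isPGroup_pair (h : Full D A) (hD : D ∈ [chevG2, chevB2, chevD4, chevF4, chevE6, chevE7, chevE8])
    (p : ℕ) [Fact p.Prime] [CharP F p] {r s : ℕ} (hr : r < D.nroots) (hs : s < D.nroots) (hsr : s ≠ r)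
    (hneg : s ≠ D.neg r) (hB : pairB D r s = true) :
    IsPGroup p ↥(D.rootSubgroup F r ⊔ D.rootSubgroup F s) := by
  unfold pairB at hB
  split at hB
  · next he =>
    refine IsPGroup.to_sup_of_normal_left' (isPGroup_rootSubgroup h p r) (isPGroup_rootSubgroup h p s)
      (sup_le_normalizer_of_conj fun y hy x hx => ?_)
    obtain ⟨u, rfl⟩ := (mem_rootSubgroup_iff h.cert).1 hy
    obtain ⟨t, rfl⟩ := (mem_rootSubgroup_iff h.cert).1 hx
    rw [← commute_of_nil h hD hr hs hsr hneg he, mul_assoc, mul_inv_cancel, mul_one]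
    exact xG_mem_rootSubgroup _ _ _
  · next c he =>
    simp only [Bool.and_eq_true, decide_eq_true_eq, List.isEmpty_iff] at hB
    obtain ⟨⟨⟨⟨⟨⟨hc, hcr⟩, hcs⟩, hcnr⟩, hcns⟩, e1⟩, e2⟩ := hB
    set X := D.rootSubgroup F r
    set Y := D.rootSubgroup F s
    set Z := D.rootSubgroup F c.1
    have hP : IsPGroup p ↥(X ⊔ Z) := by
      refine IsPGroup.to_sup_of_normal_left' (isPGroup_rootSubgroup h p r) (isPGroup_rootSubgroup h p _)
        (sup_le_normalizer_of_conj fun y hy x hx => ?_)
      obtain ⟨u, rfl⟩ := (mem_rootSubgroup_iff h.cert).1 hy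
      obtain ⟨t, rfl⟩ := (mem_rootSubgroup_iff h.cert).1 hx
      rw [← commute_of_nil h hD hr hc hcr hcnr e1, mul_assoc, mul_inv_cancel, mul_one]
      exact xG_mem_rootSubgroup _ _ _
    have hgen : ∀ y ∈ Y, X ⊔ Z ≤ (X ⊔ Z).comap (MulAut.conj y).toMonoidHom := by
      intro y hy
      obtain ⟨u, rfl⟩ := (mem_rootSubgroup_iff h.cert).1 hy
      refine sup_le (fun x hx => ?_) (fun x hx => ?_)
      · obtain ⟨t, rfl⟩ := (mem_rootSubgroup_iff h.cert).1 hx
        have e := x_mul_x hD hr hs hsr hneg t u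
        rw [ChevalleyDatum.commWord, he] at e
        set w : F := (c.2.1 : F) * (-t) ^ c.2.2.1 * u ^ c.2.2.2
        have e' : xG h.cert s u * xG h.cert r t = xG h.cert r t * xG h.cert s u * xG h.cert c.1 w := by
          apply Units.ext
          simpa [ChevalleyDatum.wordMat] using e
        show xG h.cert s u * xG h.cert r t * (xG h.cert s u)⁻¹ ∈ X ⊔ Z
        rw [e', mul_assoc (xG h.cert r t), commute_of_nil h hD hs hc hcs hcns e2, ← mul_assoc, mul_inv_cancel_right]
        exact Subgroup.mul_mem_sup (xG_mem_rootSubgroup _ _ _) (xG_mem_rootSubgroup _ _ _)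
      · obtain ⟨t, rfl⟩ := (mem_rootSubgroup_iff h.cert).1 hx
        show xG h.cert s u * xG h.cert c.1 t * (xG h.cert s u)⁻¹ ∈ X ⊔ Z
        rw [commute_of_nil h hD hs hc hcs hcns e2, mul_assoc, mul_inv_cancel, mul_one]
        exact Subgroup.mem_sup_right (xG_mem_rootSubgroup _ _ _)
    refine IsPGroup.to_le ?_ (sup_le_sup_right (le_sup_left : X ≤ X ⊔ Z) Y)
    exact IsPGroup.to_sup_of_normal_left' hP (isPGroup_rootSubgroup h p s)
      (sup_le_normalizer_of_conj fun y hy x hx => hgen y hy hx)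
  · simp at hB

theorem map_conj_eq_self {G : Type*} [Group G] {X : Subgroup G} {g : G} (hc : ∀ x ∈ X, g * x = x * g) :
    X.map (MulAut.conj g).toMonoidHom = X := by
  ext y
  constructor
  · rintro ⟨x, hx, rfl⟩
    show g * x * g⁻¹ ∈ X
    rwa [hc x hx, mul_inv_cancel_right]
  · intro hy
    exact ⟨y, hy, by show g * y * g⁻¹ = y; rw [hc y hy, mul_inv_cancel_right]⟩

theorem map_conj_mul {G : Type*} [Group G] (X : Subgroup G) (a b : G) :
    X.map (MulAut.conj (a * b)).toMonoidHom = (X.map (MulAut.conj b).toMonoidHom).map (MulAut.conj a).toMonoidHom := by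
  rw [Subgroup.map_map]
  congr 1
  ext x
  simp [mul_assoc]

theorem map_conj_one {G : Type*} [Group G] (X : Subgroup G) :
    X.map (MulAut.conj (1 : G)).toMonoidHom = X :=
  map_conj_eq_self fun x _ => by rw [one_mul, mul_one]

/-- The dichotomy. -/
theorem pair_dichotomy (hD5 : D ∈ [chevG2, chevD4, chevE6, chevE7, chevE8]) [Fintype F] (p : ℕ) [Fact p.Prime]
    [CharP F p] {g : GL D.Idx F} (hg : g ∈ D.group F) :
    IsPGroup p ↥(D.rootSubgroup F (top D) ⊔ (D.rootSubgroup F (top D)).map (MulAut.conj g).toMonoidHom) ∨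
    ∃ k ∈ D.group F, (D.rootSubgroup F (top D) ⊔ (D.rootSubgroup F (top D)).map (MulAut.conj g).toMonoidHom).map
      (MulAut.conj k).toMonoidHom = D.rootSubgroup F (top D) ⊔ D.rootSubgroup F 0 := by
  have hD : D ∈ [chevG2, chevB2, chevD4, chevF4, chevE6, chevE7, chevE8] := by
    simp only [List.mem_cons, List.not_mem_nil, or_false] at hD5 ⊢
    tauto
  obtain ⟨A, h⟩ := exists_full hD
  obtain ⟨m, hm⟩ := exists_longB hD5
  simp only [longB, Bool.and_eq_true, List.all_eq_true, List.mem_range, Bool.or_eq_true, Bool.not_eq_true',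
    decide_eq_true_eq] at hm
  obtain ⟨hm0, hmall⟩ := hm
  obtain ⟨u, hu, n, hn, u', hu', rfl⟩ := exists_bnu h hg
  have hcomm : ∀ v ∈ D.posUnipotent F, ∀ x ∈ D.rootSubgroup F (top D), v * x = x * v := by
    intro v hv x hx
    obtain ⟨t, rfl⟩ := (mem_rootSubgroup_iff h.cert).1 hx
    have hle : D.posUnipotent F ≤ Subgroup.centralizer {xG h.cert (top D) t} := by
      rw [posUnipotent_eq]
      refine (rootsU_le_iff h.cert).2 fun r hr w => ?_
      rw [Subgroup.mem_centralizer_singleton_iff]
      exact (commute_top h hD hr t w).symm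
    exact Subgroup.mem_centralizer_singleton_iff.1 (hle hv)
  obtain ⟨σ, η, hA⟩ := exists_acts h hn
  set β := σ ⟨top D, top_lt h⟩ with hβdef
  have hnX : (D.rootSubgroup F (top D)).map (MulAut.conj n).toMonoidHom = D.rootSubgroup F β := by
    ext y
    constructor
    · rintro ⟨x, hx, rfl⟩
      obtain ⟨t, rfl⟩ := (mem_rootSubgroup_iff h.cert).1 hx
      show n * xG h.cert (top D) t * n⁻¹ ∈ _
      rw [hA.conj ⟨top D, top_lt h⟩ t]
      exact xG_mem_rootSubgroup _ _ _
    · intro hy
      obtain ⟨t, rfl⟩ := (mem_rootSubgroup_iff h.cert).1 hy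
      refine ⟨xG h.cert (top D) ((η ⟨top D, top_lt h⟩)⁻¹ * t), xG_mem_rootSubgroup _ _ _, ?_⟩
      show n * _ * n⁻¹ = _
      rw [hA.conj ⟨top D, top_lt h⟩, mul_inv_cancel_left₀ (hA.ne_zero _)]
  have hmain : D.rootSubgroup F (top D) ⊔ (D.rootSubgroup F (top D)).map (MulAut.conj (u * n * u')).toMonoidHom =
      (D.rootSubgroup F (top D) ⊔ D.rootSubgroup F β).map (MulAut.conj u).toMonoidHom := by
    rw [map_conj_mul, map_conj_mul, map_conj_eq_self (hcomm u' hu'), hnX, Subgroup.map_sup,
      map_conj_eq_self (hcomm u hu)]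
  rw [hmain]
  by_cases hb0 : (β : ℕ) = D.neg (top D)
  · refine Or.inr ⟨u⁻¹, inv_mem (borel_le_group h.cert (Subgroup.mem_sup_left hu)), ?_⟩
    rw [← map_conj_mul, inv_mul_cancel, map_conj_one, hb0, neg_top h]
  left
  refine IsPGroup.map ?_ _
  by_cases hbr : (β : ℕ) = top D
  · rw [hbr, sup_idem]
    exact isPGroup_rootSubgroup h p _
  have hmβ : ∀ l : List (Fin D.rank), m ((wPerm h.cert l) ⟨top D, top_lt h⟩ : Fin D.nroots) = true := by
    intro l
    induction l with
    | nil => simpa using hm0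
    | cons i l ih =>
      rw [wPerm_cons, Equiv.Perm.mul_apply, rfPerm_apply]
      show m (D.reflectRoot i _) = true
      rcases hmall _ ((wPerm h.cert l) ⟨top D, top_lt h⟩).isLt with h1 | h1
      · rw [ih] at h1; simp at h1
      · exact h1.2 i i.isLt
  have hσ : ∃ l, σ = wPerm h.cert l := by
    obtain ⟨l, t, ht, rfl⟩ := (mem_monomial_iff h).1 hn
    obtain ⟨c, rfl⟩ : ∃ c, torusHom D F c = t := by rwa [diagonalSubgroup_eq_range h] at ht
    obtain ⟨θ, hθ⟩ := acts_nW (F := F) h l
    exact ⟨l, by simpa using hA.perm_eq (hθ.mul (acts_torus h.cert c))⟩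
  obtain ⟨l, hl⟩ := hσ
  have hmb := hmβ l
  rw [← hl, ← hβdef] at hmb
  rcases hmall _ β.isLt with h1 | h1
  · rw [hmb] at h1; simp at h1
  · rcases h1.1 with (h2 | h2) | h2
    · exact absurd h2 hbr
    · exact absurd h2 hb0
    · exact isPGroup_pair h hD p (top_lt h) β.isLt hbr hb0 h2

end CfsgLib.Chevalley.HighRootPair
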