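import Cfsg.Agent.Lib.Chevalley.SimpleData
import Cfsg.Agent.Lib.Chevalley.Parabolic

/-!
Iterated cores of a maximal parabolic subgroup and of its conjugate by the reflection that it
omits, in a Chevalley group over the field with two elements.
-/

set_option autoImplicit false
set_option linter.unusedSimpArgs false
set_option linter.unusedSectionVars false

namespace CfsgLib.IterCore

variable {G : Type*} [Group G]

/-- The core in `K` of a subgroup, as a subgroup of the ambient group. -/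
def coreIn (K Y : Subgroup G) : Subgroup G := (Y.subgroupOf K).normalCore.map K.subtype

theorem mem_coreIn {K Y : Subgroup G} {x : G} :
    x ∈ coreIn K Y ↔ x ∈ K ∧ ∀ m ∈ K, m * x * m⁻¹ ∈ Y := by
  constructor
  · rintro ⟨⟨y, hy⟩, h, rfl⟩
    exact ⟨hy, fun m hm => h ⟨m, hm⟩⟩
  · rintro ⟨hx, h⟩
    exact ⟨⟨x, hx⟩, fun m => h m m.2, rfl⟩

theorem conj_mem_coreIn {K Y : Subgroup G} {m x : G} (hm : m ∈ K) (hx : x ∈ coreIn K Y) :
    m * x * m⁻¹ ∈ coreIn K Y := by
  obtain ⟨h1, h2⟩ := mem_coreIn.1 hx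
  refine mem_coreIn.2 ⟨K.mul_mem (K.mul_mem hm h1) (K.inv_mem hm), fun n hn => ?_⟩
  have := h2 (n * m) (K.mul_mem hn hm)
  simpa [mul_assoc] using this

/-- The descending sequence of cores in `M`. -/
def seqA (M : Subgroup G) (g : G) : ℕ → Subgroup G
  | 0 => M
  | k + 1 => coreIn M (seqA M g k ⊓ (seqA M g k).map (MulAut.conj g).toMonoidHom)

theorem seqA_zero (M : Subgroup G) (g : G) : seqA M g 0 = M := rfl

theorem seqA_succ (M : Subgroup G) (g : G) (k : ℕ) :
    seqA M g (k + 1) = coreIn M (seqA M g k ⊓ (seqA M g k).map (MulAut.conj g).toMonoidHom) := rfl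

variable {M : Subgroup G} {g : G}

theorem mem_map_conj (hg : g⁻¹ = g) {K : Subgroup G} {x : G} :
    x ∈ K.map (MulAut.conj g).toMonoidHom ↔ g * x * g ∈ K := by
  have hgg : g * g = 1 := by nth_rewrite 1 [← hg]; exact inv_mul_cancel g
  constructor
  · rintro ⟨y, hy, rfl⟩
    have e : g * ((MulAut.conj g).toMonoidHom y) * g = y := by
      show g * (g * y * g⁻¹) * g = y
      rw [hg, ← mul_assoc, ← mul_assoc, hgg, one_mul, mul_assoc, hgg, mul_one]
    rwa [e]
  · intro h
    refine ⟨g * x * g, h, ?_⟩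
    show g * (g * x * g) * g⁻¹ = x
    rw [hg, ← mul_assoc, ← mul_assoc, hgg, one_mul, mul_assoc, hgg, mul_one]

theorem conj_conj_invol (hg : g⁻¹ = g) (m x : G) :
    g * m * g * x * (g * m * g)⁻¹ = g * (m * (g * x * g) * m⁻¹) * g := by
  have hgg : g * g = 1 := by nth_rewrite 1 [← hg]; exact inv_mul_cancel g
  simp only [_root_.mul_inv_rev, hg, mul_assoc]

/-- The conjugate sequence is the sequence of cores in the conjugate of `M`. -/
theorem seqB_succ (hg : g⁻¹ = g) (k : ℕ) :
    (seqA M g (k + 1)).map (MulAut.conj g).toMonoidHom =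
      coreIn (M.map (MulAut.conj g).toMonoidHom)
        (seqA M g k ⊓ (seqA M g k).map (MulAut.conj g).toMonoidHom) := by
  have hgg : g * g = 1 := by nth_rewrite 1 [← hg]; exact inv_mul_cancel g
  have e : ∀ y : G, g * (g * y * g) * g = y := fun y => by
    rw [← mul_assoc, ← mul_assoc, hgg, one_mul, mul_assoc, hgg, mul_one]
  ext x
  rw [mem_map_conj hg, seqA_succ, mem_coreIn, mem_coreIn, mem_map_conj hg]
  refine and_congr_right fun _ => ⟨fun h m hm => ?_, fun h m hm => ?_⟩
  · rw [mem_map_conj hg] at hm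
    obtain ⟨h1, h2⟩ := h _ hm
    rw [conj_conj_invol hg, e] at h1 h2
    refine ⟨?_, (mem_map_conj hg).2 h1⟩
    have := (mem_map_conj hg).1 h2
    rwa [e] at this
  · have hm' : g * m * g ∈ M.map (MulAut.conj g).toMonoidHom := by
      rw [mem_map_conj hg, e]; exact hm
    obtain ⟨h1, h2⟩ := h _ hm'
    rw [conj_conj_invol hg] at h1 h2
    have h3 := (mem_map_conj hg).1 h2
    rw [e] at h3
    exact ⟨h3, (mem_map_conj hg).2 h1⟩

theorem seqA_le : ∀ k, seqA M g k ≤ M
  | 0 => le_rfl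
  | _ + 1 => fun _ hx => (mem_coreIn.1 hx).1

theorem conj_mem_seqA : ∀ (k : ℕ) {m x : G}, m ∈ M → x ∈ seqA M g k → m * x * m⁻¹ ∈ seqA M g k
  | 0, _, _, hm, hx => M.mul_mem (M.mul_mem hm hx) (M.inv_mem hm)
  | _ + 1, _, _, hm, hx => conj_mem_coreIn hm hx

theorem conj_mem_of_succ (hg : g⁻¹ = g) (k : ℕ) {x : G} (hx : x ∈ seqA M g (k + 1)) :
    g * x * g ∈ seqA M g k := by
  have := ((mem_coreIn.1 hx).2 1 M.one_mem).2
  rw [one_mul, inv_one, mul_one] at this
  exact (mem_map_conj hg).1 this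

theorem conj_mem_map_subtype {G' : Type*} [Group G'] {P H : Subgroup G'} {N : Subgroup H}
    (hP : P ≤ H) (hN : ∀ m ∈ P.subgroupOf H, ∀ x ∈ N, m * x * m⁻¹ ∈ N) :
    ∀ m ∈ P, ∀ y ∈ N.map H.subtype, m * y * m⁻¹ ∈ N.map H.subtype := by
  rintro m hm _ ⟨z, hz, rfl⟩
  exact ⟨⟨m, hP hm⟩ * z * ⟨m, hP hm⟩⁻¹, hN ⟨m, hP hm⟩ hm z hz, rfl⟩

end CfsgLib.IterCore

namespace CfsgLib.Chevalley

open Cfsg.Lie CfsgLib.IterCore Sparse

theorem zmod_two_eq_one {t : ZMod 2} (ht : t ≠ 0) : t = 1 := by revert t; decide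

variable {D : ChevalleyDatum} {A : Aux} {F : Type*} [Field F]

/-- The roots of level at least `k` in the coordinate `a`. -/
def levelRoots (D : ChevalleyDatum) (A : Aux) (a k : ℕ) : Set ℕ :=
  {r | r < D.nroots ∧ (k : ℤ) ≤ crd A a r}

theorem levelRoots_pos (h : Full D A) {a k : ℕ} (ha : a < D.rank) (hk : 1 ≤ k) {r : ℕ}
    (hr : r ∈ levelRoots D A a k) : D.IsPosRoot r :=
  h.isPos_of_crd_pos hr.1 ha (by have := hr.2; omega)

theorem parabolic_conj_level (h : Full D A) {a k : ℕ} (ha : a < D.rank) (hk : 1 ≤ k)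
    {m : GL D.Idx F} (hm : m ∈ D.parabolicSubgroup F {j | j ≠ a}) :
    ∀ v ∈ rootsU D F (levelRoots D A a k), m * v * m⁻¹ ∈ rootsU D F (levelRoots D A a k) := by
  suffices hle : D.parabolicSubgroup F {j | j ≠ a} ≤
      Subgroup.normalizer (rootsU D F (levelRoots D A a k) : Set (GL D.Idx F)) from
    fun v hv => (Subgroup.mem_normalizer_iff.1 (hle hm) v).1 hv
  rw [parabolic_eq h]
  refine sup_le (le_normalizer_of_conj_mem (diagonal_conj_rootsU h _)) ((rootsU_le_iff h.cert).2 ?_)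
  intro r hr t
  have hrl : r < D.nroots := by rcases hr with hr | hr <;> exact hr.1
  have hra : 0 ≤ crd A a r := by
    rcases hr with hp | hJ
    · exact h.crd_nonneg hp ha
    · exact ((h.inRootSub_iff.1 hJ).2 a ha (by simp)).symm.le
  refine (le_normalizer_of_conj_mem (K := D.rootSubgroup F r) fun g hg => ?_)
    (xG_mem_rootSubgroup h.cert r t)
  obtain ⟨u, rfl⟩ := (mem_rootSubgroup_iff h.cert).1 hg
  refine xG_conj_rootsU h.toStd hrl (fun s hs => hs.1) (fun s hs _ => ⟨fun e => ?_, fun c hc => ?_⟩) u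
  · have h1 := hs.2
    rw [e, (neg_facts h.cert ha hrl).1] at h1
    omega
  · obtain ⟨hclt, i, j, hi, hj, e⟩ := h.commTerms_crd hrl hs.1 hc
    exact ⟨hclt, by rw [e a ha]; have := hs.2; nlinarith⟩

/-- A positive unipotent element of high roots has a leading factor. -/
theorem exists_lead (hS : Std D A) {k : ℕ} (hk : D.IsPosRoot k) {v : GL D.Idx F}
    (hv : v ∈ rootsU D F ({r | D.IsPosRoot r} ∩ Set.Ici k)) :
    ∃ t : F, ∃ w ∈ rootsU D F ({r | D.IsPosRoot r} ∩ Set.Ici (k + 1)),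
      v = xG hS.cert k t * w := by
  induction hv using rootsU_induction hS.cert with
  | h1 => exact ⟨0, 1, Subgroup.one_mem _, by simp [xG_zero]⟩
  | hx r hr t =>
    by_cases hrk : r = k
    · subst hrk; exact ⟨t, 1, Subgroup.one_mem _, by simp⟩
    · refine ⟨0, _, xG_mem_rootsU hS.cert (S := {r | D.IsPosRoot r} ∩ Set.Ici (k + 1)) (r := r) ⟨hr.1, ?_⟩ t, by simp [xG_zero]⟩
      have : k ≤ r := hr.2
      exact Nat.succ_le_of_lt (lt_of_le_of_ne this (Ne.symm hrk))
  | hmul x y _ _ hx hy =>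
    obtain ⟨t, a, ha, rfl⟩ := hx
    obtain ⟨u, b, hb, rfl⟩ := hy
    refine ⟨t + u, xG hS.cert k (-u) * a * (xG hS.cert k (-u))⁻¹ * b,
      Subgroup.mul_mem _ (conj_mem_tail hS hS.isClosed_pos hk (-u) a ha) hb, ?_⟩
    rw [← xG_mul, ← xG_inv]
    group

/-- Commutators with a root element raise the weight by at least that of the root. -/
theorem commutator_tail (hS : Std D A) {s k r : ℕ} (hs : D.IsPosRoot s) (hk : D.IsPosRoot k)
    (hr : r < D.nroots) (hphi : phi D A r = phi D A s + phi D A k) (t : F) {v : GL D.Idx F}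
    (hv : v ∈ rootsU D F ({q | D.IsPosRoot q} ∩ Set.Ici (k + 1))) :
    xG hS.cert s t * v * (xG hS.cert s t)⁻¹ * v⁻¹ ∈
      rootsU D F ({q | D.IsPosRoot q} ∩ Set.Ici (r + 1)) := by
  induction hv using rootsU_induction hS.cert with
  | h1 => simp
  | hx u hu w =>
    by_cases hne : u = s
    · subst hne
      simp only [xG_mul, xG_inv]
      rw [show t + w + -t + -w = 0 by ring, xG_zero]
      exact Subgroup.one_mem _
    have hku : k < u := hu.2
    obtain ⟨W, hW, e⟩ := conj_xG hS hs.1 hu.1.1 hne (hS.ne_neg hs hu.1)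
      (T := {q | D.IsPosRoot q} ∩ Set.Ici (r + 1)) (fun c hc => by
        obtain ⟨hlt, i, j, hi, hj, e⟩ := hS.pos.commTerms_phi hS.cert hs.1 hu.1.1 hc
        refine ⟨(hS.lt_commTerms hs hu.1 hc).1, Nat.succ_le_of_lt ((hS.pos.phi_lt_iff hr hlt).1 ?_)⟩
        have := hS.pos.phi_lt hku hu.1.1
        have := hS.pos.phi_pos hs
        have := hS.pos.phi_pos hu.1
        rw [hphi, e]
        nlinarith) t w
    rw [e]
    exact conj_mem_tail hS hS.isClosed_pos hu.1 w W hW
  | hmul x y hx' _ hx hy =>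
    have e : xG hS.cert s t * (x * y) * (xG hS.cert s t)⁻¹ * (x * y)⁻¹ =
        (xG hS.cert s t * x * (xG hS.cert s t)⁻¹ * x⁻¹) *
          (x * (xG hS.cert s t * y * (xG hS.cert s t)⁻¹ * y⁻¹) * x⁻¹) := by group
    rw [e]
    exact Subgroup.mul_mem _ hx (conj_mem_of_mem hS hS.isClosed_pos (r + 1)
      (rootsU_mono Set.inter_subset_left hx') _ hy)

/-- Conjugate of a root element by another one with a single commutator term. -/
theorem conj_xG_single (hS : Std D A) {r s : ℕ} (hr : r < D.nroots) (hs : s < D.nroots)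
    (hne : s ≠ r) (hneg : s ≠ D.neg r) {c : ℕ × ℤ × ℕ × ℕ} (hc : D.commTerms r s = [c]) (t u : F) :
    xG hS.cert r t * xG hS.cert s u * (xG hS.cert r t)⁻¹ =
      xG hS.cert s u * xG hS.cert c.1 ((c.2.1 : F) * t ^ c.2.2.1 * u ^ c.2.2.2) := by
  have h := x_mul_x hS.mem hr hs hne hneg (-t) u
  rw [wordMat_eq_prod hS.cert] at h
  simp only [ChevalleyDatum.commWord, hc, List.map_cons, List.map_nil, List.prod_cons,
    List.prod_nil, mul_one, neg_neg] at h
  have h' : xG hS.cert s u * xG hS.cert r (-t) = xG hS.cert r (-t) * xG hS.cert s u *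
      xG hS.cert c.1 ((c.2.1 : F) * t ^ c.2.2.1 * u ^ c.2.2.2) := Units.ext (by simpa using h)
  rw [← xG_inv] at h'
  rw [mul_assoc, h', ← mul_assoc, ← mul_assoc, mul_inv_cancel, one_mul]

/-- The numerical facts about the node `a`, the levels and the reflection path used below. -/
structure CoreData (D : ChevalleyDatum) (A : Aux) (a : Fin D.rank) : Prop where
  /-- the reflection in `a` lowers high levels by at most one -/
  drop : lall (fun s => decide (crd A a s < 2) || decide (fCart A a s ≤ 1)) (List.range D.nroots) = true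
  /-- every reflection lowers some root outside the subsystem -/
  lower : lall (fun j => (List.range D.nroots).any fun r => decide (0 < crd A a r) &&
      Nat.ble (D.nroots / 2) (D.reflectRoot j r) && Nat.blt (D.reflectRoot j r) r)
    (List.range D.rank) = true
  /-- every positive root but the top one is raised by a fundamental one -/
  raise : lall (fun k => (List.range D.rank).any fun j => !(D.simple j == k) &&
      match D.commTerms (D.simple j) k with
      | [c] => (c.2.1 == 1 || c.2.1 == -1) &&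
          decide (phi D A c.1 = phi D A (D.simple j) + phi D A k)
      | _ => false)
    (List.range' (D.nroots / 2) (D.nroots / 2 - 1)) = true

variable {a : Fin D.rank}

section two

variable (h : Full D A) (a : Fin D.rank)

/-- The maximal parabolic subgroup omitting `a`. -/
noncomputable def maxPar : Subgroup (D.group (ZMod 2)) :=
  (D.parabolicSubgroup (ZMod 2) {j | j ≠ (a : ℕ)}).subgroupOf (D.group (ZMod 2))

/-- A root element as an element of the group. -/
noncomputable def xEl (r : ℕ) : D.group (ZMod 2) := ⟨xG h.cert r 1, xG_mem_group h.cert r 1⟩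

/-- The monomial element of a fundamental root as an element of the group. -/
noncomputable def nEl (i : Fin D.rank) : D.group (ZMod 2) :=
  ⟨nG h.cert (D.simple i) 1, nG_mem_group h.cert _ _⟩

variable {a}

include h

theorem nEl_inv (i : Fin D.rank) : (nEl h i)⁻¹ = nEl h i :=
  Subtype.ext (by
    show (nG h.cert (D.simple i) (1 : ZMod 2))⁻¹ = nG h.cert (D.simple i) 1
    rw [nG_inv, show (-1 : ZMod 2) = 1 by decide])

theorem conj_nG_xG (i : Fin D.rank) {r : ℕ} (hr : r < D.nroots) :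
    nG h.cert (D.simple i) (1 : ZMod 2) * xG h.cert r 1 * (nG h.cert (D.simple i) 1)⁻¹ =
      xG h.cert (D.reflectRoot i r) 1 := by
  have hA := acts_nG_simple (F := ZMod 2) h i one_ne_zero
  have e := hA.conj ⟨r, hr⟩ 1
  rw [zmod_two_eq_one (mul_ne_zero (hA.ne_zero _) one_ne_zero)] at e
  exact e

theorem nEl_conj_xEl (i : Fin D.rank) {r : ℕ} (hr : r < D.nroots) :
    nEl h i * xEl h r * (nEl h i)⁻¹ = xEl h (D.reflectRoot i r) :=
  Subtype.ext (conj_nG_xG h i hr)

theorem nEl_mem_maxPar {i : Fin D.rank} (hi : (i : ℕ) ≠ a) : nEl h i ∈ maxPar (D := D) a :=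
  nG_mem_parabolic h i.isLt hi

theorem borel_eq_pos : D.borelSubgroup (ZMod 2) = rootsU D (ZMod 2) {r | D.IsPosRoot r} := by
  refine le_antisymm (sup_le le_rfl ?_) le_sup_left
  rw [diagonalSubgroup_eq_range h]
  rintro t ⟨c, rfl⟩
  have : c = 1 := funext fun i => by
    have : ∀ u : (ZMod 2)ˣ, u = 1 := fun u => Units.ext (zmod_two_eq_one u.ne_zero)
    exact this (c i)
  rw [this, map_one]
  exact Subgroup.one_mem _

theorem xEl_neg_not_mem : xEl h (D.neg (D.simple a)) ∉ maxPar (D := D) a := by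
  intro hmem
  set α := D.simple (a : ℕ)
  have hpos : D.IsPosRoot α := h.simple_pos a.isLt
  have hα : xG h.cert α (1 : ZMod 2) ∈ D.parabolicSubgroup (ZMod 2) {j | j ≠ (a : ℕ)} :=
    xG_mem_parabolic h (Or.inl hpos) _
  have hn : nG h.cert α (1 : ZMod 2) ∈ D.parabolicSubgroup (ZMod 2) {j | j ≠ (a : ℕ)} := by
    rw [nG, inv_one, show (-1 : ZMod 2) = 1 by decide]
    exact Subgroup.mul_mem _ (Subgroup.mul_mem _ hα hmem) hα
  have hR : α ∈ radRoots D {j | j ≠ (a : ℕ)} := ⟨hpos, fun hJ => by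
    have := (h.inRootSub_iff.1 hJ).2 a a.isLt (by simp)
    rw [crd_simple h.cert a.isLt a.isLt, if_pos rfl] at this
    exact one_ne_zero this⟩
  have h1 := (Subgroup.mem_normalizer_iff.1 (parabolic_le_normalizer h _ hn) _).1
    (xG_mem_rootsU h.cert hR (1 : ZMod 2))
  rw [conj_nG_xG h a hpos.1] at h1
  have h2 : xG h.cert (D.reflectRoot a α) (1 : ZMod 2) ∈
      D.borelSubgroup (ZMod 2) ⊓ D.negUnipotent (ZMod 2) := by
    refine ⟨Subgroup.mem_sup_left (rootsU_mono (T := {r | D.IsPosRoot r}) (fun r hr => hr.1) h1),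
      xG_mem_rootsU (S := {r | D.IsNegRoot r}) h.cert ?_ _⟩
    show D.IsNegRoot (D.reflectRoot a α)
    rw [show D.reflectRoot a α = D.neg α by simp [ChevalleyDatum.reflectRoot, α]]
    exact h.toStd.neg_isNeg hpos
  rw [borel_inf_negUnipotent h, Subgroup.mem_bot] at h2
  exact one_ne_zero (xG_injective h.cert (rf h.cert a ⟨α, hpos.1⟩).isLt
    (show xG h.cert (D.reflectRoot a α) (1 : ZMod 2) = xG h.cert (D.reflectRoot a α) 0 by
      rw [h2, xG_zero]))

theorem conj_simple_eq : nEl h a * xEl h (D.simple a) * nEl h a = xEl h (D.neg (D.simple a)) := by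
  conv_lhs => arg 2; rw [← nEl_inv h a]
  rw [nEl_conj_xEl h a (h.cert.wf.simple_lt a a.isLt)]
  congr 1
  simp [ChevalleyDatum.reflectRoot]

theorem xEl_simple_mem : xEl h (D.simple a) ∈ maxPar (D := D) a :=
  xG_mem_parabolic h (Or.inl (h.simple_pos a.isLt)) _

theorem nEl_not_mem : nEl h a ∉ maxPar (D := D) a := fun hn => xEl_neg_not_mem h <| by
  rw [← conj_simple_eq h]
  exact (maxPar a).mul_mem ((maxPar a).mul_mem hn (xEl_simple_mem h)) hn

theorem isCoatom_maxPar : IsCoatom (maxPar (D := D) a) := by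
  refine ⟨fun e => nEl_not_mem h (a := a) (e ▸ Subgroup.mem_top _), fun K hK => ?_⟩
  have hB : (bnPair h (ZMod 2)).B ≤ maxPar a := fun x hx => Subgroup.mem_sup_left hx
  have hBK := hB.trans hK.le
  by_cases hn : nEl h a ∈ K
  · rw [eq_top_iff, CfsgLib.BNPair.overgroup_eq (P := bnPair h (ZMod 2)) (M := ⊤) le_top]
    refine sup_le hBK ((Subgroup.closure_le _).2 ?_)
    rintro s ⟨hs, -⟩
    obtain ⟨i, e⟩ := (mem_simpleReps h).1 hs
    rw [show s = nEl h i from Subtype.ext e]
    by_cases hi : (i : ℕ) = a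
    · rw [Fin.ext hi]; exact hn
    · exact hK.le (nEl_mem_maxPar h hi)
  · refine absurd ?_ (not_le_of_gt hK)
    rw [CfsgLib.BNPair.overgroup_eq (P := bnPair h (ZMod 2)) hBK]
    refine sup_le hB ((Subgroup.closure_le _).2 ?_)
    rintro s ⟨hs, hsK⟩
    obtain ⟨i, e⟩ := (mem_simpleReps h).1 hs
    have hse : s = nEl h i := Subtype.ext e
    rw [hse] at hsK ⊢
    exact nEl_mem_maxPar h fun hi => hn (by rwa [← Fin.ext hi])

theorem map_conj_ne : maxPar (D := D) a ≠ (maxPar (D := D) a).map (MulAut.conj (nEl h a)).toMonoidHom := by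
  intro e
  have hx := xEl_simple_mem h (a := a)
  rw [e, mem_map_conj (nEl_inv h a), conj_simple_eq h] at hx
  exact xEl_neg_not_mem h hx

theorem level_le_seqA (hd : CoreData D A a) : ∀ k, (rootsU D (ZMod 2)
    (levelRoots D A a (k + 1))).subgroupOf (D.group (ZMod 2)) ≤ seqA (maxPar a) (nEl h a) k := by
  intro k
  induction k with
  | zero =>
    intro x hx
    exact Subgroup.mem_sup_left (Subgroup.mem_sup_left
      (rootsU_mono (T := {r | D.IsPosRoot r}) (fun r hr => levelRoots_pos h a.isLt le_rfl hr) hx))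
  | succ k ih =>
    intro x hx
    have hxM : x ∈ maxPar (D := D) a := Subgroup.mem_sup_left (Subgroup.mem_sup_left
      (rootsU_mono (T := {r | D.IsPosRoot r})
        (fun r hr => levelRoots_pos h a.isLt (Nat.le_add_left _ _) hr) hx))
    refine mem_coreIn.2 ⟨hxM, fun m hm => ?_⟩
    have h1 := parabolic_conj_level h a.isLt (Nat.le_add_left _ _) hm _ hx
    refine ⟨ih (rootsU_mono (S := levelRoots D A a (k + 1 + 1)) (T := levelRoots D A a (k + 1))
      (fun r hr => ⟨hr.1, le_trans (by omega) hr.2⟩) h1),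
      (mem_map_conj (nEl_inv h a)).2 (ih ?_)⟩
    have hmove : ∀ s : Fin D.nroots, (s : ℕ) ∈ levelRoots D A a (k + 1 + 1) →
        ((rfPerm h.cert a s : Fin D.nroots) : ℕ) ∈ levelRoots D A a (k + 1) := by
      intro s hs
      refine ⟨(rfPerm h.cert a s).isLt, ?_⟩
      rw [rfPerm_apply, h.crd_rf a a.isLt, if_pos rfl, mul_one]
      have hdr := hd.drop
      simp only [lall_eq, List.all_eq_true, List.mem_range, Bool.or_eq_true, decide_eq_true_eq] at hdr
      have h3 := hs.2
      rcases hdr s s.isLt with h4 | h4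
      · omega
      · rw [h.cert.fCart_eq a.isLt s.isLt] at h4
        omega
    have h2 := (acts_nG_simple (F := ZMod 2) h a one_ne_zero).conj_rootsU hmove _ h1
    rw [Subgroup.mem_subgroupOf, Subgroup.coe_mul, Subgroup.coe_mul]
    have hinv : (nG h.cert (D.simple a) (1 : ZMod 2))⁻¹ = nG h.cert (D.simple a) 1 :=
      congrArg Subtype.val (nEl_inv h a)
    rw [hinv] at h2
    exact h2

theorem xEl_mem_seqA (hd : CoreData D A a) {k r : ℕ} (hr : r < D.nroots)
    (hk : (k : ℤ) + 1 ≤ crd A a r) : xEl h r ∈ seqA (maxPar a) (nEl h a) k :=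
  level_le_seqA h hd k (Subgroup.mem_subgroupOf.2
    (xG_mem_rootsU h.cert (S := levelRoots D A a (k + 1)) ⟨hr, by push_cast; omega⟩ (1 : ZMod 2)))

theorem xEl_ne_one {r : ℕ} (hr : r < D.nroots) : xEl h r ≠ 1 := fun e => one_ne_zero
  (xG_injective h.cert hr ((congrArg Subtype.val e).trans (xG_zero h.cert r).symm) :
    (1 : ZMod 2) = 0)

theorem path_mem (p : List (Fin D.rank)) : ∀ {r : ℕ}, r < D.nroots →
    xEl h r ∈ seqA (maxPar a) (nEl h a) (p.count a) →
    xEl h (p.foldl (fun q i => D.reflectRoot i q) r) ∈ maxPar (D := D) a := by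
  induction p with
  | nil => intro r _ hx; exact hx
  | cons i p ih =>
    intro r hr hx
    refine ih (rf h.cert i ⟨r, hr⟩).isLt ?_
    rw [← nEl_conj_xEl h i hr]
    by_cases hi : i = a
    · subst hi
      rw [List.count_cons_self] at hx
      rw [nEl_inv]
      exact conj_mem_of_succ (nEl_inv h i) _ hx
    · rw [List.count_cons_of_ne hi] at hx
      exact conj_mem_seqA _ (nEl_mem_maxPar h fun e => hi (Fin.ext e)) hx

theorem pos_case (hd : CoreData D A a) {N : Subgroup (GL D.Idx (ZMod 2))}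
    (hN : ∀ m ∈ D.parabolicSubgroup (ZMod 2) {j | j ≠ (a : ℕ)}, ∀ x ∈ N, m * x * m⁻¹ ∈ N) :
    ∀ d k : ℕ, D.nroots ≤ k + d → ∀ n ∈ N,
      n ∈ rootsU D (ZMod 2) ({r | D.IsPosRoot r} ∩ Set.Ici k) → n ≠ 1 →
      xG h.cert (D.nroots - 1) 1 ∈ N := by
  intro d
  induction d with
  | zero =>
    intro k hk n hnN hn h1
    refine absurd ?_ h1
    have : {r | D.IsPosRoot r} ∩ Set.Ici k = ∅ := Set.eq_empty_iff_forall_notMem.2 fun r hr => by
      have := hr.1.1
      have : k ≤ r := hr.2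
      omega
    rw [this] at hn
    clear h1
    clear hnN
    induction hn using rootsU_induction h.cert with
    | h1 => rfl
    | hx r hr t => exact absurd hr (Set.notMem_empty r)
    | hmul x y _ _ hx hy => rw [hx, hy, mul_one]
  | succ d ih =>
    intro k hk n hnN hn h1
    have hnext : ∀ {m}, m ∈ N → m ∈ rootsU D (ZMod 2) ({r | D.IsPosRoot r} ∩ Set.Ici (k + 1)) →
        m ≠ 1 → xG h.cert (D.nroots - 1) 1 ∈ N := fun {m} => ih (k + 1) (by omega) m
    by_cases hkp : D.IsPosRoot k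
    swap
    · refine hnext hnN (rootsU_mono (fun r hr => ?_) hn) h1
      have h2 : k ≤ r := hr.2
      exact ⟨hr.1, Nat.succ_le_of_lt (lt_of_le_of_ne h2 fun e => hkp (e ▸ hr.1))⟩
    obtain ⟨t, w, hw, e⟩ := exists_lead h.toStd hkp hn
    by_cases ht : t = 0
    · refine hnext hnN ?_ h1
      rw [e, ht, xG_zero, one_mul]
      exact hw
    rw [zmod_two_eq_one ht] at e
    by_cases htop : k = D.nroots - 1
    · have hw1 : w = 1 := by
        have : {r | D.IsPosRoot r} ∩ Set.Ici (k + 1) = ∅ :=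
          Set.eq_empty_iff_forall_notMem.2 fun r hr => by
            have := hr.1.1
            have : k + 1 ≤ r := hr.2
            omega
        rw [this] at hw
        clear e
        induction hw using rootsU_induction h.cert with
        | h1 => rfl
        | hx r hr t => exact absurd hr (Set.notMem_empty r)
        | hmul x y _ _ hx hy => rw [hx, hy, mul_one]
      rw [← htop, show xG h.cert k (1 : ZMod 2) = n by rw [e, hw1, mul_one]]
      exact hnN
    have hrange := (h.pos.isPos_iff.1 hkp)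
    have hra := hd.raise
    simp only [lall_eq, List.all_eq_true, List.mem_range'_1, List.any_eq_true, List.mem_range,
      Bool.and_eq_true, Bool.not_eq_true', beq_eq_false_iff_ne] at hra
    have hnr := h.pos.nroots_eq
    obtain ⟨j, hj, hne, hm⟩ := hra k ⟨hrange.1, by omega⟩
    split at hm
    case _ c hc =>
      simp only [Bool.and_eq_true, Bool.or_eq_true, beq_iff_eq, decide_eq_true_eq] at hm
      obtain ⟨hsign, hphi⟩ := hm
      have hsp := h.simple_pos hj
      have hcm : c ∈ D.commTerms (D.simple j) k := by rw [hc]; simp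
      have hc1 : D.IsPosRoot c.1 := (h.toStd.lt_commTerms hsp hkp hcm).1
      set x := xG h.cert (D.simple j) (1 : ZMod 2) with hxdef
      have hxP : x ∈ D.parabolicSubgroup (ZMod 2) {j | j ≠ (a : ℕ)} :=
        xG_mem_parabolic h (Or.inl hsp) _
      refine hnext (N.mul_mem (hN x hxP n hnN) (N.inv_mem hnN))
        (commutator_mem h.toStd h.toStd.isClosed_pos
          (xG_mem_rootsU (S := {r | D.IsPosRoot r}) h.cert hsp _) hn) ?_
      intro hone
      have hT := commutator_tail h.toStd hsp hkp hc1.1 hphi (1 : ZMod 2) hw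
      have hcs := conj_xG_single h.toStd hsp.1 hkp.1 (Ne.symm hne)
        (h.toStd.ne_neg hsp hkp) hc (1 : ZMod 2) (1 : ZMod 2)
      have hc2 : ((c.2.1 : ZMod 2) * 1 ^ c.2.2.1 * 1 ^ c.2.2.2) = 1 := by
        rcases hsign with h' | h' <;> rw [h'] <;> simp [show (-1 : ZMod 2) = 1 by decide]
      rw [hc2, ← hxdef] at hcs
      rw [← hxdef] at hT
      set W := xG h.cert c.1 (1 : ZMod 2) with hW
      set C := x * w * x⁻¹ * w⁻¹ with hC
      have hWC : W * C = 1 := by
        have e1 : x * n * x⁻¹ * n⁻¹ = xG h.cert k 1 * (W * C) * (xG h.cert k 1)⁻¹ := by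
          rw [e, hC]
          calc x * (xG h.cert k 1 * w) * x⁻¹ * (xG h.cert k 1 * w)⁻¹
              = (x * xG h.cert k 1 * x⁻¹) * (x * w * x⁻¹ * w⁻¹) * (xG h.cert k 1)⁻¹ := by group
            _ = _ := by rw [hcs]; group
        rw [e1, conj_eq_one_iff] at hone
        exact hone
      refine one_ne_zero (eq_zero_of_xG_mem h.toStd hc1
        (S := {q | D.IsPosRoot q} ∩ Set.Ici (c.1 + 1)) (t := (1 : ZMod 2))
        (fun r hr => ⟨hr.1, hr.2⟩) ?_)
      rw [← hW, eq_inv_of_mul_eq_one_left hWC]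
      exact Subgroup.inv_mem _ hT
    case _ => simp at hm

theorem trivial_case (hd : CoreData D A a) {N : Subgroup (D.group (ZMod 2))}
    (hNM : N ≤ maxPar a) (hN : ∀ m ∈ maxPar (D := D) a, ∀ x ∈ N, m * x * m⁻¹ ∈ N)
    (hU : ∀ x ∈ N, (x : GL D.Idx (ZMod 2)) ∈ rootsU D (ZMod 2) {r | D.IsPosRoot r} → x = 1) :
    N = ⊥ := by
  have hposP : ∀ {v : GL D.Idx (ZMod 2)}, v ∈ rootsU D (ZMod 2) {r | D.IsPosRoot r} →
      v ∈ D.parabolicSubgroup (ZMod 2) {j | j ≠ (a : ℕ)} := fun hv =>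
    Subgroup.mem_sup_left (Subgroup.mem_sup_left hv)
  have hcent : ∀ n ∈ N, ∀ r ∈ radRoots D {j | j ≠ (a : ℕ)},
      (n : GL D.Idx (ZMod 2)) * xG h.cert r 1 * (n : GL D.Idx (ZMod 2))⁻¹ = xG h.cert r 1 := by
    intro n hn r hr
    have hrP : xEl h r ∈ maxPar (D := D) a := xG_mem_parabolic h (Or.inl hr.1) _
    have hc : n * xEl h r * n⁻¹ * (xEl h r)⁻¹ ∈ N := by
      have e : n * xEl h r * n⁻¹ * (xEl h r)⁻¹ = n * (xEl h r * n⁻¹ * (xEl h r)⁻¹) := by group
      rw [e]
      exact N.mul_mem hn (hN _ hrP _ (N.inv_mem hn))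
    have h1 : (n : GL D.Idx (ZMod 2)) * xG h.cert r 1 * (n : GL D.Idx (ZMod 2))⁻¹ ∈
        rootsU D (ZMod 2) (radRoots D {j | j ≠ (a : ℕ)}) :=
      (Subgroup.mem_normalizer_iff.1 (parabolic_le_normalizer h _ (hNM hn)) _).1
        (xG_mem_rootsU h.cert hr _)
    have h2 := hU _ hc (by
      rw [Subgroup.coe_mul, Subgroup.coe_mul, Subgroup.coe_mul]
      exact Subgroup.mul_mem _ (rootsU_mono (fun q hq => hq.1) h1)
        (Subgroup.inv_mem _ (xG_mem_rootsU h.cert (S := {r | D.IsPosRoot r}) hr.1 _)))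
    rw [mul_inv_eq_one] at h2
    exact congrArg Subtype.val h2
  have hB : (bnPair h (ZMod 2)).B ≤ maxPar a := fun x hx => Subgroup.mem_sup_left hx
  by_cases hs : ∃ i : Fin D.rank, nEl h i ∈ N ⊔ (bnPair h (ZMod 2)).B
  · obtain ⟨i, hi⟩ := hs
    exfalso
    obtain ⟨c, hc, b, hb, e⟩ :=
      (mem_sup_iff_of_conj fun m hm x hx => hN m (hB hm) x hx).1 hi
    have hlo := hd.lower
    simp only [lall_eq, List.all_eq_true, List.mem_range, List.any_eq_true, Bool.and_eq_true,
      decide_eq_true_eq, Nat.blt_eq, Nat.ble_eq] at hlo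
    obtain ⟨r, hr, ⟨hcr, hrpos⟩, hlt⟩ := hlo i i.isLt
    have hrp : D.IsPosRoot r := h.isPos_of_crd_pos hr a.isLt hcr
    have hrR : r ∈ radRoots D {j | j ≠ (a : ℕ)} := ⟨hrp, fun hJ => by
      have := (h.inRootSub_iff.1 hJ).2 a a.isLt (by simp)
      omega⟩
    have hbU : (b : GL D.Idx (ZMod 2)) ∈ rootsU D (ZMod 2) {q | D.IsPosRoot q} := by
      have : (b : GL D.Idx (ZMod 2)) ∈ D.borelSubgroup (ZMod 2) := hb
      rwa [borel_eq_pos h] at this
    set s' := (b : GL D.Idx (ZMod 2)) * xG h.cert r 1 * (b : GL D.Idx (ZMod 2))⁻¹ with hs'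
    have hs1 : s' ∈ rootsU D (ZMod 2) ({q | D.IsPosRoot q} ∩ Set.Ici r) :=
      conj_mem_of_mem h.toStd h.toStd.isClosed_pos r hbU _
        (xG_mem_rootsU h.cert (S := {q | D.IsPosRoot q} ∩ Set.Ici r) ⟨hrp, le_refl r⟩ _)
    have hsR : s' ∈ rootsU D (ZMod 2) (radRoots D {j | j ≠ (a : ℕ)}) :=
      (Subgroup.mem_normalizer_iff.1 (parabolic_le_normalizer h _ (hposP hbU)) _).1
        (xG_mem_rootsU h.cert hrR _)
    have hfix : ∀ v ∈ rootsU D (ZMod 2) (radRoots D {j | j ≠ (a : ℕ)}),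
        (c : GL D.Idx (ZMod 2)) * v * (c : GL D.Idx (ZMod 2))⁻¹ = v := by
      intro v hv
      induction hv using rootsU_induction h.cert with
      | h1 => simp
      | hx q hq t =>
        rcases eq_or_ne t 0 with rfl | ht
        · simp [xG_zero]
        · rw [zmod_two_eq_one ht]; exact hcent c hc q hq
      | hmul x y _ _ hx hy =>
        calc _ = (c : GL D.Idx (ZMod 2)) * x * (c : GL D.Idx (ZMod 2))⁻¹ *
              ((c : GL D.Idx (ZMod 2)) * y * (c : GL D.Idx (ZMod 2))⁻¹) := by group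
          _ = x * y := by rw [hx, hy]
    have h3 : xG h.cert (D.reflectRoot i r) (1 : ZMod 2) = s' := by
      rw [← conj_nG_xG h i hr, show nG h.cert (D.simple i) (1 : ZMod 2) = c * b from congrArg Subtype.val e,
        ← hfix s' hsR, hs']
      group
    have hqp : D.IsPosRoot (D.reflectRoot i r) :=
      h.pos.isPos_iff.2 ⟨hrpos, (rf h.cert i ⟨r, hr⟩).isLt⟩
    exact one_ne_zero (eq_zero_of_xG_mem h.toStd hqp
      (S := {q | D.IsPosRoot q} ∩ Set.Ici r) (t := (1 : ZMod 2))
      (fun q hq => ⟨hq.1, lt_of_lt_of_le hlt hq.2⟩) (h3 ▸ hs1))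
  · simp only [not_exists] at hs
    rw [eq_bot_iff]
    intro x hx
    have hK := CfsgLib.BNPair.overgroup_eq (P := bnPair h (ZMod 2))
      (M := N ⊔ (bnPair h (ZMod 2)).B) le_sup_right
    have hle : N ⊔ (bnPair h (ZMod 2)).B ≤ (bnPair h (ZMod 2)).B := by
      rw [hK]
      refine sup_le le_rfl ((Subgroup.closure_le _).2 ?_)
      rintro s ⟨hsS, hsK⟩
      obtain ⟨i, e⟩ := (mem_simpleReps h).1 hsS
      rw [show s = nEl h i from Subtype.ext e] at hsK
      exact absurd hsK (hs i)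
    have hxB : (x : GL D.Idx (ZMod 2)) ∈ D.borelSubgroup (ZMod 2) :=
      hle (Subgroup.mem_sup_left hx)
    rw [borel_eq_pos h] at hxB
    exact Subgroup.mem_bot.2 (hU x hx hxB)

theorem seqA_eq_bot (hd : CoreData D A a) (p : List (Fin D.rank))
    (hp : p.foldl (fun q i => D.reflectRoot i q) (D.nroots - 1) = D.neg (D.simple a)) :
    seqA (maxPar a) (nEl h a) (p.count a) = ⊥ := by
  obtain ⟨N, hNdef⟩ : ∃ N, seqA (maxPar a) (nEl h a) (p.count a) = N := ⟨_, rfl⟩
  have hNM : N ≤ maxPar a := hNdef ▸ seqA_le _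
  have hN : ∀ m ∈ maxPar (D := D) a, ∀ x ∈ N, m * x * m⁻¹ ∈ N := by
    subst hNdef
    exact fun m hm x hx => conj_mem_seqA _ hm hx
  rw [hNdef]
  refine trivial_case h hd hNM hN fun x hx hxU => ?_
  by_contra hx1
  have hP : D.parabolicSubgroup (ZMod 2) {j | j ≠ (a : ℕ)} ≤ D.group (ZMod 2) := by
    rw [← normalizer_inf_group h]; exact inf_le_right
  have htop := pos_case h hd (N := N.map (D.group (ZMod 2)).subtype)
    (conj_mem_map_subtype hP hN)
    D.nroots 0 (by omega) (x : GL D.Idx (ZMod 2)) (Subgroup.mem_map.2 ⟨x, hx, rfl⟩)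
    (rootsU_mono (S := {r | D.IsPosRoot r}) (T := {r | D.IsPosRoot r} ∩ Set.Ici 0)
      (fun r hr => ⟨hr, Nat.zero_le r⟩) hxU) (fun e => hx1 (Subtype.ext e))
  obtain ⟨z, hz, hze⟩ := htop
  rw [show z = xEl h (D.nroots - 1) from Subtype.ext hze, ← hNdef] at hz
  have := path_mem h p (r := D.nroots - 1) (by have := h.pos.half_pos; omega) hz
  rw [hp] at this
  exact xEl_neg_not_mem h this

end two

end CfsgLib.Chevalley
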